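import Cfsg.Agent.H904.L34.Fin

/-!
# S5917, part I (helper904): `trace_zero`
-/

set_option autoImplicit false
set_option linter.unusedSectionVars false

namespace Cfsg.Agent.H904.L34

open Matrix Cfsg.Agent.H691.L34 Module

section

variable {F : Type} [Field F] [Fintype F] {V : Type} [AddCommGroup V] [Module (ZMod 2) V] [Module.Finite (ZMod 2) V]
  {ρ : Representation (ZMod 2) (G3 F) V}

theorem mem_E_of (hF : Fintype.card F = 4) {E : Subgroup (G3 F)}
    (hE : ∀ g : G3 F, g ∈ E ↔ (hact g (1 : M3 F) = 1 ∧ g ^ 3 = 1)) {z : G3 F} (hz : hact z (1 : M3 F) = 1) :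
    ∀ g ∈ E, z * g * z⁻¹ ∈ E := by
  intro g hg
  obtain ⟨h1, h2⟩ := (hE g).1 hg
  refine (hE _).2 ⟨?_, ?_⟩
  · exact (RR hF).mul_mem ((RR hF).mul_mem hz h1) ((RR hF).inv_mem hz)
  · rw [conj_pow, h2, mul_one, mul_inv_cancel]

open Classical in
/-- the sum over the elements of 2-power order is the sum over `R` -/
theorem sum_two (hF : Fintype.card F = 4) {E : Subgroup (G3 F)}
    (hE : ∀ g : G3 F, g ∈ E ↔ (hact g (1 : M3 F) = 1 ∧ g ^ 3 = 1)) {u : V} (hu : ∀ g ∈ E, ρ g u = u) [Fintype (G3 F)] :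
    ∑ g ∈ Finset.univ.filter (fun g : G3 F => hact g (1 : M3 F) = 1), ρ g u =
    ∑ g ∈ Finset.univ.filter (fun g : G3 F => hact g (1 : M3 F) = 1 ∧ ∃ m : ℕ, g ^ (2 ^ m) = 1), ρ g u := by
  set S := Finset.univ.filter (fun g : G3 F => hact g (1 : M3 F) = 1) with hS
  set T := Finset.univ.filter (fun g : G3 F => hact g (1 : M3 F) = 1 ∧ ∃ m : ℕ, g ^ (2 ^ m) = 1) with hT
  have memS : ∀ g : G3 F, g ∈ S ↔ hact g (1 : M3 F) = 1 := fun g => by
    rw [hS, Finset.mem_filter]; exact ⟨fun h => h.2, fun h => ⟨Finset.mem_univ _, h⟩⟩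
  have memT : ∀ g : G3 F, g ∈ T ↔ (hact g (1 : M3 F) = 1 ∧ ∃ m : ℕ, g ^ (2 ^ m) = 1) := fun g => by
    rw [hT, Finset.mem_filter]; exact ⟨fun h => h.2, fun h => ⟨Finset.mem_univ _, h⟩⟩
  have hmaps : ∀ g ∈ S, g ^ 9 ∈ T := by
    intro g hg
    have h1 := (memS g).1 hg
    rw [memT]
    refine ⟨(RR hF).pow_mem h1 9, 2, ?_⟩
    have h2 := pow_twelve hF h1
    rw [← pow_mul]
    have : 9 * 2 ^ 2 = 12 * 3 := by norm_num
    rw [this, pow_mul, h2, one_pow]
  rw [← Finset.sum_fiberwise_of_maps_to hmaps]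
  apply Finset.sum_congr rfl
  intro x hx
  obtain ⟨hx1, m, hm⟩ := (memT x).1 hx
  have hx12 := pow_twelve hF hx1
  -- `x ^ 4 = 1`
  have hx4 : x ^ 4 = 1 := by
    obtain ⟨k, -, hk⟩ := (Nat.dvd_prime_pow Nat.prime_two).1 (orderOf_dvd_of_pow_eq_one hm)
    have h2 : 2 ^ k ∣ 12 := hk ▸ orderOf_dvd_of_pow_eq_one hx12
    have h3 : k ≤ 2 := by
      by_contra hlt
      push Not at hlt
      have h4 : 2 ^ 3 ∣ 12 := (pow_dvd_pow 2 hlt).trans h2
      norm_num at h4
    rw [← orderOf_dvd_iff_pow_eq_one, hk]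
    exact pow_dvd_pow 2 h3
  have hx9 : x ^ 9 = x := by
    have : x ^ 9 = x ^ 4 * x ^ 4 * x := by rw [← pow_add, ← pow_succ]
    rw [this, hx4, one_mul, one_mul]
  have hterm : ∀ g ∈ S.filter (fun g => g ^ 9 = x), x⁻¹ * g ∈ E := by
    intro g hg
    rw [Finset.mem_filter] at hg
    have h1 := (memS g).1 hg.1
    have h12 := pow_twelve hF h1
    refine (hE _).2 ⟨(RR hF).mul_mem ((RR hF).inv_mem hx1) h1, ?_⟩
    rw [← hg.2]
    have h2 : Commute (g ^ 9)⁻¹ g := ((Commute.refl g).pow_left 9).inv_left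
    rw [h2.mul_pow, inv_pow, ← pow_mul, inv_mul_eq_one]
    have : g ^ (9 * 3) = g ^ 12 * g ^ 12 * g ^ 3 := by rw [← pow_add, ← pow_add]
    rw [this, h12, one_mul, one_mul]
  have hconst : ∀ g ∈ S.filter (fun g => g ^ 9 = x), ρ g u = ρ x u := by
    intro g hg
    have h1 := hterm g hg
    have h2 : g = x * (x⁻¹ * g) := by group
    conv_lhs => rw [h2]
    rw [map_mul, Module.End.mul_apply, hu _ h1]
  rw [Finset.sum_congr rfl hconst, Finset.sum_const]
  -- the fibre has odd cardinality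
  let C : Subgroup (G3 F) := E ⊓ Subgroup.centralizer {x}
  have hodd : Odd (Nat.card C) := by
    obtain ⟨k, hk⟩ := Subgroup.card_dvd_of_le (inf_le_left : C ≤ E)
    have h1 := E_odd hF hE
    rw [hk] at h1
    exact (Nat.odd_mul.1 h1).1
  have hcard : (S.filter (fun g => g ^ 9 = x)).card = Nat.card C := by
    have h1 : (S.filter (fun g => g ^ 9 = x)).image (fun g => x⁻¹ * g) = Finset.univ.filter (fun g => g ∈ C) := by
      ext c
      rw [Finset.mem_image, Finset.mem_filter]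
      constructor
      · rintro ⟨g, hg, rfl⟩
        have hcen : x⁻¹ * g ∈ Subgroup.centralizer {x} := by
          rw [Finset.mem_filter] at hg
          rw [Subgroup.mem_centralizer_iff]
          intro y hy
          rw [Set.mem_singleton_iff.1 hy]
          have h2 : Commute x g := by rw [← hg.2]; exact (Commute.refl g).pow_left 9
          exact ((Commute.refl x).inv_right).mul_right h2
        exact ⟨Finset.mem_univ _, hterm g hg, hcen⟩
      · rintro ⟨-, hc1, hc2⟩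
        obtain ⟨k1, k2⟩ := (hE c).1 hc1
        have hcx : Commute x c := (Subgroup.mem_centralizer_iff.1 hc2 x rfl)
        refine ⟨x * c, ?_, by group⟩
        rw [Finset.mem_filter]
        refine ⟨(memS _).2 ((RR hF).mul_mem hx1 k1), ?_⟩
        rw [hcx.mul_pow, hx9]
        have : c ^ 9 = (c ^ 3) ^ 3 := by rw [← pow_mul]
        rw [this, k2, one_pow, mul_one]
    rw [← Finset.card_image_of_injective (S.filter (fun g => g ^ 9 = x)) (mul_right_injective x⁻¹), h1,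
      Nat.card_eq_fintype_card, Fintype.card_subtype]
  rw [hcard, odd_smul hodd]

open Classical in
/-- the sum over `R` lies in the image of `ρ z - 1` -/
theorem sum_mem (hF : Fintype.card F = 4) {E : Subgroup (G3 F)}
    (hE : ∀ g : G3 F, g ∈ E ↔ (hact g (1 : M3 F) = 1 ∧ g ^ 3 = 1)) {z : G3 F} (hzR : hact z (1 : M3 F) = 1)
    (hz : z * z = 1) (hz1 : z ≠ 1) {u : V} (hu : ∀ g ∈ E, ρ g u = u) [Fintype (G3 F)] :
    ∑ g ∈ Finset.univ.filter (fun g : G3 F => hact g (1 : M3 F) = 1), ρ g u ∈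
      (VE ρ E).map (ρ z - LinearMap.id) := by
  set S := Finset.univ.filter (fun g : G3 F => hact g (1 : M3 F) = 1) with hS
  have memS : ∀ g : G3 F, g ∈ S ↔ hact g (1 : M3 F) = 1 := fun g => by
    rw [hS, Finset.mem_filter]; exact ⟨fun h => h.2, fun h => ⟨Finset.mem_univ _, h⟩⟩
  obtain ⟨κ, hκ⟩ : ∃ κ : G3 F → ℕ, Function.Injective κ :=
    ⟨fun u => (Finite.equivFin (G3 F) u : ℕ), fun a b h => (Finite.equivFin (G3 F)).injective (Fin.ext h)⟩
  have hne : ∀ g, κ g ≠ κ (z * g) := by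
    intro g h
    have h2 := hκ h
    apply hz1
    have h3 : z * g = 1 * g := by rw [one_mul]; exact h2.symm
    exact mul_right_cancel h3
  have hzz : ∀ g, z * (z * g) = g := fun g => by rw [← mul_assoc, hz, one_mul]
  set y : V := ∑ g ∈ S.filter (fun g => κ g < κ (z * g)), ρ g u with hy
  have hyE : y ∈ VE ρ E := by
    rw [hy]
    apply Submodule.sum_mem
    intro g hg
    rw [Finset.mem_filter] at hg
    have h1 := (memS g).1 hg.1
    rw [mem_VE]
    intro e he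
    have h2 : g⁻¹ * e * g ∈ E := by
      have := mem_E_of hF hE (z := g⁻¹) ((RR hF).inv_mem h1) e he
      rwa [inv_inv] at this
    have h3 : ρ e (ρ g u) = ρ g (ρ (g⁻¹ * e * g) u) := by
      rw [← Module.End.mul_apply, ← Module.End.mul_apply, ← map_mul, ← map_mul]
      congr 2
      group
    rw [h3, hu _ h2]
  refine ⟨y, hyE, ?_⟩
  have hsplit := Finset.sum_filter_add_sum_filter_not S (fun g => κ g < κ (z * g)) (fun g => ρ g u)
  have h2 : ∑ g ∈ S.filter (fun g => ¬ κ g < κ (z * g)), ρ g u = ρ z y := by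
    rw [hy, map_sum]
    symm
    apply Finset.sum_bij (fun g _ => z * g)
    · intro g hg
      rw [Finset.mem_filter] at hg ⊢
      refine ⟨(memS _).2 ((RR hF).mul_mem hzR ((memS g).1 hg.1)), ?_⟩
      rw [hzz]
      exact not_lt.2 hg.2.le
    · intro a _ b _ hab
      exact mul_left_cancel hab
    · intro g hg
      rw [Finset.mem_filter] at hg
      refine ⟨z * g, ?_, hzz g⟩
      rw [Finset.mem_filter]
      refine ⟨(memS _).2 ((RR hF).mul_mem hzR ((memS g).1 hg.1)), ?_⟩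
      rw [hzz]
      exact lt_of_le_of_ne (not_lt.1 hg.2) (hne g).symm
    · intro g _
      rw [← Module.End.mul_apply, ← map_mul]
  rw [← hsplit, h2, LinearMap.sub_apply, LinearMap.id_apply]
  have h3 : ∀ w : V, -w = w := by
    intro w
    have h4 := odd_smul (n := 3) (by decide) w
    have h5 : (3 : ℕ) • w = w + w + w := by rw [succ_nsmul, two_nsmul]
    rw [h5] at h4
    exact neg_eq_of_add_eq_zero_left (add_eq_right.1 h4)
  rw [sub_eq_add_neg, h3, add_comm]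

/-- **(I-Z)** `trace_zero` -/
theorem trace_zero_of (hF : Fintype.card F = 4) (SC : SimpCases F) (ND : NineDims F) (hc : CT ρ) {n5 n7 : ℕ}
    (hn5 : n5 = 68 ∨ n5 = 48) (hn7 : n7 = 80 ∨ n7 = 38)
    (hd : Dims ρ (⊤ : Submodule (ZMod 2) V) 248 86 n5 n7) (E : Subgroup (G3 F))
    (hE : ∀ g : G3 F, g ∈ E ↔ (hact g (1 : M3 F) = 1 ∧ g ^ 3 = 1)) {z : G3 F} (hz : hact z (1 : M3 F) = 1) (hz2 : orderOf z = 2)
    (h20 : Module.finrank (ZMod 2) ↥((⨅ g ∈ E, LinearMap.ker (ρ g - LinearMap.id)) ⊓ LinearMap.ker (ρ z - LinearMap.id)) = 20)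
    {v : V} (hv : (∃ b W, IsNine ρ b W ∧ v ∈ W) ∨ v ∈ fixAll ρ) {u : V} (hu : ∀ g ∈ E, ρ g u = u)
    (h : v = ∑ᶠ g : {g : G3 F // hact g (1 : M3 F) = 1 ∧ (∃ m : ℕ, g ^ (2 ^ m) = 1)}, ρ (g : G3 F) u) : v = 0 := by
  classical
  letI : Fintype (G3 F) := Fintype.ofFinite _
  have hzz : z * z = 1 := by rw [← pow_two, ← hz2]; exact pow_orderOf_eq_one z
  have hz1 : z ≠ 1 := by
    rintro rfl
    rw [orderOf_one] at hz2
    omega
  have hzE := mem_E_of hF hE hz
  -- `v` lies in the image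
  have him : v ∈ (VE ρ E).map (ρ z - LinearMap.id) := by
    have h1 := sum_mem hF hE hz hzz hz1 hu
    rw [sum_two hF hE hu] at h1
    have h6 : ∑ᶠ g : {g : G3 F // hact g (1 : M3 F) = 1 ∧ (∃ m : ℕ, g ^ (2 ^ m) = 1)}, ρ (g : G3 F) u =
        ∑ g ∈ Finset.univ.filter (fun g : G3 F => hact g (1 : M3 F) = 1 ∧ ∃ m : ℕ, g ^ (2 ^ m) = 1), ρ g u := by
      rw [finsum_eq_sum_of_fintype]
      symm
      exact Finset.sum_subtype _ (fun x => by
        rw [Finset.mem_filter]; exact ⟨fun h => h.2, fun h => ⟨Finset.mem_univ _, h⟩⟩) (fun g => ρ g u)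
    rw [h, h6]
    exact h1
  -- the rank is 12
  have h32 := dims_E hF hc hE (W := ⊤) (fun _ _ _ => Submodule.mem_top) hd
  rw [inf_top_eq] at h32
  have hrk := finrank_map_add (ρ z - LinearMap.id) (VE ρ E)
  have h20' : finrank (ZMod 2) (VE ρ E ⊓ LinearMap.ker (ρ z - LinearMap.id) : Submodule (ZMod 2) V) = 20 := h20
  by_contra hv0
  -- an invariant subspace `A` containing `v` without Steinberg factors
  obtain ⟨A, m, m3, m5, m7, hA, hvA, hdA, hm⟩ : ∃ (A : Submodule (ZMod 2) V) (m m3 m5 m7 : ℕ),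
      (∀ g, ∀ w ∈ A, ρ g w ∈ A) ∧ v ∈ A ∧ Dims ρ A m m3 m5 m7 ∧
      ((m = 9 ∧ m3 = 3 ∧ m5 = 1 ∧ m7 = 0) ∨ (m = 1 ∧ m3 = 1 ∧ m5 = 1 ∧ m7 = 1)) := by
    rcases hv with ⟨b, W, hW, hvW⟩ | hv
    · refine ⟨W, 9, 3, 1, 0, ?_, hvW, ND hW, Or.inl ⟨rfl, rfl, rfl, rfl⟩⟩
      obtain ⟨φ, -, -, h3, h4⟩ := hW
      intro g w hw
      obtain ⟨X, hX, rfl⟩ := (h3 w).1 hw
      rw [h4 g X hX]
      refine (h3 _).2 ⟨_, ?_, rfl⟩
      -- the action preserves hermitian matrices
      have h5 : ∀ Y : M3 F, ct (ct Y) = Y := by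
        intro Y
        ext i j
        show ((Y i j) ^ 2) ^ 2 = Y i j
        rw [← pow_mul]
        exact pow_four hF _
      show ct (hact (tw b g) X) = hact (tw b g) X
      have hX' : ct X = X := hX
      rw [hact_def, ct_mul hF, ct_mul hF, h5, hX', Matrix.mul_assoc]
    · have hv' : ∀ g, ρ g v = v := hv
      have htr : ∀ x ∈ Submodule.span (ZMod 2) {v}, ∀ g, ρ g x = x := by
        intro x hx g
        obtain ⟨c, rfl⟩ := Submodule.mem_span_singleton.1 hx
        rw [map_smul, hv' g]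
      refine ⟨Submodule.span (ZMod 2) {v}, 1, 1, 1, 1, ?_, Submodule.mem_span_singleton_self v,
        dims_trivial htr (finrank_span_singleton hv0), Or.inr ⟨rfl, rfl, rfl, rfl⟩⟩
      intro g w hw
      rw [htr w hw g]
      exact hw
  have hA' : ∀ g, A ≤ A.comap (ρ g) := fun g w hw => hA g w hw
  obtain ⟨a, b, c, d, hdq, hr⟩ := main hF SC ND hE hzz hz1 hzE _ (V ⧸ A) (ρ.quotient A hA') le_rfl (CT_quotient hc A hA')
  have hall := dims_add A hA' hdA hdq
  -- elements of orders 3, 5, 7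
  obtain ⟨w, hw⟩ := exists_omega hF
  haveI : Fact (Nat.Prime 3) := ⟨Nat.prime_three⟩
  haveI : Fact (Nat.Prime 5) := ⟨Nat.prime_five⟩
  haveI : Fact (Nat.Prime 7) := ⟨by norm_num⟩
  have e1 : orderOf (g1 w hw) = 3 := by
    apply orderOf_eq_prime (g1_cube hw)
    intro h1
    have h2 := g12_ne hw hF
    rw [h1, one_mul, mul_one] at h2
    exact h2 rfl
  have c1 : g1 w hw ∉ Subgroup.center (G3 F) := fun h => g12_ne hw hF (Subgroup.mem_center_iff.1 h g2).symm
  obtain ⟨x5, hx5⟩ := exists_prime_orderOf_dvd_card' (G := G3 F) 5 (by rw [card_G3 hF]; norm_num)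
  obtain ⟨x7, hx7⟩ := exists_prime_orderOf_dvd_card' (G := G3 F) 7 (by rw [card_G3 hF]; norm_num)
  have q0 := hd.1.symm.trans hall.1
  have q3 := (hd.2.1 _ e1 c1).symm.trans (hall.2.1 _ e1 c1)
  have q5 := (hd.2.2.1 _ hx5).symm.trans (hall.2.2.1 _ hx5)
  have q7 := (hd.2.2.2 _ hx7).symm.trans (hall.2.2.2 _ hx7)
  have hd3 : d = 3 := by
    rcases hm with ⟨rfl, rfl, rfl, rfl⟩ | ⟨rfl, rfl, rfl, rfl⟩ <;> omega
  have hbot := inf_eq_bot_of_rank ρ (E_odd hF hE) A hA' z (by omega)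
  apply hv0
  have : v ∈ (VE ρ E).map (ρ z - LinearMap.id) ⊓ A := ⟨him, hvA⟩
  rwa [hbot, Submodule.mem_bot] at this

end

end Cfsg.Agent.H904.L34
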