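import Cfsg.Agent.H904.L34.Grp

/-!
# S5917, part I (helper904): `E = 3¹⁺²`, the Sylow 2-subgroup `U`
-/

set_option autoImplicit false
set_option linter.unusedSectionVars false

namespace Cfsg.Agent.H904.L34

open Matrix Cfsg.Agent.H691.L34 Module
open scoped Pointwise

section

variable {F : Type} [Field F] [Fintype F]

instance finG3 : Finite (G3 F) := inferInstance

/-- scalar -/
def s0 (w : F) (hw : w ^ 2 + w + 1 = 0) : G3 F := ⟨!![w, 0, 0; 0, w, 0; 0, 0, w], by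
  rw [Matrix.det_fin_three]
  simp
  linear_combination (w - 1) * hw⟩

/-- `diag(1, w, w²)` -/
def g1 (w : F) (hw : w ^ 2 + w + 1 = 0) : G3 F := ⟨!![1, 0, 0; 0, w, 0; 0, 0, w ^ 2], by
  rw [Matrix.det_fin_three]
  simp
  linear_combination (w - 1) * hw⟩

/-- the cyclic permutation -/
def g2 : G3 F := ⟨!![0, 0, 1; 1, 0, 0; 0, 1, 0], by
  rw [Matrix.det_fin_three]
  simp⟩

variable {w : F} (hw : w ^ 2 + w + 1 = 0)

include hw in
theorem w3 : w ^ 3 = 1 := by linear_combination (w - 1) * hw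

theorem s0_comm (g : G3 F) : s0 w hw * g = g * s0 w hw := by
  apply Subtype.ext
  rw [co_mul, co_mul]
  have h : (s0 w hw).1 = w • (1 : M3 F) := by
    ext i j
    fin_cases i <;> fin_cases j <;> simp [s0]
  rw [h, Matrix.smul_mul, Matrix.mul_smul, Matrix.one_mul, Matrix.mul_one]

theorem s0_center : s0 w hw ∈ Subgroup.center (G3 F) :=
  Subgroup.mem_center_iff.2 fun g => (s0_comm hw g).symm

theorem g12 : g1 w hw * g2 = s0 w hw * (g2 * g1 w hw) := by
  have h3 := w3 hw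
  apply Subtype.ext
  rw [co_mul, co_mul, co_mul]
  ext i j
  fin_cases i <;> fin_cases j <;> simp [g1, g2, s0, Matrix.mul_apply, Fin.sum_univ_three]
  · rw [← h3]; ring
  · ring

theorem mem_R_s0 (hF : Fintype.card F = 4) : hact (s0 w hw) (1 : M3 F) = 1 := by
  have h3 := w3 hw
  have h4 : w * w ^ 2 = 1 := by rw [← h3]; ring
  rw [hact_def, Matrix.mul_one]
  ext i j
  fin_cases i <;> fin_cases j <;> simp [s0, ct, Matrix.mul_apply, Fin.sum_univ_three, h4]

theorem mem_R_g1 (hF : Fintype.card F = 4) : hact (g1 w hw) (1 : M3 F) = 1 := by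
  have h3 := w3 hw
  have h4 : w * w ^ 2 = 1 := by rw [← h3]; ring
  have h5 : w ^ 2 * (w ^ 2) ^ 2 = 1 := by
    have : w ^ 2 * (w ^ 2) ^ 2 = (w ^ 3) ^ 2 := by ring
    rw [this, h3, one_pow]
  rw [hact_def, Matrix.mul_one]
  ext i j
  fin_cases i <;> fin_cases j <;> simp [g1, ct, Matrix.mul_apply, Fin.sum_univ_three, h4, h5]

theorem mem_R_g2 (hF : Fintype.card F = 4) : hact (g2 : G3 F) (1 : M3 F) = 1 := by
  rw [hact_def, Matrix.mul_one]
  ext i j
  fin_cases i <;> fin_cases j <;> simp [g2, ct, Matrix.mul_apply, Fin.sum_univ_three]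

theorem s0_cube : s0 w hw ^ 3 = 1 := by
  have h3 := w3 hw
  apply Subtype.ext
  rw [co_pow, co_one]
  have h : (s0 w hw).1 = w • (1 : M3 F) := by
    ext i j
    fin_cases i <;> fin_cases j <;> simp [s0]
  rw [h, smul_pow, h3, one_smul, one_pow]

theorem g1_cube : g1 w hw ^ 3 = 1 := by
  have h3 := w3 hw
  apply Subtype.ext
  rw [co_pow, co_one, pow_three']
  ext i j
  fin_cases i <;> fin_cases j <;> simp [g1, Matrix.mul_apply, Fin.sum_univ_three]
  · rw [← h3]; ring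
  · have : w ^ 2 * w ^ 2 * w ^ 2 = (w ^ 3) ^ 2 := by ring
    rw [this, h3, one_pow]

theorem g2_cube : (g2 : G3 F) ^ 3 = 1 := by
  apply Subtype.ext
  rw [co_pow, co_one, pow_three']
  ext i j
  fin_cases i <;> fin_cases j <;> simp [g2, Matrix.mul_apply, Fin.sum_univ_three]

include hw in
theorem w_ne_one (hF : Fintype.card F = 4) : w ≠ 1 := by
  rintro rfl
  have h : (1 : F) ^ 2 + 1 + 1 = 1 := by
    have := two_zero hF
    linear_combination this
  rw [h] at hw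
  exact one_ne_zero hw

theorem s0_ne (hF : Fintype.card F = 4) : s0 w hw ≠ 1 := by
  intro h
  have h1 := congrArg (fun x : G3 F => x.1 0 0) h
  have h2 : w = 1 := by simpa [s0, co_one] using h1
  exact w_ne_one hw hF h2

theorem g12_ne (hF : Fintype.card F = 4) : g1 w hw * g2 ≠ g2 * g1 w hw := by
  intro h
  have h1 := g12 hw
  rw [h] at h1
  have h2 : s0 w hw * (g2 * g1 w hw) = 1 * (g2 * g1 w hw) := by rw [one_mul]; exact h1.symm
  exact s0_ne hw hF (mul_right_cancel h2)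

/-- a subgroup of exponent 3 has order at most 27 -/
theorem card_le_of_exp (hF : Fintype.card F = 4) (E : Subgroup (G3 F)) (h : ∀ g ∈ E, g ^ 3 = 1) :
    ∃ n ≤ 3, Nat.card E = 3 ^ n := by
  haveI : Fact (Nat.Prime 3) := ⟨Nat.prime_three⟩
  have hp : IsPGroup 3 E := fun g => ⟨1, by
    apply Subtype.ext
    rw [pow_one]
    exact h g g.2⟩
  obtain ⟨n, hn⟩ := IsPGroup.iff_card.1 hp
  refine ⟨n, ?_, hn⟩
  by_contra hlt
  push Not at hlt
  have h1 : 3 ^ 4 ∣ Nat.card (G3 F) := (pow_dvd_pow 3 hlt).trans (hn ▸ Subgroup.card_subgroup_dvd_card E)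
  rw [card_G3 hF] at h1
  norm_num at h1

/-- **`E` is generated by `s0`, `g1`, `g2`.** -/
theorem E_le (hF : Fintype.card F = 4) {E : Subgroup (G3 F)} (hE : ∀ g : G3 F, g ∈ E ↔ (hact g (1 : M3 F) = 1 ∧ g ^ 3 = 1))
    {T : Subgroup (G3 F)} (h0 : s0 w hw ∈ T) (h1 : g1 w hw ∈ T) (h2 : g2 ∈ T) : E ≤ T := by
  have e0 : s0 w hw ∈ E := (hE _).2 ⟨mem_R_s0 hw hF, s0_cube hw⟩
  have e1 : g1 w hw ∈ E := (hE _).2 ⟨mem_R_g1 hw hF, g1_cube hw⟩
  have e2 : g2 ∈ E := (hE _).2 ⟨mem_R_g2 hF, g2_cube⟩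
  let C1 : Subgroup (G3 F) := Subgroup.zpowers (s0 w hw)
  let C2 : Subgroup (G3 F) := C1 ⊔ Subgroup.zpowers (g1 w hw)
  let C3 : Subgroup (G3 F) := C2 ⊔ Subgroup.zpowers g2
  have c1 : C1 ≤ E := (Subgroup.zpowers_le).2 e0
  have c2 : C2 ≤ E := sup_le c1 ((Subgroup.zpowers_le).2 e1)
  have c3 : C3 ≤ E := sup_le c2 ((Subgroup.zpowers_le).2 e2)
  have c3T : C3 ≤ T := sup_le (sup_le ((Subgroup.zpowers_le).2 h0) ((Subgroup.zpowers_le).2 h1))
    ((Subgroup.zpowers_le).2 h2)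
  have hcub : ∀ g ∈ E, g ^ 3 = 1 := fun g hg => ((hE g).1 hg).2
  obtain ⟨n, hn, hnE⟩ := card_le_of_exp hF E hcub
  obtain ⟨m1, hm1, hc1⟩ := card_le_of_exp hF C1 fun g hg => hcub g (c1 hg)
  obtain ⟨m2, hm2, hc2⟩ := card_le_of_exp hF C2 fun g hg => hcub g (c2 hg)
  obtain ⟨m3, hm3, hc3⟩ := card_le_of_exp hF C3 fun g hg => hcub g (c3 hg)
  have lt_of : ∀ {A B : Subgroup (G3 F)} {a b : ℕ}, A ≤ B → A ≠ B → Nat.card A = 3 ^ a → Nat.card B = 3 ^ b →
      a < b := by
    intro A B a b hAB hne hA hB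
    by_contra hlt
    push Not at hlt
    apply hne
    apply Subgroup.eq_of_le_of_card_ge hAB
    rw [hA, hB]
    exact Nat.pow_le_pow_right (by norm_num) hlt
  have l0 : 0 < m1 := by
    rw [Nat.pos_iff_ne_zero]
    rintro rfl
    rw [pow_zero, Subgroup.card_eq_one] at hc1
    exact s0_ne hw hF ((Subgroup.zpowers_eq_bot).1 hc1)
  have l1 : m1 < m2 := by
    refine lt_of le_sup_left ?_ hc1 hc2
    intro h
    have h3 : g1 w hw ∈ C1 := by
      rw [h]
      exact (le_sup_right : _ ≤ C2) (Subgroup.mem_zpowers _)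
    have h4 : C1 ≤ Subgroup.centralizer {g2} := by
      rw [Subgroup.zpowers_le, Subgroup.mem_centralizer_iff]
      rintro x rfl
      exact (s0_comm hw _).symm
    have h5 := Subgroup.mem_centralizer_iff.1 (h4 h3) g2 rfl
    exact g12_ne hw hF h5.symm
  have l2 : m2 < m3 := by
    refine lt_of le_sup_left ?_ hc2 hc3
    intro h
    have h3 : g2 ∈ C2 := by
      rw [h]
      exact (le_sup_right : _ ≤ C3) (Subgroup.mem_zpowers _)
    have h4 : C2 ≤ Subgroup.centralizer {g1 w hw} := by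
      refine sup_le ?_ ?_
      · rw [Subgroup.zpowers_le, Subgroup.mem_centralizer_iff]
        rintro x rfl
        exact (s0_comm hw _).symm
      · rw [Subgroup.zpowers_le, Subgroup.mem_centralizer_iff]
        rintro x rfl
        rfl
    have h5 := Subgroup.mem_centralizer_iff.1 (h4 h3) (g1 w hw) rfl
    exact g12_ne hw hF h5
  have h6 : C3 = E := by
    apply Subgroup.eq_of_le_of_card_ge c3
    rw [hnE, hc3]
    exact Nat.pow_le_pow_right (by norm_num) (by omega)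
  rw [← h6]
  exact c3T

theorem E_odd (hF : Fintype.card F = 4) {E : Subgroup (G3 F)}
    (hE : ∀ g : G3 F, g ∈ E ↔ (hact g (1 : M3 F) = 1 ∧ g ^ 3 = 1)) : Odd (Nat.card E) := by
  obtain ⟨n, -, h⟩ := card_le_of_exp hF E fun g hg => ((hE g).1 hg).2
  rw [h]
  exact Odd.pow (by decide)

/-! ### the Sylow 2-subgroup -/

/-- coordinates on `U` -/
def uEquiv : UU F ≃ F × F × F where
  toFun g := (g.1.1 0 1, g.1.1 0 2, g.1.1 1 2)
  invFun x := ⟨⟨!![1, x.1, x.2.1; 0, 1, x.2.2; 0, 0, 1], by rw [Matrix.det_fin_three]; simp⟩, by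
    refine ⟨fun i => ?_, ?_, ?_, ?_⟩
    · fin_cases i <;> simp
    · simp
    · simp
    · simp⟩
  left_inv := by
    rintro ⟨g, h, h10, h20, h21⟩
    apply Subtype.ext
    apply Subtype.ext
    ext i j
    fin_cases i <;> fin_cases j
    · exact (h 0).symm
    · rfl
    · rfl
    · exact h10.symm
    · exact (h 1).symm
    · rfl
    · exact h20.symm
    · exact h21.symm
    · exact (h 2).symm
  right_inv := by
    rintro ⟨a, b, c⟩
    rfl

theorem card_UU (hF : Fintype.card F = 4) : Nat.card (UU F) = 2 ^ 6 := by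
  rw [Nat.card_congr uEquiv, Nat.card_prod, Nat.card_prod, Nat.card_eq_fintype_card, hF]
  norm_num

theorem pgroup_UU (hF : Fintype.card F = 4) : IsPGroup 2 (UU F) := IsPGroup.of_card (card_UU hF)

/-- every element of order 2 is conjugate to an element of `U` -/
theorem exists_conj_UU (hF : Fintype.card F = 4) {z : G3 F} (hz : z * z = 1) : ∃ g : G3 F, g⁻¹ * z * g ∈ UU F := by
  haveI : Fact (Nat.Prime 2) := ⟨Nat.prime_two⟩
  obtain ⟨P, hP⟩ := (pgroup_UU hF).exists_le_sylow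
  have hPU : (P : Subgroup (G3 F)) = UU F := by
    symm
    apply Subgroup.eq_of_le_of_card_ge hP
    obtain ⟨n, hn⟩ := IsPGroup.iff_card.1 P.2
    have h1 : Nat.card (P : Subgroup (G3 F)) = 2 ^ n := hn
    rw [h1, card_UU hF]
    apply Nat.pow_le_pow_right (by norm_num)
    by_contra hlt
    push Not at hlt
    have h2 : 2 ^ 7 ∣ Nat.card (G3 F) := (pow_dvd_pow 2 hlt).trans (h1 ▸ Subgroup.card_subgroup_dvd_card _)
    rw [card_G3 hF] at h2
    norm_num at h2
  have hzp : IsPGroup 2 (Subgroup.zpowers z) := by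
    rintro ⟨g, hg⟩
    obtain ⟨k, rfl⟩ := Subgroup.mem_zpowers_iff.1 hg
    refine ⟨1, ?_⟩
    apply Subtype.ext
    show (z ^ k) ^ (2 ^ 1) = 1
    rw [pow_one, ← zpow_natCast, ← _root_.zpow_mul, mul_comm, _root_.zpow_mul, zpow_natCast, pow_two, hz, _root_.one_zpow]
  obtain ⟨Q, hQ⟩ := hzp.exists_le_sylow
  obtain ⟨g, hg⟩ := MulAction.exists_smul_eq (G3 F) P Q
  refine ⟨g, ?_⟩
  have h3 : z ∈ (Q : Subgroup (G3 F)) := hQ (Subgroup.mem_zpowers z)
  rw [← hg] at h3
  have h4 : z ∈ (MulAut.conj g) • (P : Subgroup (G3 F)) := h3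
  rw [Subgroup.mem_pointwise_smul_iff_inv_smul_mem] at h4
  have h5 : (MulAut.conj g)⁻¹ • z = g⁻¹ * z * g := by
    rw [← map_inv, MulAut.smul_def, MulAut.conj_apply, inv_inv]
  rw [h5, hPU] at h4
  exact h4

end

end Cfsg.Agent.H904.L34
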