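import Cfsg.Agent.H904.L34.Main

/-!
# S5917, part I (helper904): the row `trace_zero`, induction and assembly
-/

set_option autoImplicit false
set_option linter.unusedSectionVars false

namespace Cfsg.Agent.H904.L34

open Matrix Cfsg.Agent.H691.L34 Module

/-- the row `simp_cases` for all modules -/
def SimpCases (F : Type) [Field F] [Fintype F] : Prop :=
  ∀ {V : Type} [AddCommGroup V] [Module (ZMod 2) V] [Module.Finite (ZMod 2) V]
    {ρ : Representation (ZMod 2) (G3 F) V}, CT ρ → ∀ {W : Submodule (ZMod 2) V}, Simp ρ W →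
    (∀ v ∈ W, ∀ g, ρ g v = v) ∨ IsNine ρ false W ∨ IsNine ρ true W ∨ Is16 ρ W ∨ Is64 ρ W

/-- the row `nine_dims` for all modules -/
def NineDims (F : Type) [Field F] [Fintype F] : Prop :=
  ∀ {V : Type} [AddCommGroup V] [Module (ZMod 2) V] [Module.Finite (ZMod 2) V]
    {ρ : Representation (ZMod 2) (G3 F) V} {b : Bool} {W : Submodule (ZMod 2) V}, IsNine ρ b W → Dims ρ W 9 3 1 0

section

variable {F : Type} [Field F] [Fintype F] {V : Type} [AddCommGroup V] [Module (ZMod 2) V] [Module.Finite (ZMod 2) V]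
  {ρ : Representation (ZMod 2) (G3 F) V}

theorem VE_zpowers (g : G3 F) : VE ρ (Subgroup.zpowers g) = LinearMap.ker (ρ g - LinearMap.id) := by
  ext v
  rw [mem_VE, LinearMap.mem_ker, LinearMap.sub_apply, LinearMap.id_apply, sub_eq_zero]
  constructor
  · intro h
    exact h g (Subgroup.mem_zpowers g)
  · intro h x hx
    let T : Subgroup (G3 F) :=
      { carrier := {g | ρ g v = v}
        one_mem' := by
          show ρ 1 v = v
          rw [map_one]
          rfl
        mul_mem' := by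
          intro g h hg hh
          show ρ (g * h) v = v
          have hg' : ρ g v = v := hg
          have hh' : ρ h v = v := hh
          rw [map_mul, Module.End.mul_apply, hh', hg']
        inv_mem' := by
          intro g hg
          have hg' : ρ g v = v := hg
          show ρ g⁻¹ v = v
          have h5 : ρ g⁻¹ (ρ g v) = v := by
            rw [← Module.End.mul_apply, ← map_mul, inv_mul_cancel, map_one]
            rfl
          rwa [hg'] at h5 }
    have hT : Subgroup.zpowers g ≤ T := (Subgroup.zpowers_le).2 h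
    exact hT hx

theorem fx_eq (g : G3 F) (W : Submodule (ZMod 2) V) : fx ρ g W = VE ρ (Subgroup.zpowers g) ⊓ W := by
  rw [VE_zpowers, fx, inf_comm]

theorem fx_add (W : Submodule (ZMod 2) V) (hW : ∀ g, W ≤ W.comap (ρ g)) {g : G3 F} (hg : Odd (orderOf g)) :
    finrank (ZMod 2) (fx ρ g ⊤) = finrank (ZMod 2) (fx ρ g W) +
      finrank (ZMod 2) (fx (ρ.quotient W hW) g ⊤) := by
  have h := finrank_VE ρ (C := Subgroup.zpowers g) (by rw [Nat.card_zpowers]; exact hg) W hW
  rw [fx_eq, fx_eq, fx_eq, inf_top_eq, inf_top_eq]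
  exact h

theorem dims_add (W : Submodule (ZMod 2) V) (hW : ∀ g, W ≤ W.comap (ρ g)) {n n3 n5 n7 m m3 m5 m7 : ℕ}
    (h1 : Dims ρ W n n3 n5 n7) (h2 : Dims (ρ.quotient W hW) ⊤ m m3 m5 m7) :
    Dims ρ ⊤ (n + m) (n3 + m3) (n5 + m5) (n7 + m7) := by
  refine ⟨?_, ?_, ?_, ?_⟩
  · have h := Submodule.finrank_quotient_add_finrank W
    have e1 : finrank (ZMod 2) W = n := h1.1
    have e2 : finrank (ZMod 2) (⊤ : Submodule (ZMod 2) (V ⧸ W)) = m := h2.1
    rw [finrank_top] at e2
    rw [finrank_top]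
    omega
  · intro g hg hc
    rw [fx_add W hW (by rw [hg]; decide), h1.2.1 g hg hc, h2.2.1 g hg hc]
  · intro g hg
    rw [fx_add W hW (by rw [hg]; decide), h1.2.2.1 g hg, h2.2.2.1 g hg]
  · intro g hg
    rw [fx_add W hW (by rw [hg]; decide), h1.2.2.2 g hg, h2.2.2.2 g hg]

theorem CT_quotient (hc : CT ρ) (W : Submodule (ZMod 2) V) (hW : ∀ g, W ≤ W.comap (ρ g)) :
    CT (ρ.quotient W hW) := by
  intro c hcc x
  obtain ⟨v, rfl⟩ := Submodule.Quotient.mk_surjective W x
  rw [Representation.quotient_apply, Submodule.mapQ_apply, hc c hcc v]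

theorem exists_simp [Nontrivial V] : ∃ W, Simp ρ W := by
  classical
  have hex : ∃ n, ∃ W : Submodule (ZMod 2) V, Inv ρ W ∧ W ≠ ⊥ ∧ finrank (ZMod 2) W = n :=
    ⟨_, ⊤, fun _ _ _ => Submodule.mem_top, top_ne_bot, rfl⟩
  obtain ⟨W, h1, h2, h3⟩ := Nat.find_spec hex
  refine ⟨W, h1, h2, ?_⟩
  intro X hX hXW
  by_cases h0 : X = ⊥
  · exact Or.inl h0
  · right
    apply Submodule.eq_of_le_of_finrank_le hXW
    rw [h3]
    exact Nat.find_min' hex ⟨X, hX, h0, rfl⟩

/-- a simple submodule with trivial action has dimension 1 -/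
theorem dims_trivial {W : Submodule (ZMod 2) V} (h : ∀ v ∈ W, ∀ g, ρ g v = v) (h1 : finrank (ZMod 2) W = 1) :
    Dims ρ W 1 1 1 1 := by
  have h2 : ∀ g, fx ρ g W = W := by
    intro g
    rw [fx, inf_eq_left]
    intro v hv
    rw [LinearMap.mem_ker, LinearMap.sub_apply, LinearMap.id_apply, h v hv g, sub_self]
  refine ⟨h1, ?_, ?_, ?_⟩
  · intro g _ _
    rw [h2, h1]
  · intro g _
    rw [h2, h1]
  · intro g _
    rw [h2, h1]

theorem finrank_of_simp_trivial {W : Submodule (ZMod 2) V} (hs : Simp ρ W) (h : ∀ v ∈ W, ∀ g, ρ g v = v) :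
    finrank (ZMod 2) W = 1 := by
  obtain ⟨w, hw, hw0⟩ := (Submodule.ne_bot_iff W).1 hs.2.1
  have h1 : Submodule.span (ZMod 2) {w} = W := by
    rcases hs.2.2 (Submodule.span (ZMod 2) {w}) (by
      intro g x hx
      obtain ⟨c, rfl⟩ := Submodule.mem_span_singleton.1 hx
      rw [map_smul, h w hw g]
      exact Submodule.smul_mem _ c (Submodule.mem_span_singleton_self w)) (by
      rw [Submodule.span_singleton_le_iff_mem]
      exact hw) with h2 | h2
    · exact absurd ((Submodule.span_singleton_eq_bot).1 h2) hw0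
    · exact h2
  rw [← h1]
  exact finrank_span_singleton hw0

end

section main

variable {F : Type} [Field F] [Fintype F]

/-- **The dimensions of every module, with the rank of an involution on the fixed space of `E`.** -/
theorem main (hF : Fintype.card F = 4) (SC : SimpCases F) (ND : NineDims F) {E : Subgroup (G3 F)}
    (hE : ∀ g : G3 F, g ∈ E ↔ (hact g (1 : M3 F) = 1 ∧ g ^ 3 = 1)) {z : G3 F} (hz : z * z = 1) (hz1 : z ≠ 1)
    (hzE : ∀ g ∈ E, z * g * z⁻¹ ∈ E) : ∀ (n : ℕ) (V : Type) [AddCommGroup V] [Module (ZMod 2) V]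
    [Module.Finite (ZMod 2) V] (ρ : Representation (ZMod 2) (G3 F) V), finrank (ZMod 2) V ≤ n → CT ρ →
    ∃ a b c d : ℕ, Dims ρ ⊤ (a + 16 * b + 9 * c + 64 * d) (a + 4 * b + 3 * c + 22 * d) (a + 4 * b + c + 12 * d)
      (a + 4 * b + 10 * d) ∧ 4 * d ≤ finrank (ZMod 2) ((VE ρ E).map (ρ z - LinearMap.id)) := by
  intro n
  induction n with
  | zero =>
    intro V _ _ _ ρ hn _
    have h0 : ∀ X : Submodule (ZMod 2) V, finrank (ZMod 2) X = 0 := fun X =>
      Nat.le_zero.1 ((Submodule.finrank_le X).trans hn)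
    exact ⟨0, 0, 0, 0, ⟨h0 _, fun g _ _ => h0 _, fun g _ => h0 _, fun g _ => h0 _⟩, Nat.zero_le _⟩
  | succ n ih =>
    intro V _ _ _ ρ hn hc
    rcases Nat.eq_zero_or_pos (finrank (ZMod 2) V) with hzero | hpos
    · have h0 : ∀ X : Submodule (ZMod 2) V, finrank (ZMod 2) X = 0 := fun X =>
        Nat.le_zero.1 ((Submodule.finrank_le X).trans hzero.le)
      exact ⟨0, 0, 0, 0, ⟨h0 _, fun g _ _ => h0 _, fun g _ => h0 _, fun g _ => h0 _⟩, Nat.zero_le _⟩
    · haveI : Nontrivial V := Module.finrank_pos_iff.1 hpos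
      obtain ⟨W, hs⟩ := exists_simp (ρ := ρ)
      have hW : ∀ g, ∀ w ∈ W, ρ g w ∈ W := hs.1
      have hW' : ∀ g, W ≤ W.comap (ρ g) := fun g w hw => hW g w hw
      have hWpos : 0 < finrank (ZMod 2) W := by
        rw [Nat.pos_iff_ne_zero]
        intro h
        exact hs.2.1 (Submodule.finrank_eq_zero.1 h)
      have hq := Submodule.finrank_quotient_add_finrank W
      obtain ⟨a, b, c, d, hd, hr⟩ := ih (V ⧸ W) (ρ.quotient W hW') (by omega) (CT_quotient hc W hW')
      have hsup := rank_super ρ (E_odd hF hE) W hW' z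
      rcases SC hc hs with h | h | h | h | h
      · have hdW := dims_trivial h (finrank_of_simp_trivial hs h)
        refine ⟨a + 1, b, c, d, ?_, by omega⟩
        have h3 := dims_add W hW' hdW hd
        convert h3 using 1 <;> ring
      · refine ⟨a, b, c + 1, d, ?_, by omega⟩
        have h3 := dims_add W hW' (ND h) hd
        convert h3 using 1 <;> ring
      · refine ⟨a, b, c + 1, d, ?_, by omega⟩
        have h3 := dims_add W hW' (ND h) hd
        convert h3 using 1 <;> ring
      · refine ⟨a, b + 1, c, d, ?_, by omega⟩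
        have h3 := dims_add W hW' h hd
        convert h3 using 1 <;> ring
      · have h3 := dims_add W hW' h.1 hd
        have h4 := dims_E hF hc hE hW h.1
        have h5 := rank_free ρ (E_odd hF hE) W hW hzE (fun x hx hzx => free_64 hF hW h hz hz1 hx hzx)
        refine ⟨a, b, c, d + 1, ?_, by omega⟩
        convert h3 using 1 <;> ring

end main

end Cfsg.Agent.H904.L34
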