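import Cfsg.Agent.H904.L34.Lin

/-!
# S5917, part I (helper904): fixed spaces of subgroups of odd order, quotients
-/

set_option autoImplicit false
set_option linter.unusedSectionVars false

namespace Cfsg.Agent.H904.L34

open Module

theorem finrank_map_add {K V V' : Type*} [Field K] [AddCommGroup V] [Module K V] [Module.Finite K V] [AddCommGroup V']
    [Module K V'] (f : V →ₗ[K] V') (p : Submodule K V) :
    finrank K (p.map f) + finrank K (p ⊓ LinearMap.ker f : Submodule K V) = finrank K p := by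
  have h := LinearMap.finrank_range_add_finrank_ker (f.domRestrict p)
  rw [LinearMap.range_domRestrict, LinearMap.ker_domRestrict] at h
  rw [← h]
  congr 1
  have h2 : (LinearMap.ker f).comap p.subtype = (LinearMap.ker f).submoduleOf p := rfl
  have h3 : ((LinearMap.ker f).submoduleOf p).map p.subtype = p ⊓ LinearMap.ker f := by
    rw [Submodule.submoduleOf, Submodule.map_comap_subtype]
  rw [← h3, Submodule.finrank_map_subtype_eq]
  rfl

section rep

variable {G V : Type*} [Group G] [Finite G] [AddCommGroup V] [Module (ZMod 2) V]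

/-- fixed space of a subgroup -/
def VE (ρ : Representation (ZMod 2) G V) (C : Subgroup G) : Submodule (ZMod 2) V :=
  ⨅ g ∈ C, LinearMap.ker (ρ g - LinearMap.id)

theorem mem_VE {ρ : Representation (ZMod 2) G V} {C : Subgroup G} {v : V} : v ∈ VE ρ C ↔ ∀ g ∈ C, ρ g v = v := by
  simp only [VE, Submodule.mem_iInf, LinearMap.mem_ker, LinearMap.sub_apply, LinearMap.id_apply, sub_eq_zero]

/-- the sum over a subgroup -/
noncomputable def av (ρ : Representation (ZMod 2) G V) (C : Subgroup G) : V →ₗ[ZMod 2] V :=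
  letI := Fintype.ofFinite C
  ∑ g : C, ρ (g : G)

theorem av_apply [Fintype G] (ρ : Representation (ZMod 2) G V) (C : Subgroup G) [Fintype C] (v : V) :
    av ρ C v = ∑ g : C, ρ (g : G) v := by
  rw [av, LinearMap.sum_apply]
  apply Finset.sum_congr _ (fun _ _ => rfl)
  ext
  simp

theorem av_mem (ρ : Representation (ZMod 2) G V) (C : Subgroup G) (v : V) : av ρ C v ∈ VE ρ C := by
  letI := Fintype.ofFinite G
  letI := Fintype.ofFinite C
  rw [mem_VE]
  intro g hg
  rw [av_apply, map_sum]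
  apply Fintype.sum_equiv (Equiv.mulLeft (⟨g, hg⟩ : C))
  intro x
  rw [Equiv.coe_mulLeft, ← Module.End.mul_apply, ← map_mul]
  rfl

theorem odd_smul {V : Type*} [AddCommGroup V] [Module (ZMod 2) V] {n : ℕ} (hn : Odd n) (v : V) : n • v = v := by
  obtain ⟨k, rfl⟩ := hn
  have h2 : (2 : ℕ) • v = 0 := by
    rw [← Nat.cast_smul_eq_nsmul (ZMod 2)]
    have : ((2 : ℕ) : ZMod 2) = 0 := rfl
    rw [this, zero_smul]
  rw [add_smul, one_smul, mul_comm, mul_smul, h2, smul_zero, zero_add]

theorem av_sub_mem (ρ : Representation (ZMod 2) G V) {C : Subgroup G} (hC : Odd (Nat.card C))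
    (W : Submodule (ZMod 2) V) {v : V} (hv : ∀ g ∈ C, ρ g v - v ∈ W) : av ρ C v - v ∈ W := by
  letI := Fintype.ofFinite G
  letI := Fintype.ofFinite C
  have h1 : av ρ C v - v = ∑ g : C, (ρ (g : G) v - v) := by
    rw [av_apply, Finset.sum_sub_distrib, Finset.sum_const, Finset.card_univ, ← Nat.card_eq_fintype_card,
      odd_smul hC]
  rw [h1]
  exact W.sum_mem fun g _ => hv g g.2

theorem av_eq_self (ρ : Representation (ZMod 2) G V) {C : Subgroup G} (hC : Odd (Nat.card C)) {v : V}
    (hv : v ∈ VE ρ C) : av ρ C v = v := by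
  have h := av_sub_mem ρ hC ⊥ (v := v) (fun g hg => by rw [mem_VE.1 hv g hg, sub_self]; exact Submodule.zero_mem _)
  rwa [Submodule.mem_bot, sub_eq_zero] at h

theorem av_mem_of_inv (ρ : Representation (ZMod 2) G V) {C : Subgroup G} (W : Submodule (ZMod 2) V)
    (hW : ∀ g, ∀ w ∈ W, ρ g w ∈ W) {v : V} (hv : v ∈ W) : av ρ C v ∈ W := by
  letI := Fintype.ofFinite G
  letI := Fintype.ofFinite C
  rw [av_apply]
  exact W.sum_mem fun g _ => hW g v hv

theorem av_comm (ρ : Representation (ZMod 2) G V) {C : Subgroup G} {z : G} (hz : ∀ g ∈ C, z * g * z⁻¹ ∈ C)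
    (v : V) : ρ z (av ρ C v) = av ρ C (ρ z v) := by
  letI := Fintype.ofFinite G
  letI := Fintype.ofFinite C
  rw [av_apply, av_apply, map_sum]
  let f : C → C := fun g => ⟨z * g * z⁻¹, hz g g.2⟩
  have hf : Function.Bijective f := by
    apply Finite.injective_iff_bijective.1
    intro a b hab
    have h1 : z * (a : G) * z⁻¹ = z * b * z⁻¹ := congrArg Subtype.val hab
    exact Subtype.ext (mul_left_cancel (mul_right_cancel h1))
  apply Fintype.sum_bijective f hf
  intro g
  show ρ z (ρ (g : G) v) = ρ (z * g * z⁻¹) (ρ z v)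
  rw [← Module.End.mul_apply, ← Module.End.mul_apply, ← map_mul, ← map_mul]
  congr 2
  group

variable [Module.Finite (ZMod 2) V]

/-- the image of the fixed space in the quotient -/
theorem map_VE (ρ : Representation (ZMod 2) G V) {C : Subgroup G} (hC : Odd (Nat.card C)) (W : Submodule (ZMod 2) V)
    (hW : ∀ g, W ≤ W.comap (ρ g)) : (VE ρ C).map W.mkQ = VE (ρ.quotient W hW) C := by
  apply le_antisymm
  · rintro _ ⟨v, hv, rfl⟩
    rw [mem_VE]
    intro g hg
    show (ρ.quotient W hW) g (Submodule.Quotient.mk v) = Submodule.Quotient.mk v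
    rw [Representation.quotient_apply, Submodule.mapQ_apply, mem_VE.1 hv g hg]
  · intro x hx
    obtain ⟨v, rfl⟩ := Submodule.Quotient.mk_surjective W x
    have h1 : ∀ g ∈ C, ρ g v - v ∈ W := by
      intro g hg
      have h2 := mem_VE.1 hx g hg
      rw [Representation.quotient_apply, Submodule.mapQ_apply] at h2
      exact (Submodule.Quotient.eq W).1 h2
    refine ⟨av ρ C v, av_mem ρ C v, ?_⟩
    exact (Submodule.Quotient.eq W).2 (av_sub_mem ρ hC W h1)

theorem finrank_VE (ρ : Representation (ZMod 2) G V) {C : Subgroup G} (hC : Odd (Nat.card C))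
    (W : Submodule (ZMod 2) V) (hW : ∀ g, W ≤ W.comap (ρ g)) :
    finrank (ZMod 2) (VE ρ C) = finrank (ZMod 2) (VE ρ C ⊓ W : Submodule (ZMod 2) V) +
      finrank (ZMod 2) (VE (ρ.quotient W hW) C) := by
  have h := finrank_map_add W.mkQ (VE ρ C)
  rw [map_VE ρ hC W hW, Submodule.ker_mkQ] at h
  omega

/-- **Superadditivity of the rank of `ρ z - 1` on the fixed space.** -/
theorem rank_super (ρ : Representation (ZMod 2) G V) {C : Subgroup G} (hC : Odd (Nat.card C))
    (W : Submodule (ZMod 2) V) (hW : ∀ g, W ≤ W.comap (ρ g)) (z : G) :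
    finrank (ZMod 2) ((VE ρ C ⊓ W).map (ρ z - LinearMap.id)) +
      finrank (ZMod 2) ((VE (ρ.quotient W hW) C).map ((ρ.quotient W hW) z - LinearMap.id)) ≤
      finrank (ZMod 2) ((VE ρ C).map (ρ z - LinearMap.id)) := by
  have h := finrank_map_add W.mkQ ((VE ρ C).map (ρ z - LinearMap.id))
  rw [Submodule.ker_mkQ] at h
  have h1 : ((VE ρ C).map (ρ z - LinearMap.id)).map W.mkQ =
      (VE (ρ.quotient W hW) C).map ((ρ.quotient W hW) z - LinearMap.id) := by
    rw [← map_VE ρ hC W hW, ← Submodule.map_comp, ← Submodule.map_comp]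
    congr 1
  have h2 : (VE ρ C ⊓ W).map (ρ z - LinearMap.id) ≤ (VE ρ C).map (ρ z - LinearMap.id) ⊓ W := by
    rintro _ ⟨v, ⟨hv, hvW⟩, rfl⟩
    exact ⟨⟨v, hv, rfl⟩, W.sub_mem (hW z hvW) hvW⟩
  have h3 := Submodule.finrank_mono h2
  rw [h1] at h
  omega

/-- the equality case: the image of `ρ z - 1` meets `W` trivially -/
theorem inf_eq_bot_of_rank (ρ : Representation (ZMod 2) G V) {C : Subgroup G} (hC : Odd (Nat.card C))
    (W : Submodule (ZMod 2) V) (hW : ∀ g, W ≤ W.comap (ρ g)) (z : G)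
    (h : finrank (ZMod 2) ((VE ρ C).map (ρ z - LinearMap.id)) ≤
      finrank (ZMod 2) ((VE (ρ.quotient W hW) C).map ((ρ.quotient W hW) z - LinearMap.id))) :
    (VE ρ C).map (ρ z - LinearMap.id) ⊓ W = ⊥ := by
  have h0 := finrank_map_add W.mkQ ((VE ρ C).map (ρ z - LinearMap.id))
  rw [Submodule.ker_mkQ] at h0
  have h1 : ((VE ρ C).map (ρ z - LinearMap.id)).map W.mkQ =
      (VE (ρ.quotient W hW) C).map ((ρ.quotient W hW) z - LinearMap.id) := by
    rw [← map_VE ρ hC W hW, ← Submodule.map_comp, ← Submodule.map_comp]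
    congr 1
  rw [h1] at h0
  apply Submodule.finrank_eq_zero.1
  omega

/-- the rank on a free module -/
theorem rank_free (ρ : Representation (ZMod 2) G V) {C : Subgroup G} (hC : Odd (Nat.card C))
    (W : Submodule (ZMod 2) V) (hW : ∀ g, ∀ w ∈ W, ρ g w ∈ W) {z : G} (hz : ∀ g ∈ C, z * g * z⁻¹ ∈ C)
    (hfree : ∀ x ∈ W, ρ z x = x → ∃ y ∈ W, x = y + ρ z y) :
    finrank (ZMod 2) (VE ρ C ⊓ W : Submodule (ZMod 2) V) ≤
      2 * finrank (ZMod 2) ((VE ρ C ⊓ W).map (ρ z - LinearMap.id)) := by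
  have h := finrank_map_add (ρ z - LinearMap.id) (VE ρ C ⊓ W)
  have h1 : (VE ρ C ⊓ W) ⊓ LinearMap.ker (ρ z - LinearMap.id) ≤ (VE ρ C ⊓ W).map (ρ z - LinearMap.id) := by
    rintro x ⟨⟨hx, hxW⟩, hzx0⟩
    have hzx : x ∈ LinearMap.ker (ρ z - LinearMap.id) := hzx0
    rw [LinearMap.mem_ker, LinearMap.sub_apply, LinearMap.id_apply, sub_eq_zero] at hzx
    obtain ⟨y, hy, e⟩ := hfree x hxW hzx
    refine ⟨av ρ C y, ⟨av_mem ρ C y, av_mem_of_inv ρ W hW hy⟩, ?_⟩
    have h2 : ∀ w : V, -w = w := by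
      intro w
      have h3 : w + w = 0 := by
        have := odd_smul (n := 3) (by decide) w
        have h4 : (3 : ℕ) • w = w + w + w := by rw [succ_nsmul, two_nsmul]
        rw [h4] at this
        exact add_eq_right.1 this
      exact neg_eq_of_add_eq_zero_left h3
    rw [LinearMap.sub_apply, LinearMap.id_apply, av_comm ρ hz, ← map_sub, sub_eq_add_neg, h2, add_comm, ← e,
      av_eq_self ρ hC hx]
  have h2 := Submodule.finrank_mono h1
  omega

end rep

end Cfsg.Agent.H904.L34
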