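import Cfsg.Agent.H691.L34.Def
import Cfsg.Agent.S0242
import Cfsg.Agent.H904.L34.Rep

/-!
# S5917, part I (helper904): the groups `3² : Q₈` and `U` in `SL₃(4)`
-/

set_option autoImplicit false
set_option linter.unusedSectionVars false

namespace Cfsg.Agent.H904.L34

open Matrix Cfsg.Agent.H691.L34 Module

section field

variable {F : Type} [Field F] [Fintype F]

theorem two_zero (hF : Fintype.card F = 4) : (2 : F) = 0 := by
  have h := FiniteField.cast_card_eq_zero F
  rw [hF] at h
  have h2 : (2 : F) * 2 = 0 := by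
    rw [← h]; norm_num
  rcases mul_eq_zero.1 h2 with h3 | h3 <;> exact h3

theorem charTwo (hF : Fintype.card F = 4) : CharP F 2 :=
  CharTwo.of_one_ne_zero_of_two_eq_zero one_ne_zero (two_zero hF)

theorem add_self' (hF : Fintype.card F = 4) (x : F) : x + x = 0 := by
  rw [← two_mul, two_zero hF, zero_mul]

theorem neg_self (hF : Fintype.card F = 4) (x : F) : -x = x := by
  rw [neg_eq_iff_add_eq_zero]; exact add_self' hF x

theorem pow_four (hF : Fintype.card F = 4) (x : F) : x ^ 4 = x := by
  rw [← hF]; exact FiniteField.pow_card x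

theorem pow_three (hF : Fintype.card F = 4) {x : F} (hx : x ≠ 0) : x ^ 3 = 1 := by
  have h := pow_four hF x
  have h2 : x ^ 3 * x = 1 * x := by rw [← pow_succ, one_mul]; exact h
  exact mul_right_cancel₀ hx h2

theorem exists_omega (hF : Fintype.card F = 4) : ∃ w : F, w ^ 2 + w + 1 = 0 := by
  classical
  obtain ⟨w, hw⟩ : ∃ w : F, w ∉ ({0, 1} : Finset F) := by
    by_contra h
    push Not at h
    have h1 : Fintype.card F ≤ ({0, 1} : Finset F).card := Finset.card_le_card (fun x _ => h x)
    have h2 : ({0, 1} : Finset F).card ≤ 2 := Finset.card_le_two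
    omega
  rw [Finset.mem_insert, Finset.mem_singleton, not_or] at hw
  have h3 := pow_three hF hw.1
  have h4 : (w - 1) * (w ^ 2 + w + 1) = 0 := by
    have : (w - 1) * (w ^ 2 + w + 1) = w ^ 3 - 1 := by ring
    rw [this, h3, sub_self]
  rcases mul_eq_zero.1 h4 with h5 | h5
  · exact absurd (sub_eq_zero.1 h5) hw.2
  · exact ⟨w, h5⟩

/-! ### the conjugate transpose -/

theorem co_mul (g h : G3 F) : (g * h : G3 F).1 = g.1 * h.1 := rfl

theorem co_one : (1 : G3 F).1 = 1 := rfl

theorem co_pow (g : G3 F) (n : ℕ) : (g ^ n : G3 F).1 = g.1 ^ n := by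
  induction n with
  | zero => rw [pow_zero, pow_zero, co_one]
  | succ n ih => rw [pow_succ, pow_succ, co_mul, ih]

theorem hact_def (g : G3 F) (X : M3 F) : hact g X = g.1 * X * ct g.1 := rfl

theorem ct_mul (hF : Fintype.card F = 4) (A B : M3 F) : ct (A * B) = ct B * ct A := by
  haveI := charTwo hF
  haveI : Fact (Nat.Prime 2) := ⟨Nat.prime_two⟩
  have h1 : ∀ X : M3 F, X.map (fun a => a ^ 2) = X.map (frobenius F 2) := fun X => rfl
  rw [ct, ct, ct, h1, h1, h1, Matrix.map_mul, Matrix.transpose_mul]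

theorem ct_one : ct (1 : M3 F) = 1 := by
  rw [ct]
  ext i j
  rw [transpose_apply, map_apply, Matrix.one_apply, Matrix.one_apply]
  by_cases h : i = j
  · subst h; simp
  · rw [if_neg h, if_neg (Ne.symm h)]; simp

theorem hact_mul (hF : Fintype.card F = 4) (g h : G3 F) (X : M3 F) : hact (g * h) X = hact g (hact h X) := by
  rw [hact_def, hact_def, hact_def, co_mul, ct_mul hF]
  simp only [Matrix.mul_assoc]

theorem hact_one' (X : M3 F) : hact (1 : G3 F) X = X := by
  rw [hact_def, co_one, ct_one, Matrix.one_mul, Matrix.mul_one]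

/-- the unitary group -/
def RR (hF : Fintype.card F = 4) : Subgroup (G3 F) where
  carrier := {g | hact g (1 : M3 F) = 1}
  one_mem' := hact_one' 1
  mul_mem' := by
    intro a b ha hb
    show hact (a * b) 1 = 1
    have ha' : hact a (1 : M3 F) = 1 := ha
    have hb' : hact b (1 : M3 F) = 1 := hb
    rw [hact_mul hF, hb', ha']
  inv_mem' := by
    intro a ha
    have ha' : hact a (1 : M3 F) = 1 := ha
    show hact a⁻¹ 1 = 1
    have h1 : hact a⁻¹ (hact a (1 : M3 F)) = 1 := by
      rw [← hact_mul hF, inv_mul_cancel, hact_one']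
    rwa [ha'] at h1

theorem mem_RR {hF : Fintype.card F = 4} {g : G3 F} : g ∈ RR hF ↔ hact g (1 : M3 F) = 1 := Iff.rfl

/-! ### Cayley-Hamilton -/

theorem cayley (A : M3 F) : A * A * A = A.trace • (A * A) - A.adjugate.trace • A + A.det • (1 : M3 F) := by
  ext i j
  rw [Matrix.add_apply, Matrix.sub_apply, Matrix.smul_apply, Matrix.smul_apply, Matrix.smul_apply]
  simp only [Matrix.mul_apply, Fin.sum_univ_three, Matrix.trace, Matrix.diag_apply, Matrix.adjugate_fin_three,
    Matrix.det_fin_three, smul_eq_mul, Matrix.of_apply, Matrix.cons_val', Matrix.cons_val_zero, Matrix.cons_val_one,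
    Matrix.cons_val_fin_one, Matrix.cons_val]
  fin_cases i <;> fin_cases j <;> simp <;> ring

theorem cube_or (hF : Fintype.card F = 4) {g : G3 F} (hg : hact g (1 : M3 F) = 1) :
    g ^ 3 = 1 ∨ ∃ t : F, t ^ 3 = 1 ∧ (g ^ 4 : G3 F).1 = t • (1 : M3 F) := by
  set A : M3 F := g.1 with hA
  have h1 : A * ct A = 1 := by
    have : hact g (1 : M3 F) = A * ct A := by rw [hact_def, Matrix.mul_one]
    rw [← this]; exact hg
  have hadj : A.adjugate = ct A := by
    have h2 : A * A.adjugate = 1 := by
      rw [Matrix.mul_adjugate, g.2, one_smul]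
    have h3 : ct A * A = 1 := mul_eq_one_comm.1 h1
    calc A.adjugate = (ct A * A) * A.adjugate := by rw [h3, Matrix.one_mul]
      _ = ct A * (A * A.adjugate) := by rw [Matrix.mul_assoc]
      _ = ct A := by rw [h2, Matrix.mul_one]
  have htr : A.adjugate.trace = A.trace ^ 2 := by
    rw [hadj]
    have e1 : (ct A).trace = A 0 0 ^ 2 + A 1 1 ^ 2 + A 2 2 ^ 2 := by
      rw [Matrix.trace, Fin.sum_univ_three]
      rfl
    have e2 : A.trace = A 0 0 + A 1 1 + A 2 2 := by
      rw [Matrix.trace, Fin.sum_univ_three]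
      rfl
    rw [e1, e2]
    linear_combination (-(A 0 0 * A 1 1 + A 0 0 * A 2 2 + A 1 1 * A 2 2)) * two_zero hF
  have hneg : ∀ X : M3 F, -X = X := by
    intro X
    ext i j
    exact neg_self hF _
  have hdd : ∀ X : M3 F, X + X = 0 := by
    intro X
    ext i j
    exact add_self' hF _
  have hc := cayley A
  rw [htr, g.2, one_smul, sub_eq_add_neg, hneg] at hc
  set t := A.trace with ht
  by_cases h0 : t = 0
  · left
    apply Subtype.ext
    rw [co_pow, co_one, pow_three', ← hA, hc, h0, zero_smul, zero_pow two_ne_zero,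
      zero_smul, zero_add, zero_add]
  · right
    have ht3 := pow_three hF h0
    refine ⟨t, ht3, ?_⟩
    rw [co_pow, ← hA]
    have e1 : A ^ 4 = (A * A * A) * A := by rw [pow_succ, pow_three']
    have e2 : (t • (A * A) + t ^ 2 • A + 1) * A = t • (A * A * A) + t ^ 2 • (A * A) + A := by
      rw [Matrix.add_mul, Matrix.add_mul, Matrix.smul_mul, Matrix.smul_mul, Matrix.one_mul]
    rw [e1, hc, e2, hc, smul_add, smul_add, smul_smul, smul_smul]
    have e3 : t * t ^ 2 = 1 := by rw [← ht3]; ring
    have e4 : t * t = t ^ 2 := by ring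
    rw [e3, e4, one_smul]
    have e5 : t ^ 2 • (A * A) + A + t • (1 : M3 F) + t ^ 2 • (A * A) + A =
        (t ^ 2 • (A * A) + t ^ 2 • (A * A)) + (A + A) + t • (1 : M3 F) := by abel
    rw [e5, hdd, hdd, zero_add, zero_add]

theorem pow_twelve (hF : Fintype.card F = 4) {g : G3 F} (hg : hact g (1 : M3 F) = 1) : g ^ 12 = 1 := by
  rcases cube_or hF hg with h | ⟨t, ht, h⟩
  · have : g ^ 12 = (g ^ 3) ^ 4 := by rw [← pow_mul]
    rw [this, h, one_pow]
  · have : g ^ 12 = (g ^ 4) ^ 3 := by rw [← pow_mul]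
    rw [this]
    apply Subtype.ext
    rw [co_pow, h, co_one, smul_pow, ht, one_smul, one_pow]

/-! ### orders -/

theorem card_G3 (hF : Fintype.card F = 4) : Nat.card (G3 F) = 60480 := by
  have h := Cfsg.Agent.S0242.result (F := F) hF 3 (by norm_num)
  rw [Fin.prod_univ_three] at h
  have h2 : (4 - 1) * Nat.card (SpecialLinearGroup (Fin 3) F) = 3 * 60480 := by
    rw [h]
    norm_num
  have h3 : 3 * Nat.card (SpecialLinearGroup (Fin 3) F) = 3 * 60480 := h2
  exact Nat.eq_of_mul_eq_mul_left (by norm_num) h3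

end field

end Cfsg.Agent.H904.L34
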