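import Mathlib

/-!
# S5917, part I (helper904): linear algebra over the field with two elements

* `finrank_three` : the fixed space of an elementary abelian group of order 9;
* `free_of_norm`  : a module of dimension `|U|` with a nonzero norm is free over the 2-group `U`.
-/

set_option autoImplicit false
set_option linter.unusedSectionVars false

namespace Cfsg.Agent.H904.L34

open Module

section idem

variable {K V : Type*} [Field K] [AddCommGroup V] [Module K V] [Module.Finite K V]

theorem finrank_range_add {p q : Module.End K V} (hp : p * p = p) (hpq : p * q = 0) (hqp : q * p = 0)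
    (hq : q * q = q) :
    finrank K (LinearMap.range (p + q)) = finrank K (LinearMap.range p) + finrank K (LinearMap.range q) := by
  have h1 : LinearMap.range (p + q) = LinearMap.range p ⊔ LinearMap.range q := by
    apply le_antisymm
    · rintro _ ⟨v, rfl⟩
      exact Submodule.add_mem_sup ⟨v, rfl⟩ ⟨v, rfl⟩
    · rw [sup_le_iff]
      constructor
      · rintro _ ⟨v, rfl⟩
        refine ⟨p v, ?_⟩
        have e1 : p (p v) = p v := congrArg (fun f : Module.End K V => f v) hp
        have e2 : q (p v) = 0 := congrArg (fun f : Module.End K V => f v) hqp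
        rw [LinearMap.add_apply, e1, e2, add_zero]
      · rintro _ ⟨v, rfl⟩
        refine ⟨q v, ?_⟩
        have e1 : q (q v) = q v := congrArg (fun f : Module.End K V => f v) hq
        have e2 : p (q v) = 0 := congrArg (fun f : Module.End K V => f v) hpq
        rw [LinearMap.add_apply, e1, e2, zero_add]
  have h2 : LinearMap.range p ⊓ LinearMap.range q = ⊥ := by
    rw [Submodule.eq_bot_iff]
    rintro x ⟨⟨v, rfl⟩, ⟨w, hw⟩⟩
    have e1 : p (p v) = p v := congrArg (fun f : Module.End K V => f v) hp
    have e2 : p (q w) = 0 := congrArg (fun f : Module.End K V => f w) hpq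
    rw [← e1, ← hw, e2]
  have h3 := Submodule.finrank_sup_add_finrank_inf_eq (LinearMap.range p) (LinearMap.range q)
  rw [h2, finrank_bot, add_zero] at h3
  rw [h1, h3]

theorem finrank_range_sum {ι : Type*} (p : ι → Module.End K V) (hi : ∀ i, p i * p i = p i)
    (ho : ∀ i j, i ≠ j → p i * p j = 0) (s : Finset ι) :
    (∑ i ∈ s, p i) * (∑ i ∈ s, p i) = ∑ i ∈ s, p i ∧
      finrank K (LinearMap.range (∑ i ∈ s, p i)) = ∑ i ∈ s, finrank K (LinearMap.range (p i)) := by
  classical
  induction s using Finset.induction_on with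
  | empty =>
    refine ⟨by simp, ?_⟩
    rw [Finset.sum_empty, Finset.sum_empty]
    have h0 : LinearMap.range (0 : Module.End K V) = ⊥ := LinearMap.range_zero
    rw [h0, finrank_bot]
  | insert i s his ih =>
    have h1 : p i * ∑ j ∈ s, p j = 0 := by
      rw [Finset.mul_sum]
      exact Finset.sum_eq_zero fun j hj => ho i j (by rintro rfl; exact his hj)
    have h2 : (∑ j ∈ s, p j) * p i = 0 := by
      rw [Finset.sum_mul]
      exact Finset.sum_eq_zero fun j hj => ho j i (by rintro rfl; exact his hj)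
    rw [Finset.sum_insert his, Finset.sum_insert his]
    refine ⟨?_, ?_⟩
    · rw [mul_add, add_mul, add_mul, hi, h1, h2, ih.1, zero_add, add_zero]
    · rw [finrank_range_add (hi i) h1 h2 ih.1, ih.2]

/-- the idempotent of an element of order 3 -/
def idm (x : Module.End K V) : Module.End K V := 1 + x + x ^ 2

theorem add_self (h2 : (2 : K) = 0) (x : Module.End K V) : x + x = 0 := by
  rw [← two_smul K x, h2, zero_smul]

theorem idm_mul_self {x : Module.End K V} (hx : x ^ 3 = 1) : idm x * x = idm x := by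
  have : idm x * x = x + x ^ 2 + x ^ 3 := by
    unfold idm
    noncomm_ring
  rw [this, hx, idm]
  abel

theorem self_mul_idm {x : Module.End K V} (hx : x ^ 3 = 1) : x * idm x = idm x := by
  have : x * idm x = x + x ^ 2 + x ^ 3 := by
    unfold idm
    noncomm_ring
  rw [this, hx, idm]
  abel

/-- `idm x * idm (u * y) = idm x * idm y` if `idm x * u = idm x` -/
theorem idm_mul_idm_mul {x u y : Module.End K V} (hu : idm x * u = idm x) (huy : Commute u y) :
    idm x * idm (u * y) = idm x * idm y := by
  have h1 : idm x * (u * y) = idm x * y := by rw [← mul_assoc, hu]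
  have h2 : idm x * (u ^ 2 * y ^ 2) = idm x * y ^ 2 := by rw [← mul_assoc, pow_two u, ← mul_assoc, hu, hu]
  have h3 : idm (u * y) = 1 + u * y + u ^ 2 * y ^ 2 := by rw [idm, huy.mul_pow]
  rw [h3, mul_add, mul_add, h1, h2, idm, idm]
  noncomm_ring

theorem idm_sq (h2 : (2 : K) = 0) {x : Module.End K V} (hx : x ^ 3 = 1) : idm x * idm x = idm x := by
  have h1 := idm_mul_self hx
  have h3 : idm x * x ^ 2 = idm x := by rw [pow_two, ← mul_assoc, h1, h1]
  calc idm x * idm x = idm x * 1 + idm x * x + idm x * x ^ 2 := by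
        conv_lhs => rw [show idm x * idm x = idm x * (1 + x + x ^ 2) from rfl]
        rw [mul_add, mul_add]
    _ = idm x + (idm x + idm x) := by rw [mul_one, h1, h3, add_assoc]
    _ = idm x := by rw [add_self h2, add_zero]

theorem commute_idm {x y : Module.End K V} (h : Commute x y) : Commute (idm x) (idm y) := by
  have h1 : Commute x (idm y) := ((Commute.one_right x).add_right h).add_right (h.pow_right 2)
  exact ((Commute.one_left _).add_left h1).add_left (h1.pow_left 2)

theorem range_idm (h2 : (2 : K) = 0) {x : Module.End K V} (hx : x ^ 3 = 1) :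
    LinearMap.range (idm x) = LinearMap.ker (x - 1) := by
  ext v
  rw [LinearMap.mem_range, LinearMap.mem_ker, LinearMap.sub_apply, Module.End.one_apply, sub_eq_zero]
  constructor
  · rintro ⟨w, rfl⟩
    exact congrArg (fun f : Module.End K V => f w) (self_mul_idm hx)
  · intro h
    refine ⟨v, ?_⟩
    have h1 : (x ^ 2) v = v := by rw [pow_two, Module.End.mul_apply, h, h]
    rw [idm, LinearMap.add_apply, LinearMap.add_apply, Module.End.one_apply, h, h1, add_assoc, ← two_smul K v, h2,
      zero_smul, add_zero]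

/-- **The fixed space of an elementary abelian group of order 9.** -/
theorem finrank_three (h2 : (2 : K) = 0) {a b : Module.End K V} (hab : a * b = b * a) (ha : a ^ 3 = 1) (hb : b ^ 3 = 1) :
    finrank K V + 3 * finrank K ↥(LinearMap.ker (a - 1) ⊓ LinearMap.ker (b - 1)) =
      finrank K (LinearMap.ker (a - 1)) + finrank K (LinearMap.ker (b - 1)) +
        finrank K (LinearMap.ker (a * b - 1)) + finrank K (LinearMap.ker (a * b ^ 2 - 1)) := by
  have hc : Commute a b := hab
  have hb2 : (b ^ 2) ^ 3 = 1 := by rw [← pow_mul, mul_comm, pow_mul, hb, one_pow]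
  have hab3 : (a * b) ^ 3 = 1 := by rw [hc.mul_pow, ha, hb, one_mul]
  have hab23 : (a * b ^ 2) ^ 3 = 1 := by rw [(hc.pow_right 2).mul_pow, ha, hb2, one_mul]
  have hb4 : (b ^ 2) ^ 2 = b := by
    rw [← pow_mul]
    have : b ^ (2 * 2) = b ^ 3 * b := by rw [← pow_succ]
    rw [this, hb, one_mul]
  have hib2 : idm (b ^ 2) = idm b := by rw [idm, idm, hb4]; abel
  set e := idm a * idm b with he
  have hee : e * e = e := by
    have h1 := commute_idm hc
    calc e * e = (idm a * idm a) * (idm b * idm b) := by
          rw [he, mul_assoc, ← mul_assoc (idm b), ← h1.eq, mul_assoc, mul_assoc]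
      _ = e := by rw [idm_sq h2 ha, idm_sq h2 hb]
  -- products
  have p12 : idm a * idm b = e := rfl
  have p13 : idm a * idm (a * b) = e := idm_mul_idm_mul (idm_mul_self ha) hc
  have p14 : idm a * idm (a * b ^ 2) = e := by
    rw [idm_mul_idm_mul (idm_mul_self ha) (hc.pow_right 2), hib2]
  have p23 : idm b * idm (a * b) = e := by
    rw [hab, idm_mul_idm_mul (idm_mul_self hb) hc.symm, ← (commute_idm hc).eq]
  have hbb : idm b * b ^ 2 = idm b := by rw [pow_two, ← mul_assoc, idm_mul_self hb, idm_mul_self hb]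
  have p24 : idm b * idm (a * b ^ 2) = e := by
    rw [(hc.pow_right 2).eq, idm_mul_idm_mul hbb (hc.symm.pow_left 2), ← (commute_idm hc).eq]
  have hcab : Commute (a * b) b := hc.mul_left (Commute.refl b)
  have p34 : idm (a * b) * idm (a * b ^ 2) = e := by
    have : a * b ^ 2 = (a * b) * b := by rw [pow_two, mul_assoc]
    rw [this, idm_mul_idm_mul (idm_mul_self hab3) hcab, (commute_idm hcab).eq, p23]
  have c12 : Commute (idm a) (idm b) := commute_idm hc
  have c13 : Commute (idm a) (idm (a * b)) := commute_idm ((Commute.refl a).mul_right hc)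
  have c14 : Commute (idm a) (idm (a * b ^ 2)) := commute_idm ((Commute.refl a).mul_right (hc.pow_right 2))
  have c23 : Commute (idm b) (idm (a * b)) := commute_idm hcab.symm
  have c24 : Commute (idm b) (idm (a * b ^ 2)) :=
    commute_idm (hc.symm.mul_right ((Commute.refl b).pow_right 2))
  have c34 : Commute (idm (a * b)) (idm (a * b ^ 2)) := by
    apply commute_idm
    have : a * b ^ 2 = (a * b) * b := by rw [pow_two, mul_assoc]
    rw [this]
    exact (Commute.refl (a * b)).mul_right hcab
  -- each idempotent absorbs `e`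
  have q1 : idm a * e = e := by rw [he, ← mul_assoc, idm_sq h2 ha]
  have q1' : e * idm a = e := by rw [he, c12.eq, mul_assoc, idm_sq h2 ha]
  have q2 : idm b * e = e := by rw [he, c12.eq, ← mul_assoc, idm_sq h2 hb]
  have q2' : e * idm b = e := by rw [he, mul_assoc, idm_sq h2 hb]
  have q3 : idm (a * b) * e = e := by
    calc idm (a * b) * e = idm (a * b) * (idm a * idm (a * b)) := by rw [p13]
      _ = (idm a * idm (a * b)) * idm (a * b) := by rw [← mul_assoc, ← c13.eq]
      _ = idm a * idm (a * b) := by rw [mul_assoc, idm_sq h2 hab3]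
      _ = e := p13
  have q3' : e * idm (a * b) = e := by
    calc e * idm (a * b) = (idm a * idm (a * b)) * idm (a * b) := by rw [p13]
      _ = idm a * idm (a * b) := by rw [mul_assoc, idm_sq h2 hab3]
      _ = e := p13
  have q4 : idm (a * b ^ 2) * e = e := by
    calc idm (a * b ^ 2) * e = idm (a * b ^ 2) * (idm a * idm (a * b ^ 2)) := by rw [p14]
      _ = (idm a * idm (a * b ^ 2)) * idm (a * b ^ 2) := by rw [← mul_assoc, ← c14.eq]
      _ = idm a * idm (a * b ^ 2) := by rw [mul_assoc, idm_sq h2 hab23]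
      _ = e := p14
  have q4' : e * idm (a * b ^ 2) = e := by
    calc e * idm (a * b ^ 2) = (idm a * idm (a * b ^ 2)) * idm (a * b ^ 2) := by rw [p14]
      _ = idm a * idm (a * b ^ 2) := by rw [mul_assoc, idm_sq h2 hab23]
      _ = e := p14
  have hdd : ∀ x : Module.End K V, x + x = 0 := add_self h2
  -- the orthogonal idempotents
  have f_idem : ∀ x : Module.End K V, x * x = x → x * e = e → e * x = e → (x + e) * (x + e) = x + e := by
    intro x h1 h3 h4
    rw [mul_add, add_mul, add_mul, h1, h3, h4, hee]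
    rw [hdd e, add_zero]
  have f_orth : ∀ x y : Module.End K V, x * y = e → x * e = e → e * y = e → (x + e) * (y + e) = 0 := by
    intro x y h1 h3 h4
    rw [mul_add, add_mul, add_mul, h1, h3, h4, hee, hdd e, add_zero]
  have f_e : ∀ x : Module.End K V, x * e = e → (x + e) * e = 0 := by
    intro x h3
    rw [add_mul, h3, hee, hdd]
  have e_f : ∀ x : Module.End K V, e * x = e → e * (x + e) = 0 := by
    intro x h3
    rw [mul_add, h3, hee, hdd]
  have rk : ∀ x : Module.End K V, x * x = x → x * e = e → e * x = e →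
      finrank K (LinearMap.range x) = finrank K (LinearMap.range (x + e)) + finrank K (LinearMap.range e) := by
    intro x h1 h3 h4
    rw [← finrank_range_add (f_idem x h1 h3 h4) (f_e x h3) (e_f x h4) hee, add_assoc, hdd, add_zero]
  have hone : (idm a + e) + ((idm b + e) + ((idm (a * b) + e) + ((idm (a * b ^ 2) + e) + e))) = 1 := by
    have h1 : e = 1 + a + a ^ 2 + b + a * b + a ^ 2 * b + b ^ 2 + a * b ^ 2 + a ^ 2 * b ^ 2 := by
      rw [he, idm, idm]
      noncomm_ring
    have h3 : idm (a * b) = 1 + a * b + a ^ 2 * b ^ 2 := by rw [idm, hc.mul_pow]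
    have h4 : idm (a * b ^ 2) = 1 + a * b ^ 2 + a ^ 2 * b := by rw [idm, (hc.pow_right 2).mul_pow, hb4]
    have h5 : (idm a + e) + ((idm b + e) + ((idm (a * b) + e) + ((idm (a * b ^ 2) + e) + e))) =
        (idm a + idm b + idm (a * b) + idm (a * b ^ 2) + e) + (e + e) + (e + e) := by
      abel
    rw [h5, hdd e, add_zero, add_zero, h3, h4, h1, idm, idm]
    have h6 : (1 + a + a ^ 2) + (1 + b + b ^ 2) + (1 + a * b + a ^ 2 * b ^ 2) + (1 + a * b ^ 2 + a ^ 2 * b) +
        (1 + a + a ^ 2 + b + a * b + a ^ 2 * b + b ^ 2 + a * b ^ 2 + a ^ 2 * b ^ 2) =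
        1 + ((1 + 1) + (1 + 1) + (a + a) + (a ^ 2 + a ^ 2) + (b + b) + (b ^ 2 + b ^ 2) + (a * b + a * b) +
        (a ^ 2 * b ^ 2 + a ^ 2 * b ^ 2) + (a * b ^ 2 + a * b ^ 2) + (a ^ 2 * b + a ^ 2 * b)) := by abel
    rw [h6]
    simp only [hdd, add_zero]
  have hsum := finrank_range_sum (![idm a + e, idm b + e, idm (a * b) + e, idm (a * b ^ 2) + e, e] :
      Fin 5 → Module.End K V) (by
    intro i
    fin_cases i
    · exact f_idem _ (idm_sq h2 ha) q1 q1'
    · exact f_idem _ (idm_sq h2 hb) q2 q2'
    · exact f_idem _ (idm_sq h2 hab3) q3 q3'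
    · exact f_idem _ (idm_sq h2 hab23) q4 q4'
    · exact hee) (by
    intro i j hij
    fin_cases i <;> fin_cases j
    · exact absurd rfl hij
    · exact f_orth _ _ p12 q1 q2'
    · exact f_orth _ _ p13 q1 q3'
    · exact f_orth _ _ p14 q1 q4'
    · exact f_e _ q1
    · exact f_orth _ _ (c12.eq.symm.trans p12) q2 q1'
    · exact absurd rfl hij
    · exact f_orth _ _ p23 q2 q3'
    · exact f_orth _ _ p24 q2 q4'
    · exact f_e _ q2
    · exact f_orth _ _ (c13.eq.symm.trans p13) q3 q1'
    · exact f_orth _ _ (c23.eq.symm.trans p23) q3 q2'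
    · exact absurd rfl hij
    · exact f_orth _ _ p34 q3 q4'
    · exact f_e _ q3
    · exact f_orth _ _ (c14.eq.symm.trans p14) q4 q1'
    · exact f_orth _ _ (c24.eq.symm.trans p24) q4 q2'
    · exact f_orth _ _ (c34.eq.symm.trans p34) q4 q3'
    · exact absurd rfl hij
    · exact f_e _ q4
    · exact e_f _ q1'
    · exact e_f _ q2'
    · exact e_f _ q3'
    · exact e_f _ q4'
    · exact absurd rfl hij) Finset.univ
  have hs2 := hsum.2
  have hs1 : ∑ i : Fin 5, (![idm a + e, idm b + e, idm (a * b) + e, idm (a * b ^ 2) + e, e] :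
      Fin 5 → Module.End K V) i = 1 := by
    rw [← hone, Fin.sum_univ_five]
    show (idm a + e) + (idm b + e) + (idm (a * b) + e) + (idm (a * b ^ 2) + e) + e = _
    simp only [add_assoc]
  rw [hs1, Fin.sum_univ_five] at hs2
  have hs3 : finrank K (LinearMap.range (1 : Module.End K V)) = finrank K (LinearMap.range (idm a + e)) +
      finrank K (LinearMap.range (idm b + e)) + finrank K (LinearMap.range (idm (a * b) + e)) +
      finrank K (LinearMap.range (idm (a * b ^ 2) + e)) + finrank K (LinearMap.range e) := hs2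
  have hr1 : finrank K (LinearMap.range (1 : Module.End K V)) = finrank K V := by
    have : LinearMap.range (1 : Module.End K V) = ⊤ := LinearMap.range_id
    rw [this, finrank_top]
  rw [hr1] at hs3
  have r1 := rk _ (idm_sq h2 ha) q1 q1'
  have r2 := rk _ (idm_sq h2 hb) q2 q2'
  have r3 := rk _ (idm_sq h2 hab3) q3 q3'
  have r4 := rk _ (idm_sq h2 hab23) q4 q4'
  rw [range_idm h2 ha] at r1
  rw [range_idm h2 hb] at r2
  rw [range_idm h2 hab3] at r3
  rw [range_idm h2 hab23] at r4
  have hre : LinearMap.range e = LinearMap.ker (a - 1) ⊓ LinearMap.ker (b - 1) := by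
    ext v
    rw [Submodule.mem_inf, LinearMap.mem_range, ← range_idm h2 ha, ← range_idm h2 hb, LinearMap.mem_range,
      LinearMap.mem_range]
    constructor
    · rintro ⟨w, rfl⟩
      refine ⟨⟨idm b w, rfl⟩, ⟨idm a w, ?_⟩⟩
      rw [he, c12.eq, Module.End.mul_apply]
    · rintro ⟨⟨w, hw⟩, ⟨w', hw'⟩⟩
      refine ⟨v, ?_⟩
      have e1 : idm a v = v := by
        rw [← hw, ← Module.End.mul_apply, idm_sq h2 ha]
      have e2 : idm b v = v := by
        rw [← hw', ← Module.End.mul_apply, idm_sq h2 hb]
      rw [he, Module.End.mul_apply, e2, e1]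
  rw [← hre]
  omega

end idem

theorem zmod_two_eq_one : ∀ x : ZMod 2, x ≠ 0 → x = 1 := by decide

section free

variable {U V : Type*} [Group U] [Finite U] [AddCommGroup V] [Module (ZMod 2) V]

/-- left translation on functions -/
def tr (g : U) (c : U → ZMod 2) : U → ZMod 2 := fun u => c (g⁻¹ * u)

/-- the map `c ↦ ∑ c u • ρ u w` -/
noncomputable def orb [Fintype U] (ρ : Representation (ZMod 2) U V) (w : V) : (U → ZMod 2) →ₗ[ZMod 2] V :=
  Fintype.linearCombination (ZMod 2) (fun u : U => ρ u w)

theorem orb_apply [Fintype U] (ρ : Representation (ZMod 2) U V) (w : V) (c : U → ZMod 2) :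
    orb ρ w c = ∑ u, c u • ρ u w := rfl

theorem orb_tr [Fintype U] (ρ : Representation (ZMod 2) U V) (w : V) (g : U) (c : U → ZMod 2) :
    orb ρ w (tr g c) = ρ g (orb ρ w c) := by
  rw [orb_apply, orb_apply, map_sum]
  apply Fintype.sum_equiv (Equiv.mulLeft g⁻¹)
  intro u
  rw [map_smul, tr]
  congr 1
  rw [Equiv.coe_mulLeft, ← Module.End.mul_apply, ← map_mul, mul_inv_cancel_left]

theorem orb_injective [Fintype U] (hU : IsPGroup 2 U) (ρ : Representation (ZMod 2) U V) {w : V}
    (hw : ∑ u, ρ u w ≠ 0) : Function.Injective (orb ρ w) := by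
  rw [← LinearMap.ker_eq_bot]
  by_contra hne
  let I : Submodule (ZMod 2) (U → ZMod 2) := LinearMap.ker (orb ρ w)
  have hI : ∀ g : U, ∀ c ∈ I, tr g c ∈ I := by
    intro g c hc
    rw [LinearMap.mem_ker] at hc ⊢
    rw [orb_tr, hc, map_zero]
  letI act : MulAction U I :=
    { smul := fun g c => ⟨tr g c.1, hI g _ c.2⟩
      one_smul := by
        intro c
        apply Subtype.ext
        funext u
        show c.1 (1⁻¹ * u) = c.1 u
        rw [inv_one, one_mul]
      mul_smul := by
        intro g h c
        apply Subtype.ext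
        funext u
        show c.1 ((g * h)⁻¹ * u) = c.1 (h⁻¹ * (g⁻¹ * u))
        rw [mul_inv_rev, mul_assoc] }
  have hfin : Finite I := inferInstance
  have hcard : 2 ∣ Nat.card I := by
    rw [Module.natCard_eq_pow_finrank (K := ZMod 2) (V := I), Nat.card_zmod]
    apply dvd_pow_self
    intro h0
    apply hne
    exact Submodule.finrank_eq_zero.1 h0
  have hfix : (0 : I) ∈ MulAction.fixedPoints U I := by
    intro g
    apply Subtype.ext
    rfl
  haveI : Fact (Nat.Prime 2) := ⟨Nat.prime_two⟩
  obtain ⟨b, hb, hb0⟩ := hU.exists_fixed_point_of_prime_dvd_card_of_fixed_point I hcard hfix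
  have hconst : ∀ u, b.1 u = b.1 1 := by
    intro u
    have h1 := hb u
    have h2 := congrFun (congrArg Subtype.val h1) u
    have h3 : b.1 (u⁻¹ * u) = b.1 u := h2
    rw [inv_mul_cancel] at h3
    exact h3.symm
  have hb1 : b.1 1 ≠ 0 := by
    intro h0
    apply hb0
    apply Subtype.ext
    funext u
    rw [hconst u, h0]
    rfl
  have hb2 : b.1 1 = 1 := by
    exact zmod_two_eq_one _ hb1
  have h4 : orb ρ w b.1 = 0 := b.2
  apply hw
  rw [orb_apply] at h4
  rw [← h4]
  apply Finset.sum_congr rfl
  intro u _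
  rw [hconst u, hb2, one_smul]

/-- **Freeness over a 2-group** : `ker (z - 1) = im (z + 1)` for an involution `z`. -/
theorem free_of_norm [Fintype U] (hU : IsPGroup 2 U) (ρ : Representation (ZMod 2) U V) [Module.Finite (ZMod 2) V]
    (W : Submodule (ZMod 2) V) (hW : ∀ u, ∀ w ∈ W, ρ u w ∈ W) (hdim : finrank (ZMod 2) W = Nat.card U) {w : V}
    (hwW : w ∈ W) (hw : ∑ u, ρ u w ≠ 0) {z : U} (hz : z * z = 1) (hz1 : z ≠ 1) {x : V} (hx : x ∈ W)
    (hzx : ρ z x = x) : ∃ y ∈ W, x = y + ρ z y := by
  have hinj := orb_injective hU ρ hw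
  have hle : LinearMap.range (orb ρ w) ≤ W := by
    rintro _ ⟨c, rfl⟩
    rw [orb_apply]
    exact W.sum_mem fun u _ => W.smul_mem _ (hW u w hwW)
  have hr : LinearMap.range (orb ρ w) = W := by
    apply Submodule.eq_of_le_of_finrank_eq hle
    rw [LinearMap.finrank_range_of_inj hinj, Module.finrank_fintype_fun_eq_card, hdim, Nat.card_eq_fintype_card]
  rw [← hr] at hx
  obtain ⟨c, rfl⟩ := hx
  rw [← orb_tr] at hzx
  have hc : tr z c = c := hinj hzx
  have hzi : z⁻¹ = z := inv_eq_of_mul_eq_one_left hz
  obtain ⟨κ, hκ⟩ : ∃ κ : U → ℕ, Function.Injective κ :=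
    ⟨fun u => (Finite.equivFin U u : ℕ), fun a b h => (Finite.equivFin U).injective (Fin.ext h)⟩
  let c0 : U → ZMod 2 := fun u => if κ u < κ (z * u) then c u else 0
  have h1 : c = c0 + tr z c0 := by
    funext u
    have e1 : c (z * u) = c u := by
      have := congrFun hc u
      rw [tr, hzi] at this
      exact this
    have e2 : z * (z * u) = u := by rw [← mul_assoc, hz, one_mul]
    have e3 : κ u ≠ κ (z * u) := by
      intro h
      have h2 := hκ h
      apply hz1
      have h3 : z * u = 1 * u := by rw [one_mul]; exact h2.symm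
      exact mul_right_cancel h3
    show c u = (if κ u < κ (z * u) then c u else 0) +
      (if κ (z⁻¹ * u) < κ (z * (z⁻¹ * u)) then c (z⁻¹ * u) else 0)
    rw [hzi, e2, e1]
    rcases lt_or_gt_of_ne e3 with h | h
    · rw [if_pos h, if_neg (not_lt.2 h.le), add_zero]
    · rw [if_neg (not_lt.2 h.le), if_pos h, zero_add]
  refine ⟨orb ρ w c0, ?_, ?_⟩
  · rw [← hr]
    exact ⟨c0, rfl⟩
  · rw [← orb_tr, ← map_add, ← h1]

end free

end Cfsg.Agent.H904.L34
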