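import Cfsg.Agent.H904.L34.Uq

/-!
# S5917, part I (helper904): lower bounds for the ranks, without the dimension 20
-/

set_option autoImplicit false
set_option linter.unusedSectionVars false
set_option linter.unusedVariables false

namespace Cfsg.Agent.H904.L34.Uq

open Matrix Cfsg.Agent.H691.L34 Cfsg.Agent.H904.L34 Cfsg.Agent.H904.L34.Unit Module Cfsg.Agent.H550.L34
open Cfsg.Agent.H955.L34.Gen (om_w)

variable {F : Type} [Field F] [Fintype F] {ω : F} {V : Type} [AddCommGroup V] [Module (ZMod 2) V]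
  [Module.Finite (ZMod 2) V] {ρ : Representation (ZMod 2) (G3 F) V}

/-- **`3 ≤ rank Tr`, `12 ≤ rank (1 + z)`, `dim V^E = 32`** from the dimensions only -/
theorem low (h : Om ω) (hF : Fintype.card F = 4) (hc : CT ρ) {n5 n7 : ℕ}
    (hn5 : n5 = 68 ∨ n5 = 48) (hn7 : n7 = 80 ∨ n7 = 38) (hd : Dims ρ (⊤ : Submodule (ZMod 2) V) 248 86 n5 n7) :
    finrank (ZMod 2) (MDP ρ h) = 32 ∧
    12 ≤ finrank (ZMod 2) ((MDP ρ h).map (ρ (gZ h) - LinearMap.id)) ∧
    3 ≤ finrank (ZMod 2) ((MDP ρ h).map (T8 ρ (gW h) (gJ h))) := by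
  have : Fact (Nat.Prime 3) := ⟨Nat.prime_three⟩
  have : Fact (Nat.Prime 5) := ⟨Nat.prime_five⟩
  have : Fact (Nat.Prime 7) := ⟨by norm_num⟩
  have hw := om_w h
  have e1 : orderOf (g1 (ω + 1) hw) = 3 := by
    apply orderOf_eq_prime (g1_cube hw)
    intro h1
    have h2 := g12_ne hw hF
    rw [h1, one_mul, mul_one] at h2
    exact h2 rfl
  have c1 : g1 (ω + 1) hw ∉ Subgroup.center (G3 F) := fun h => g12_ne hw hF (Subgroup.mem_center_iff.1 h g2).symm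
  obtain ⟨x5, hx5⟩ := exists_prime_orderOf_dvd_card' (G := G3 F) 5 (by rw [card_G3 hF]; norm_num)
  obtain ⟨x7, hx7⟩ := exists_prime_orderOf_dvd_card' (G := G3 F) 7 (by rw [card_G3 hF]; norm_num)
  obtain ⟨a, b, c, d, hq, hr, hr2⟩ := main3 hw hF _ V ρ le_rfl hc
  have q0 := hd.1.symm.trans hq.1
  have q3 := (hd.2.1 _ e1 c1).symm.trans (hq.2.1 _ e1 c1)
  have q5 := (hd.2.2.1 _ hx5).symm.trans (hq.2.2.1 _ hx5)
  have q7 := (hd.2.2.2 _ hx7).symm.trans (hq.2.2.2 _ hx7)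
  have h32 := dims_EE hw hF hc (W := ⊤) (fun _ _ _ => Submodule.mem_top) hd
  rw [inf_top_eq] at h32
  rw [VE_MDP h hc] at h32
  rw [VE_MDP h hc, eq_W h hF, W_W] at hr
  rw [VE_MDP h hc, eq_W h hF, eq_J h hF] at hr2
  refine ⟨by omega, ?_, ?_⟩
  · refine le_trans ?_ hr
    omega
  · refine le_trans ?_ hr2
    omega

end Cfsg.Agent.H904.L34.Uq
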