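import Cfsg.Agent.H904.L34.Ext

/-!
# S5917, part I (helper904): the row `trace_zero`
-/

set_option autoImplicit false
set_option linter.unusedSectionVars false

namespace Cfsg.Agent.H904.L34

open Matrix Cfsg.Agent.H691.L34 Module

section

variable {F : Type} [Field F] [Fintype F] {V : Type} [AddCommGroup V] [Module (ZMod 2) V] [Module.Finite (ZMod 2) V]
  {ρ : Representation (ZMod 2) (G3 F) V}

/-- The fixed spaces of an invariant subspace, as kernels of the restricted operators. -/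
theorem finrank_restrict {W : Submodule (ZMod 2) V} (f : V →ₗ[ZMod 2] V) (hf : ∀ w ∈ W, f w ∈ W) :
    finrank (ZMod 2) (LinearMap.ker (f.restrict hf - (1 : Module.End (ZMod 2) W))) =
      finrank (ZMod 2) (W ⊓ LinearMap.ker (f - LinearMap.id) : Submodule (ZMod 2) V) := by
  have h : (LinearMap.ker (f.restrict hf - (1 : Module.End (ZMod 2) W))).map W.subtype =
      W ⊓ LinearMap.ker (f - LinearMap.id) := by
    ext v
    constructor
    · rintro ⟨w, hw, rfl⟩
      refine ⟨w.2, ?_⟩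
      have h1 : f.restrict hf w - w = 0 := hw
      have h2 : f w.1 - w.1 = 0 := congrArg Subtype.val h1
      exact h2
    · rintro ⟨hv, hv2⟩
      refine ⟨⟨v, hv⟩, ?_, rfl⟩
      have h2 : f v - v = 0 := hv2
      show f.restrict hf ⟨v, hv⟩ - ⟨v, hv⟩ = 0
      exact Subtype.ext h2
  rw [← h, Submodule.finrank_map_subtype_eq]

/-- **The fixed space of `E` on an invariant subspace.** -/
theorem dims_E (hF : Fintype.card F = 4) (hc : CT ρ) {E : Subgroup (G3 F)}
    (hE : ∀ g : G3 F, g ∈ E ↔ (hact g (1 : M3 F) = 1 ∧ g ^ 3 = 1)) {W : Submodule (ZMod 2) V}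
    (hW : ∀ g, ∀ w ∈ W, ρ g w ∈ W) {n n3 n5 n7 : ℕ} (hd : Dims ρ W n n3 n5 n7) :
    n + 3 * finrank (ZMod 2) (VE ρ E ⊓ W : Submodule (ZMod 2) V) = 4 * n3 := by
  obtain ⟨w, hw⟩ := exists_omega hF
  have e0 : s0 w hw ∈ E := (hE _).2 ⟨mem_R_s0 hw hF, s0_cube hw⟩
  have e1 : g1 w hw ∈ E := (hE _).2 ⟨mem_R_g1 hw hF, g1_cube hw⟩
  have e2 : (g2 : G3 F) ∈ E := (hE _).2 ⟨mem_R_g2 hF, g2_cube⟩
  have hcub : ∀ g ∈ E, g ^ 3 = 1 := fun g hg => ((hE g).1 hg).2
  have hne := g12_ne hw hF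
  -- non-central elements of order 3
  have hdim : ∀ g ∈ E, g ∉ Subgroup.center (G3 F) →
      finrank (ZMod 2) (W ⊓ LinearMap.ker (ρ g - LinearMap.id) : Submodule (ZMod 2) V) = n3 := by
    intro g hg hgc
    haveI : Fact (Nat.Prime 3) := ⟨Nat.prime_three⟩
    refine hd.2.1 g (orderOf_eq_prime (hcub g hg) ?_) hgc
    rintro rfl
    exact hgc (Subgroup.one_mem _)
  have c1 : g1 w hw ∉ Subgroup.center (G3 F) := fun h => hne (Subgroup.mem_center_iff.1 h g2).symm
  have c2 : (g2 : G3 F) ∉ Subgroup.center (G3 F) := fun h => hne (Subgroup.mem_center_iff.1 h (g1 w hw))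
  have c3 : g1 w hw * g2 ∉ Subgroup.center (G3 F) := by
    intro h
    have h1 := Subgroup.mem_center_iff.1 h (g1 w hw)
    rw [mul_assoc] at h1
    exact hne (mul_left_cancel h1)
  have c4 : g1 w hw * g2 ^ 2 ∉ Subgroup.center (G3 F) := by
    intro h
    have h1 := Subgroup.mem_center_iff.1 h (g1 w hw)
    rw [mul_assoc] at h1
    have h2 : Commute (g1 w hw) (g2 ^ 2) := mul_left_cancel h1
    have h3 : Commute (g1 w hw) ((g2 ^ 2) ^ 2) := h2.pow_right 2
    have h4 : ((g2 : G3 F) ^ 2) ^ 2 = g2 := by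
      rw [← pow_mul]
      have : (g2 : G3 F) ^ (2 * 2) = g2 ^ 3 * g2 := by rw [← pow_succ]
      rw [this, g2_cube, one_mul]
    rw [h4] at h3
    exact hne h3
  let a : Module.End (ZMod 2) W := (ρ (g1 w hw)).restrict (hW _)
  let b : Module.End (ZMod 2) W := (ρ g2).restrict (hW _)
  have hmulr : ∀ g h : G3 F, ((ρ g).restrict (hW g) : Module.End (ZMod 2) W) * (ρ h).restrict (hW h) =
      (ρ (g * h)).restrict (hW (g * h)) := by
    intro g h
    apply LinearMap.ext
    intro x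
    apply Subtype.ext
    show ρ g (ρ h x.1) = ρ (g * h) x.1
    rw [map_mul]
    rfl
  have honer : ((ρ (1 : G3 F)).restrict (hW 1) : Module.End (ZMod 2) W) = 1 := by
    apply LinearMap.ext
    intro x
    apply Subtype.ext
    show ρ 1 x.1 = x.1
    rw [map_one]
    rfl
  have hpowr : ∀ (g : G3 F) (k : ℕ), ((ρ g).restrict (hW g) : Module.End (ZMod 2) W) ^ k =
      (ρ (g ^ k)).restrict (hW (g ^ k)) := by
    intro g k
    induction k with
    | zero =>
      rw [pow_zero, ← honer]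
      congr 2
    | succ k ih => rw [pow_succ, ih, hmulr, ← pow_succ]
  have hreq : ∀ {g h : G3 F}, g = h → ((ρ g).restrict (hW g) : Module.End (ZMod 2) W) = (ρ h).restrict (hW h) := by
    rintro g _ rfl; rfl
  have hcube : ∀ g ∈ E, ((ρ g).restrict (hW g) : Module.End (ZMod 2) W) ^ 3 = 1 := by
    intro g hg
    rw [hpowr, hreq (hcub g hg), honer]
  have hab : a * b = b * a := by
    show ((ρ (g1 w hw)).restrict (hW _) : Module.End (ZMod 2) W) * (ρ g2).restrict (hW _) =
      (ρ g2).restrict (hW _) * (ρ (g1 w hw)).restrict (hW _)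
    rw [hmulr, hmulr, hreq (g12 hw)]
    apply LinearMap.ext
    intro x
    apply Subtype.ext
    show ρ (s0 w hw * (g2 * g1 w hw)) x.1 = ρ (g2 * g1 w hw) x.1
    rw [map_mul]
    exact hc _ (s0_center hw) _
  have h3 := finrank_three (K := ZMod 2) (V := W) rfl hab (hcube _ e1) (hcube _ e2)
  have k1 : finrank (ZMod 2) (LinearMap.ker (a - 1)) = n3 := (finrank_restrict _ _).trans (hdim _ e1 c1)
  have k2 : finrank (ZMod 2) (LinearMap.ker (b - 1)) = n3 := (finrank_restrict _ _).trans (hdim _ e2 c2)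
  have k3 : finrank (ZMod 2) (LinearMap.ker (a * b - 1)) = n3 := by
    have h4 : a * b = (ρ (g1 w hw * g2)).restrict (hW _) := hmulr _ _
    rw [h4]
    exact (finrank_restrict _ _).trans (hdim _ (E.mul_mem e1 e2) c3)
  have k4 : finrank (ZMod 2) (LinearMap.ker (a * b ^ 2 - 1)) = n3 := by
    have h4 : a * b ^ 2 = (ρ (g1 w hw * g2 ^ 2)).restrict (hW _) := by
      show ((ρ (g1 w hw)).restrict (hW _) : Module.End (ZMod 2) W) * ((ρ g2).restrict (hW _)) ^ 2 = _
      rw [hpowr, hmulr]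
    rw [h4]
    exact (finrank_restrict _ _).trans (hdim _ (E.mul_mem e1 (E.pow_mem e2 2)) c4)
  have k5 : (LinearMap.ker (a - 1) ⊓ LinearMap.ker (b - 1)).map W.subtype = VE ρ E ⊓ W := by
    ext v
    constructor
    · rintro ⟨x, ⟨hx1, hx2⟩, rfl⟩
      refine ⟨?_, x.2⟩
      have t1 : ρ (g1 w hw) x.1 = x.1 := by
        have : a x - x = 0 := hx1
        exact congrArg Subtype.val (sub_eq_zero.1 this)
      have t2 : ρ g2 x.1 = x.1 := by
        have : b x - x = 0 := hx2
        exact congrArg Subtype.val (sub_eq_zero.1 this)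
      let T : Subgroup (G3 F) :=
        { carrier := {g | ρ g x.1 = x.1}
          one_mem' := by
            show ρ 1 x.1 = x.1
            rw [map_one]
            rfl
          mul_mem' := by
            intro g h hg hh
            show ρ (g * h) x.1 = x.1
            have hg' : ρ g x.1 = x.1 := hg
            have hh' : ρ h x.1 = x.1 := hh
            rw [map_mul, Module.End.mul_apply, hh', hg']
          inv_mem' := by
            intro g hg
            have hg' : ρ g x.1 = x.1 := hg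
            show ρ g⁻¹ x.1 = x.1
            have h5 : ρ g⁻¹ (ρ g x.1) = x.1 := by
              rw [← Module.End.mul_apply, ← map_mul, inv_mul_cancel, map_one]
              rfl
            rwa [hg'] at h5 }
      have hT : E ≤ T := E_le hw hF hE (hc _ (s0_center hw) _) t1 t2
      show x.1 ∈ VE ρ E
      rw [mem_VE]
      exact fun g hg => hT hg
    · rintro ⟨hv1, hv2⟩
      have hv1' : v ∈ VE ρ E := hv1
      rw [mem_VE] at hv1'
      refine ⟨⟨v, hv2⟩, ⟨?_, ?_⟩, rfl⟩
      · show a ⟨v, hv2⟩ - ⟨v, hv2⟩ = 0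
        rw [sub_eq_zero]
        exact Subtype.ext (hv1' _ e1)
      · show b ⟨v, hv2⟩ - ⟨v, hv2⟩ = 0
        rw [sub_eq_zero]
        exact Subtype.ext (hv1' _ e2)
  rw [← k5, Submodule.finrank_map_subtype_eq]
  rw [k1, k2, k3, k4] at h3
  have hn : finrank (ZMod 2) W = n := hd.1
  omega

/-- **Steinberg modules are free over the involutions.** -/
theorem free_64 (hF : Fintype.card F = 4) {W : Submodule (ZMod 2) V} (hW : ∀ g, ∀ w ∈ W, ρ g w ∈ W) (h : Is64 ρ W)
    {z : G3 F} (hz : z * z = 1) (hz1 : z ≠ 1) {x : V} (hx : x ∈ W) (hzx : ρ z x = x) : ∃ y ∈ W, x = y + ρ z y := by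
  classical
  obtain ⟨hd, w, hwW, hw⟩ := h
  obtain ⟨g, hg⟩ := exists_conj_UU hF hz
  letI := Fintype.ofFinite (UU F)
  let ρ' : Representation (ZMod 2) (UU F) V := ρ.comp (UU F).subtype
  have hsum : ∑ u, ρ' u w ≠ 0 := by
    rw [Up, finsum_eq_sum_of_fintype] at hw
    exact hw
  let z' : UU F := ⟨g⁻¹ * z * g, hg⟩
  have hz' : z' * z' = 1 := by
    apply Subtype.ext
    show g⁻¹ * z * g * (g⁻¹ * z * g) = 1
    have : g⁻¹ * z * g * (g⁻¹ * z * g) = g⁻¹ * (z * z) * g := by group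
    rw [this, hz]
    group
  have hz1' : z' ≠ 1 := by
    intro h1
    apply hz1
    have h2 : g⁻¹ * z * g = 1 := congrArg Subtype.val h1
    have h3 : z = g * (g⁻¹ * z * g) * g⁻¹ := by group
    rw [h3, h2]
    group
  have hx' : ρ g⁻¹ x ∈ W := hW _ _ hx
  have hzx' : ρ' z' (ρ g⁻¹ x) = ρ g⁻¹ x := by
    show ρ (g⁻¹ * z * g) (ρ g⁻¹ x) = ρ g⁻¹ x
    rw [← Module.End.mul_apply, ← map_mul]
    have : g⁻¹ * z * g * g⁻¹ = g⁻¹ * z := by group
    rw [this, map_mul, Module.End.mul_apply, hzx]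
  obtain ⟨y, hy, e⟩ := free_of_norm (pgroup_UU hF) ρ' W (fun u w hw => hW u w hw)
    (by rw [card_UU hF]; exact hd.1) hwW hsum hz' hz1' hx' hzx'
  refine ⟨ρ g y, hW _ _ hy, ?_⟩
  have e1 : x = ρ g (ρ g⁻¹ x) := by
    rw [← Module.End.mul_apply, ← map_mul, mul_inv_cancel, map_one]
    rfl
  have e2 : ρ g (ρ' z' y) = ρ z (ρ g y) := by
    show ρ g (ρ (g⁻¹ * z * g) y) = ρ z (ρ g y)
    rw [← Module.End.mul_apply, ← Module.End.mul_apply, ← map_mul, ← map_mul]
    congr 2
    group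
  rw [e1, e, map_add, e2]

end

end Cfsg.Agent.H904.L34
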