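import Cfsg.Agent.H904.L34.UnitZ

/-!
# S5917, part I (helper904): (S5) the rank of the trace of `Q₈` on the fixed vectors of `E`
-/

set_option autoImplicit false
set_option linter.unusedSectionVars false
set_option linter.unusedVariables false

namespace Cfsg.Agent.H904.L34.Unit

open Matrix Cfsg.Agent.H691.L34 Cfsg.Agent.H904.L34 Module
open scoped Pointwise

section free

variable {U V : Type*} [Group U] [Finite U] [AddCommGroup V] [Module (ZMod 2) V]

/-- **fixed vectors of a subgroup are traces** in the regular module -/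
theorem free_sub [Fintype U] (hU : IsPGroup 2 U) (ρ : Representation (ZMod 2) U V) [Module.Finite (ZMod 2) V]
    (W : Submodule (ZMod 2) V) (hW : ∀ u, ∀ w ∈ W, ρ u w ∈ W) (hdim : finrank (ZMod 2) W = Nat.card U) {w : V}
    (hwW : w ∈ W) (hw : ∑ u, ρ u w ≠ 0) (Q : Subgroup U) [Fintype Q] {x : V} (hx : x ∈ W)
    (hq : ∀ q ∈ Q, ρ q x = x) : ∃ y ∈ W, x = ∑ q : Q, ρ (q : U) y := by
  classical
  have hinj := orb_injective hU ρ hw
  have hle : LinearMap.range (orb ρ w) ≤ W := by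
    rintro _ ⟨c, rfl⟩
    rw [orb_apply]
    exact W.sum_mem fun u _ => W.smul_mem _ (hW u w hwW)
  have hr : LinearMap.range (orb ρ w) = W := by
    apply Submodule.eq_of_le_of_finrank_eq hle
    rw [LinearMap.finrank_range_of_inj hinj, Module.finrank_fintype_fun_eq_card, hdim, Nat.card_eq_fintype_card]
  rw [← hr] at hx
  obtain ⟨c, rfl⟩ := hx
  have hc : ∀ q ∈ Q, tr q c = c := fun q hQ => hinj (by rw [orb_tr, hq q hQ])
  obtain ⟨S, hS, -⟩ := Subgroup.exists_isComplement_right Q (1 : U)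
  rw [Subgroup.isComplement_iff_existsUnique] at hS
  let c0 : U → ZMod 2 := fun u => if u ∈ S then c u else 0
  have h1 : c = ∑ q : Q, tr (q : U) c0 := by
    funext u
    rw [Finset.sum_apply]
    obtain ⟨⟨⟨q0, hq0⟩, ⟨s0, hs0⟩⟩, h2, h3⟩ := hS u
    have h2' : q0 * s0 = u := h2
    rw [Finset.sum_eq_single (⟨q0, hq0⟩ : Q)]
    · have h4 : q0⁻¹ * u = s0 := by rw [← h2', inv_mul_cancel_left]
      have h6 : c (q0⁻¹ * u) = c u := congrFun (hc q0 hq0) u
      show c u = if q0⁻¹ * u ∈ S then c (q0⁻¹ * u) else 0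
      rw [if_pos (by rw [h4]; exact hs0), h6]
    · intro q _ hne
      show (if (q : U)⁻¹ * u ∈ S then c ((q : U)⁻¹ * u) else 0) = 0
      rw [if_neg]
      intro h5
      apply hne
      have h6 := h3 (⟨q, ⟨(q : U)⁻¹ * u, h5⟩⟩ : Q × S) (by
        show (q : U) * ((q : U)⁻¹ * u) = u
        rw [mul_inv_cancel_left])
      exact congrArg Prod.fst h6
    · intro h
      exact absurd (Finset.mem_univ _) h
  refine ⟨orb ρ w c0, ?_, ?_⟩
  · rw [← hr]
    exact ⟨c0, rfl⟩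
  · conv_lhs => rw [h1]
    rw [map_sum]
    exact Finset.sum_congr rfl fun q _ => orb_tr ρ w q c0

end free

section quat

variable {G : Type*} [Group G]

/-- relations of the quaternion group -/
structure QRel (i j : G) : Prop where
  i4 : i * i * (i * i) = 1
  jj : j * j = i * i
  ji : j * i = i * i * (i * j)
  ne : i * i ≠ 1

variable {i j : G}

theorem QRel.comm (h : QRel i j) : i * i * j = j * (i * i) := by
  rw [← h.jj, mul_assoc]

theorem QRel.order (h : QRel i j) : orderOf i = 4 := by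
  haveI : Fact (Nat.Prime 2) := ⟨Nat.prime_two⟩
  have h1 : orderOf i = 2 ^ (1 + 1) := by
    apply orderOf_eq_prime_pow
    · rw [pow_one, pow_two]
      exact h.ne
    · show i ^ (2 + 2) = 1
      rw [pow_add, pow_two]
      exact h.i4
  rw [h1]
  norm_num

theorem QRel.not_mem (h : QRel i j) (k : ℕ) : j ≠ i ^ k := by
  intro hj
  have h1 : j * i = i * j := by rw [hj, ← pow_succ, ← pow_succ']
  have h2 := h.ji
  rw [h1] at h2
  have h3 : 1 * (i * j) = i * i * (i * j) := by rw [one_mul]; exact h2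
  exact h.ne (mul_right_cancel h3).symm

/-- the quaternion group -/
def qg (h : QRel i j) : Subgroup G where
  carrier := {g | ∃ k : ℕ, g = i ^ k ∨ g = j * i ^ k}
  one_mem' := ⟨0, Or.inl (pow_zero i).symm⟩
  mul_mem' := by
    have key : ∀ k : ℕ, i ^ k * j = j * i ^ (3 * k) := by
      intro k
      induction k with
      | zero => simp
      | succ k ih =>
        have e : i * j = j * i ^ 3 := by
          have h1 : j * (i * i * i) = i * j := by
            calc j * (i * i * i) = (j * (i * i)) * i := by simp only [mul_assoc]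
              _ = i * i * (j * i) := by rw [← h.comm, mul_assoc]
              _ = (i * i * (i * i)) * (i * j) := by rw [h.ji, ← mul_assoc]
              _ = i * j := by rw [h.i4, one_mul]
          rw [← h1, pow_three']
        rw [pow_succ, mul_assoc, e, ← mul_assoc, ih, mul_assoc, ← pow_add]
        rfl
    rintro a b ⟨k, rfl | rfl⟩ ⟨l, rfl | rfl⟩
    · exact ⟨k + l, Or.inl (pow_add _ _ _).symm⟩
    · refine ⟨3 * k + l, Or.inr ?_⟩
      rw [← mul_assoc, key, mul_assoc, ← pow_add]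
    · refine ⟨k + l, Or.inr ?_⟩
      rw [mul_assoc, ← pow_add]
    · refine ⟨2 + (3 * k + l), Or.inl ?_⟩
      rw [mul_assoc, ← mul_assoc (i ^ k), key, mul_assoc, ← mul_assoc j j, h.jj, ← pow_two, ← pow_add, ← pow_add]
  inv_mem' := by
    have hi : ∀ k : ℕ, (i ^ k)⁻¹ = i ^ (3 * k) := by
      intro k
      rw [inv_eq_iff_mul_eq_one, ← pow_add]
      have h1 : k + 3 * k = 4 * k := by ring
      rw [h1, pow_mul]
      have h2 : i ^ 4 = 1 := by
        rw [← h.i4]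
        simp only [pow_succ, pow_zero, one_mul, mul_assoc]
      rw [h2, one_pow]
    have key : ∀ k : ℕ, i ^ k * j = j * i ^ (3 * k) := by
      intro k
      induction k with
      | zero => simp
      | succ k ih =>
        have e : i * j = j * i ^ 3 := by
          have h1 : j * (i * i * i) = i * j := by
            calc j * (i * i * i) = (j * (i * i)) * i := by simp only [mul_assoc]
              _ = i * i * (j * i) := by rw [← h.comm, mul_assoc]
              _ = (i * i * (i * i)) * (i * j) := by rw [h.ji, ← mul_assoc]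
              _ = i * j := by rw [h.i4, one_mul]
          rw [← h1, pow_three']
        rw [pow_succ, mul_assoc, e, ← mul_assoc, ih, mul_assoc, ← pow_add]
        rfl
    rintro a ⟨k, rfl | rfl⟩
    · exact ⟨3 * k, Or.inl (hi k)⟩
    · have hj : j⁻¹ = j * i ^ 2 := by
        rw [inv_eq_iff_mul_eq_one, ← mul_assoc, h.jj, pow_two, h.i4]
      refine ⟨3 * (3 * k) + 2, Or.inr ?_⟩
      rw [_root_.mul_inv_rev, hi, hj, ← mul_assoc, key, mul_assoc, ← pow_add]

/-- the eight elements -/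
def qf (h : QRel i j) : Fin 4 ⊕ Fin 4 → qg h
  | Sum.inl k => ⟨i ^ (k : ℕ), k, Or.inl rfl⟩
  | Sum.inr k => ⟨j * i ^ (k : ℕ), k, Or.inr rfl⟩

theorem qf_bij (h : QRel i j) : Function.Bijective (qf h) := by
  have ho := h.order
  have hlt : ∀ a b : Fin 4, i ^ (a : ℕ) = i ^ (b : ℕ) → a = b := by
    intro a b hab
    rw [pow_inj_mod, ho, Nat.mod_eq_of_lt a.2, Nat.mod_eq_of_lt b.2] at hab
    exact Fin.ext hab
  have hne : ∀ a b : ℕ, i ^ a ≠ j * i ^ b := by
    intro a b hab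
    have h1 : j = i ^ a * (i ^ b)⁻¹ := by rw [hab, mul_inv_cancel_right]
    have h2 : (i ^ b)⁻¹ = i ^ (3 * b) := by
      rw [inv_eq_iff_mul_eq_one, ← pow_add]
      have h1 : b + 3 * b = 4 * b := by ring
      rw [h1, pow_mul, ← ho, pow_orderOf_eq_one, one_pow]
    rw [h2, ← pow_add] at h1
    exact h.not_mem _ h1
  constructor
  · rintro (a | a) (b | b) hab
    · rw [hlt a b (congrArg Subtype.val hab)]
    · exact absurd (congrArg Subtype.val hab) (hne a b)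
    · exact absurd (congrArg Subtype.val hab).symm (hne b a)
    · have h1 : j * i ^ (a : ℕ) = j * i ^ (b : ℕ) := congrArg Subtype.val hab
      rw [hlt a b (mul_left_cancel h1)]
  · have hm : ∀ k : ℕ, i ^ (k % 4) = i ^ k := by
      intro k
      rw [← ho, pow_mod_orderOf]
    rintro ⟨g, k, rfl | rfl⟩
    · refine ⟨Sum.inl ⟨k % 4, Nat.mod_lt _ (by norm_num)⟩, Subtype.ext ?_⟩
      exact hm k
    · refine ⟨Sum.inr ⟨k % 4, Nat.mod_lt _ (by norm_num)⟩, Subtype.ext ?_⟩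
      show j * i ^ (k % 4) = j * i ^ k
      rw [hm]

theorem card_qg (h : QRel i j) : Nat.card (qg h) = 2 ^ 3 := by
  rw [← Nat.card_congr (Equiv.ofBijective _ (qf_bij h)), Nat.card_sum, Nat.card_eq_fintype_card, Fintype.card_fin]
  norm_num

theorem pgroup_qg (h : QRel i j) : IsPGroup 2 (qg h) := IsPGroup.of_card (card_qg h)

theorem sum_qg (h : QRel i j) [Fintype (qg h)] {A : Type*} [AddCommMonoid A] (f : G → A) :
    ∑ q : qg h, f q = (f 1 + f i + f (i * i) + f (i * i * i)) +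
      (f j + f (j * i) + f (j * (i * i)) + f (j * (i * i * i))) := by
  rw [← Function.Bijective.sum_comp (qf_bij h) (fun q : qg h => f q), Fintype.sum_sum_type, Fin.sum_univ_four,
    Fin.sum_univ_four]
  have e0 : i ^ 0 = 1 := pow_zero i
  have e1 : i ^ 1 = i := pow_one i
  have e2 : i ^ 2 = i * i := pow_two i
  have e3 : i ^ 3 = i * i * i := pow_three' i
  show (f (i ^ 0) + f (i ^ 1) + f (i ^ 2) + f (i ^ 3)) +
    (f (j * i ^ 0) + f (j * i ^ 1) + f (j * i ^ 2) + f (j * i ^ 3)) = _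
  rw [e0, e1, e2, e3, mul_one]

end quat

/-! ### the operator `T8` -/

section op

variable {G V : Type*} [Group G] [AddCommGroup V] [Module (ZMod 2) V]

/-- the trace of the quaternion group -/
def T8 (ρ : Representation (ZMod 2) G V) (i j : G) : V →ₗ[ZMod 2] V :=
  (LinearMap.id + ρ i + ρ (i * i) + ρ (i * i * i)) + ρ j ∘ₗ (LinearMap.id + ρ i + ρ (i * i) + ρ (i * i * i))

theorem T8_apply (ρ : Representation (ZMod 2) G V) (i j : G) (v : V) :
    T8 ρ i j v = (v + ρ i v + ρ (i * i) v + ρ (i * i * i) v) +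
      ρ j (v + ρ i v + ρ (i * i) v + ρ (i * i * i) v) := rfl

theorem rmul (ρ : Representation (ZMod 2) G V) (g h : G) (x : V) : ρ g (ρ h x) = ρ (g * h) x := by
  rw [map_mul]
  rfl

theorem sum_T8 (ρ : Representation (ZMod 2) G V) {i j : G} (h : QRel i j) [Fintype (qg h)] (y : V) :
    ∑ q : qg h, ρ (q : G) y = T8 ρ i j y := by
  rw [sum_qg h (fun g => ρ g y), T8_apply]
  have h1 : ρ (1 : G) y = y := by rw [map_one]; rfl
  simp only [map_add, rmul, h1]

variable [Finite G] [Module.Finite (ZMod 2) V]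

theorem T8_mkQ (ρ : Representation (ZMod 2) G V) (i j : G) (W : Submodule (ZMod 2) V)
    (hW : ∀ g, W ≤ W.comap (ρ g)) (v : V) :
    W.mkQ (T8 ρ i j v) = T8 (ρ.quotient W hW) i j (W.mkQ v) := rfl

theorem neg2 (w : V) : -w = w := by
  have h4 := odd_smul (n := 3) (by decide) w
  have h5 : (3 : ℕ) • w = w + w + w := by rw [succ_nsmul, two_nsmul]
  rw [h5] at h4
  exact neg_eq_of_add_eq_zero_left (add_eq_right.1 h4)

theorem add2 (w : V) : w + w = 0 := by
  nth_rewrite 1 [← neg2 w]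
  exact neg_add_cancel w

/-- **Superadditivity of the rank of an operator on the fixed space.** -/
theorem rank_super_gen (ρ : Representation (ZMod 2) G V) {C : Subgroup G} (hC : Odd (Nat.card C))
    (W : Submodule (ZMod 2) V) (hW : ∀ g, W ≤ W.comap (ρ g)) (T : V →ₗ[ZMod 2] V) (T' : (V ⧸ W) →ₗ[ZMod 2] (V ⧸ W))
    (hT : ∀ v, W.mkQ (T v) = T' (W.mkQ v)) :
    finrank (ZMod 2) ((VE ρ C ⊓ W).map T) + finrank (ZMod 2) ((VE (ρ.quotient W hW) C).map T') ≤
      finrank (ZMod 2) ((VE ρ C).map T) := by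
  have h := finrank_map_add W.mkQ ((VE ρ C).map T)
  rw [Submodule.ker_mkQ] at h
  have hc : W.mkQ ∘ₗ T = T' ∘ₗ W.mkQ := LinearMap.ext hT
  have h1 : ((VE ρ C).map T).map W.mkQ = (VE (ρ.quotient W hW) C).map T' := by
    rw [← map_VE ρ hC W hW, ← Submodule.map_comp, ← Submodule.map_comp, hc]
  have h2 : (VE ρ C ⊓ W).map T ≤ (VE ρ C).map T ⊓ W := by
    rintro _ ⟨v, ⟨hv, hvW⟩, rfl⟩
    refine ⟨⟨v, hv, rfl⟩, ?_⟩
    have h5 := hT v
    have h6 : W.mkQ v = 0 := (Submodule.Quotient.mk_eq_zero W).2 hvW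
    rw [h6, map_zero] at h5
    exact (Submodule.Quotient.mk_eq_zero W).1 h5
  have h3 := Submodule.finrank_mono h2
  rw [h1] at h
  omega

theorem inf_eq_bot_gen (ρ : Representation (ZMod 2) G V) {C : Subgroup G} (hC : Odd (Nat.card C))
    (W : Submodule (ZMod 2) V) (hW : ∀ g, W ≤ W.comap (ρ g)) (T : V →ₗ[ZMod 2] V) (T' : (V ⧸ W) →ₗ[ZMod 2] (V ⧸ W))
    (hT : ∀ v, W.mkQ (T v) = T' (W.mkQ v))
    (h : finrank (ZMod 2) ((VE ρ C).map T) ≤ finrank (ZMod 2) ((VE (ρ.quotient W hW) C).map T')) :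
    (VE ρ C).map T ⊓ W = ⊥ := by
  have h0 := finrank_map_add W.mkQ ((VE ρ C).map T)
  rw [Submodule.ker_mkQ] at h0
  have hc : W.mkQ ∘ₗ T = T' ∘ₗ W.mkQ := LinearMap.ext hT
  have h1 : ((VE ρ C).map T).map W.mkQ = (VE (ρ.quotient W hW) C).map T' := by
    rw [← map_VE ρ hC W hW, ← Submodule.map_comp, ← Submodule.map_comp, hc]
  rw [h1] at h0
  apply Submodule.finrank_eq_zero.1
  omega

/-- an involution has rank at most half the dimension -/
theorem half (t : V →ₗ[ZMod 2] V) (U : Submodule (ZMod 2) V) (h : ∀ x ∈ U, t (t x) = x) (hU : ∀ x ∈ U, t x ∈ U) :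
    2 * finrank (ZMod 2) (U.map (LinearMap.id + t)) ≤ finrank (ZMod 2) U := by
  have h1 := finrank_map_add (LinearMap.id + t) U
  have h2 : U.map (LinearMap.id + t) ≤ U ⊓ LinearMap.ker (LinearMap.id + t) := by
    rintro _ ⟨x, hx, rfl⟩
    refine ⟨U.add_mem hx (hU x hx), ?_⟩
    show (LinearMap.id + t : V →ₗ[ZMod 2] V) ((LinearMap.id + t : V →ₗ[ZMod 2] V) x) = 0
    simp only [LinearMap.add_apply, LinearMap.id_apply, map_add]
    rw [h x hx, add_comm (t x) x]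
    exact add2 _
  have h3 := Submodule.finrank_mono h2
  omega

/-- **the rank of the trace is at most a quarter of the rank of `1 + z`** -/
theorem rank_T8_le (ρ : Representation (ZMod 2) G V) {i j : G} (h : QRel i j) (M : Submodule (ZMod 2) V)
    (hi : ∀ x ∈ M, ρ i x ∈ M) (hj : ∀ x ∈ M, ρ j x ∈ M) :
    4 * finrank (ZMod 2) (M.map (T8 ρ i j)) ≤ finrank (ZMod 2) (M.map (ρ (i * i) - LinearMap.id)) := by
  have hid : (ρ (i * i) - LinearMap.id : V →ₗ[ZMod 2] V) = LinearMap.id + ρ (i * i) := by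
    apply LinearMap.ext
    intro x
    rw [LinearMap.sub_apply, LinearMap.add_apply, sub_eq_add_neg, LinearMap.id_apply, neg2, add_comm]
  rw [hid]
  set M1 := M.map (LinearMap.id + ρ (i * i)) with hM1
  set M2 := M1.map (LinearMap.id + ρ i) with hM2
  have hzz : ∀ x : V, ρ (i * i) (ρ (i * i) x) = x := by
    intro x
    rw [rmul, h.i4, map_one]
    rfl
  have z1 : ∀ x ∈ M1, ρ (i * i) x = x := by
    rintro _ ⟨m, -, rfl⟩
    simp only [LinearMap.add_apply, LinearMap.id_apply, map_add]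
    rw [hzz, add_comm]
  have i1 : ∀ x ∈ M1, ρ i x ∈ M1 := by
    rintro _ ⟨m, hm, rfl⟩
    refine ⟨ρ i m, hi m hm, ?_⟩
    simp only [LinearMap.add_apply, LinearMap.id_apply, map_add, rmul, mul_assoc]
  have j1 : ∀ x ∈ M1, ρ j x ∈ M1 := by
    rintro _ ⟨m, hm, rfl⟩
    refine ⟨ρ j m, hj m hm, ?_⟩
    simp only [LinearMap.add_apply, LinearMap.id_apply, map_add, rmul]
    rw [h.comm]
  have j2 : ∀ x ∈ M2, ρ j x ∈ M2 := by
    rintro _ ⟨x, hx, rfl⟩
    refine ⟨ρ j x, j1 x hx, ?_⟩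
    simp only [LinearMap.add_apply, LinearMap.id_apply, map_add]
    congr 1
    rw [rmul, rmul, h.ji, ← rmul (g := i * i), ← rmul (g := i)]
    exact (z1 _ (i1 _ (j1 x hx))).symm
  have h1 := half (ρ i) M1 (fun x hx => by rw [rmul]; exact z1 x hx) i1
  have h2 := half (ρ j) M2 (by
    rintro _ ⟨x, hx, rfl⟩
    rw [rmul, h.jj]
    simp only [LinearMap.add_apply, LinearMap.id_apply, map_add]
    rw [z1 x hx, z1 _ (i1 x hx)]) j2
  have h3 : M.map (T8 ρ i j) = M2.map (LinearMap.id + ρ j) := by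
    rw [hM2, hM1, ← Submodule.map_comp, ← Submodule.map_comp]
    congr 1
    apply LinearMap.ext
    intro x
    rw [T8_apply]
    simp only [LinearMap.comp_apply, LinearMap.add_apply, LinearMap.id_apply, map_add, rmul, mul_assoc]
    abel
  rw [h3]
  rw [← hM2] at h1
  omega

end op

/-! ### the Steinberg modules -/

section st

variable {F : Type} [Field F] [Fintype F] {V : Type} [AddCommGroup V] [Module (ZMod 2) V] [Module.Finite (ZMod 2) V]
  {ρ : Representation (ZMod 2) (G3 F) V}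

/-- 2-subgroups are conjugate into `U` -/
theorem exists_conj_sub (hF : Fintype.card F = 4) {Q : Subgroup (G3 F)} (hQ : IsPGroup 2 Q) :
    ∃ g : G3 F, ∀ q ∈ Q, g⁻¹ * q * g ∈ UU F := by
  haveI : Fact (Nat.Prime 2) := ⟨Nat.prime_two⟩
  obtain ⟨P, hP⟩ := (pgroup_UU hF).exists_le_sylow
  have hPU : (P : Subgroup (G3 F)) = UU F := by
    symm
    apply Subgroup.eq_of_le_of_card_ge hP
    obtain ⟨n, hn⟩ := IsPGroup.iff_card.1 P.2
    have h1 : Nat.card (P : Subgroup (G3 F)) = 2 ^ n := hn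
    rw [h1, card_UU hF]
    apply Nat.pow_le_pow_right (by norm_num)
    by_contra hlt
    push Not at hlt
    have h2 : 2 ^ 7 ∣ Nat.card (G3 F) := (pow_dvd_pow 2 hlt).trans (h1 ▸ Subgroup.card_subgroup_dvd_card _)
    rw [card_G3 hF] at h2
    norm_num at h2
  obtain ⟨R, hR⟩ := hQ.exists_le_sylow
  obtain ⟨g, hg⟩ := MulAction.exists_smul_eq (G3 F) P R
  refine ⟨g, fun q hq => ?_⟩
  have h3 : q ∈ (R : Subgroup (G3 F)) := hR hq
  rw [← hg] at h3
  have h4 : q ∈ (MulAut.conj g) • (P : Subgroup (G3 F)) := h3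
  rw [Subgroup.mem_pointwise_smul_iff_inv_smul_mem] at h4
  have h5 : (MulAut.conj g)⁻¹ • q = g⁻¹ * q * g := by
    rw [← map_inv, MulAut.smul_def, MulAut.conj_apply, inv_inv]
  rw [h5, hPU] at h4
  exact h4

/-- **Steinberg modules are free over the 2-subgroups.** -/
theorem free_64_sub (hF : Fintype.card F = 4) {W : Submodule (ZMod 2) V} (hW : ∀ g, ∀ w ∈ W, ρ g w ∈ W) (h : Is64 ρ W)
    (Q : Subgroup (G3 F)) [Fintype Q] (hQ : IsPGroup 2 Q) {x : V} (hx : x ∈ W) (hqx : ∀ q ∈ Q, ρ q x = x) :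
    ∃ y ∈ W, x = ∑ q : Q, ρ (q : G3 F) y := by
  classical
  obtain ⟨hd, w, hwW, hw⟩ := h
  obtain ⟨g, hg⟩ := exists_conj_sub hF hQ
  letI := Fintype.ofFinite (UU F)
  let ρ' : Representation (ZMod 2) (UU F) V := ρ.comp (UU F).subtype
  have hsum : ∑ u, ρ' u w ≠ 0 := by
    rw [Up, finsum_eq_sum_of_fintype] at hw
    exact hw
  let f : UU F →* G3 F := (MulAut.conj g).toMonoidHom.comp (UU F).subtype
  have hf : ∀ u, f u = g * u * g⁻¹ := fun u => rfl
  let Q' : Subgroup (UU F) := Q.comap f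
  letI := Fintype.ofFinite Q'
  have hx' : ρ g⁻¹ x ∈ W := hW _ _ hx
  have hqx' : ∀ q ∈ Q', ρ' q (ρ g⁻¹ x) = ρ g⁻¹ x := by
    intro q hq
    have hq' : g * (q : G3 F) * g⁻¹ ∈ Q := hq
    show ρ (q : G3 F) (ρ g⁻¹ x) = ρ g⁻¹ x
    rw [rmul]
    have h1 : (q : G3 F) * g⁻¹ = g⁻¹ * (g * q * g⁻¹) := by group
    rw [h1, ← rmul, hqx _ hq']
  obtain ⟨y, hy, e⟩ := free_sub (pgroup_UU hF) ρ' W (fun u w hw => hW u w hw)
    (by rw [card_UU hF]; exact hd.1) hwW hsum Q' hx' hqx'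
  refine ⟨ρ g y, hW _ _ hy, ?_⟩
  have e1 : x = ρ g (ρ g⁻¹ x) := by
    rw [rmul, mul_inv_cancel, map_one]
    rfl
  rw [e1, e, map_sum]
  let φ : Q' → Q := fun q => ⟨g * (q : UU F) * g⁻¹, q.2⟩
  have hφ : Function.Bijective φ := by
    constructor
    · intro a b hab
      have h1 : g * ((a : UU F) : G3 F) * g⁻¹ = g * ((b : UU F) : G3 F) * g⁻¹ := congrArg Subtype.val hab
      exact Subtype.ext (Subtype.ext (mul_left_cancel (mul_right_cancel h1)))
    · rintro ⟨q, hq⟩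
      refine ⟨⟨⟨g⁻¹ * q * g, hg q hq⟩, ?_⟩, ?_⟩
      · show g * (g⁻¹ * q * g) * g⁻¹ ∈ Q
        have h1 : g * (g⁻¹ * q * g) * g⁻¹ = q := by group
        rw [h1]
        exact hq
      · apply Subtype.ext
        show g * (g⁻¹ * q * g) * g⁻¹ = q
        group
  rw [← Function.Bijective.sum_comp hφ (fun q : Q => ρ (q : G3 F) (ρ g y))]
  apply Finset.sum_congr rfl
  intro q _
  show ρ g (ρ ((q : UU F) : G3 F) y) = ρ (g * ((q : UU F) : G3 F) * g⁻¹) (ρ g y)
  rw [rmul, rmul]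
  congr 2
  group

theorem exists_fix_two {X : Submodule (ZMod 2) V} (hX : X ≠ ⊥) (t : V →ₗ[ZMod 2] V) (h : ∀ x ∈ X, t (t x) = x)
    (hU : ∀ x ∈ X, t x ∈ X) : X ⊓ LinearMap.ker (LinearMap.id + t) ≠ ⊥ := by
  obtain ⟨x, hx, hx0⟩ := (Submodule.ne_bot_iff X).1 hX
  rw [Submodule.ne_bot_iff]
  by_cases h0 : x + t x = 0
  · exact ⟨x, ⟨hx, h0⟩, hx0⟩
  · refine ⟨x + t x, ⟨X.add_mem hx (hU x hx), ?_⟩, h0⟩
    show x + t x + t (x + t x) = 0
    rw [map_add, h x hx, add_comm (t x) x]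
    exact add2 _

theorem qrel {w : F} (hw : w ^ 2 + w + 1 = 0) (hF : Fintype.card F = 4) : QRel (gi w hw hF) (gj w hw hF) := by
  refine ⟨zz_mul hw hF, jj hw hF, ?_, zz_ne hw hF⟩
  -- `j i j = i`, `j⁻¹ = i² j`
  have h1 := ji hw hF
  have hj4 : gj w hw hF * gj w hw hF * (gj w hw hF * gj w hw hF) = 1 := by
    rw [jj, zz_mul]
  have h2 : gj w hw hF * gi w hw hF = gi w hw hF * (gj w hw hF * (gj w hw hF * gj w hw hF)) := by
    calc gj w hw hF * gi w hw hF
        = gj w hw hF * gi w hw hF * (gj w hw hF * gj w hw hF * (gj w hw hF * gj w hw hF)) := by rw [hj4, mul_one]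
      _ = (gj w hw hF * (gi w hw hF * gj w hw hF)) * (gj w hw hF * (gj w hw hF * gj w hw hF)) := by
          simp only [mul_assoc]
      _ = gi w hw hF * (gj w hw hF * (gj w hw hF * gj w hw hF)) := by rw [h1]
  rw [h2, ← mul_assoc (gj w hw hF), jj]
  simp only [mul_assoc]

/-- the fixed space of `E` is invariant under `Q₈` -/
theorem VE_inv {w : F} (hw : w ^ 2 + w + 1 = 0) (hF : Fintype.card F = 4) (hc : CT ρ) :
    (∀ x ∈ VE ρ (EE w hw), ρ (gi w hw hF) x ∈ VE ρ (EE w hw)) ∧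
    ∀ x ∈ VE ρ (EE w hw), ρ (gj w hw hF) x ∈ VE ρ (EE w hw) := by
  constructor
  · intro x hx
    rw [mem_VE_iff hw hc] at hx ⊢
    exact gi_VE hw hF hc hx.1 hx.2
  · intro x hx
    rw [mem_VE_iff hw hc] at hx ⊢
    exact gj_VE hw hF hc hx.1 hx.2

/-- `av` commutes with elements whose inverse preserves fixed vectors -/
theorem conj_gen {w : F} (hw : w ^ 2 + w + 1 = 0) {x : G3 F} (h1 : x * g1 w hw * x⁻¹ ∈ EE w hw)
    (h2 : x * g2 * x⁻¹ ∈ EE w hw) : ∀ g ∈ EE w hw, x * g * x⁻¹ ∈ EE w hw := by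
  intro g hg
  have h3 : EE w hw ≤ (EE w hw).comap (MulAut.conj x).toMonoidHom := by
    apply EE_le
    · show x * s0 w hw * x⁻¹ ∈ EE w hw
      rw [← s0_comm, mul_inv_cancel_right]
      exact s0_mem hw
    · exact h1
    · exact h2
  exact h3 hg

theorem conj_gi {w : F} (hw : w ^ 2 + w + 1 = 0) (hF : Fintype.card F = 4) :
    ∀ g ∈ EE w hw, gi w hw hF * g * (gi w hw hF)⁻¹ ∈ EE w hw := by
  apply conj_gen
  · rw [r1, mul_inv_cancel_right]
    exact g2_mem hw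
  · have h1 : gi w hw hF * g2 * (gi w hw hF)⁻¹ = (g1 w hw)⁻¹ := by
      rw [mul_inv_eq_iff_eq_mul, eq_inv_mul_iff_mul_eq, r2]
    rw [h1]
    exact (EE w hw).inv_mem (g1_mem hw)

theorem conj_gj {w : F} (hw : w ^ 2 + w + 1 = 0) (hF : Fintype.card F = 4) :
    ∀ g ∈ EE w hw, gj w hw hF * g * (gj w hw hF)⁻¹ ∈ EE w hw := by
  apply conj_gen
  · have h1 : gj w hw hF * g1 w hw * (gj w hw hF)⁻¹ = s0 w hw * (g1 w hw * g2) := by
      rw [mul_inv_eq_iff_eq_mul, r3]
      simp only [mul_assoc]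
    rw [h1]
    exact (EE w hw).mul_mem (s0_mem hw) ((EE w hw).mul_mem (g1_mem hw) (g2_mem hw))
  · have h1 : gj w hw hF * g2 * (gj w hw hF)⁻¹ = s0 w hw * (s0 w hw * (g1 w hw * (g2 * g2))) := by
      rw [mul_inv_eq_iff_eq_mul, r4]
      simp only [mul_assoc]
    rw [h1]
    exact (EE w hw).mul_mem (s0_mem hw) ((EE w hw).mul_mem (s0_mem hw) ((EE w hw).mul_mem (g1_mem hw)
      ((EE w hw).mul_mem (g2_mem hw) (g2_mem hw))))

theorem av_T8 {w : F} (hw : w ^ 2 + w + 1 = 0) (hF : Fintype.card F = 4) (y : V) :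
    T8 ρ (gi w hw hF) (gj w hw hF) (av ρ (EE w hw) y) = av ρ (EE w hw) (T8 ρ (gi w hw hF) (gj w hw hF) y) := by
  have hi : ∀ x : V, ρ (gi w hw hF) (av ρ (EE w hw) x) = av ρ (EE w hw) (ρ (gi w hw hF) x) :=
    av_comm ρ (conj_gi hw hF)
  have hj : ∀ x : V, ρ (gj w hw hF) (av ρ (EE w hw) x) = av ρ (EE w hw) (ρ (gj w hw hF) x) :=
    av_comm ρ (conj_gj hw hF)
  rw [T8_apply, T8_apply]
  simp only [← rmul, map_add, hi, hj]

/-- **the trace of `Q₈` does not vanish on the fixed space of `E` in a Steinberg module** -/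
theorem T8_64 {w : F} (hw : w ^ 2 + w + 1 = 0) (hF : Fintype.card F = 4) (hc : CT ρ) {W : Submodule (ZMod 2) V}
    (hW : ∀ g, ∀ w ∈ W, ρ g w ∈ W) (h : Is64 ρ W) :
    1 ≤ finrank (ZMod 2) ((VE ρ (EE w hw) ⊓ W).map (T8 ρ (gi w hw hF) (gj w hw hF))) := by
  classical
  have hq := qrel hw hF
  obtain ⟨hi, hj⟩ := VE_inv (ρ := ρ) hw hF hc
  set M := VE ρ (EE w hw) ⊓ W with hM
  have hdim := dims_EE hw hF hc hW h.1
  have hM0 : M ≠ ⊥ := by
    intro h0
    rw [← hM, h0, finrank_bot] at hdim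
    omega
  have mi : ∀ x ∈ M, ρ (gi w hw hF) x ∈ M := fun x hx => ⟨hi x hx.1, hW _ x hx.2⟩
  have mj : ∀ x ∈ M, ρ (gj w hw hF) x ∈ M := fun x hx => ⟨hj x hx.1, hW _ x hx.2⟩
  have e1 : ∀ x : V, ρ (1 : G3 F) x = x := fun x => by rw [map_one]; rfl
  -- fixed vectors of `z`, `i`, `j`
  set M1 := M ⊓ LinearMap.ker (LinearMap.id + ρ (gi w hw hF * gi w hw hF)) with hM1
  have n1 : M1 ≠ ⊥ := exists_fix_two hM0 _ (fun x _ => by rw [rmul, hq.i4, e1])
    (fun x hx => by rw [← rmul]; exact mi _ (mi _ hx))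
  have k1 : ∀ x ∈ M1, ρ (gi w hw hF * gi w hw hF) x = x := by
    rintro x ⟨-, hx⟩
    have h1 : x + ρ (gi w hw hF * gi w hw hF) x = 0 := hx
    have h2 := eq_neg_of_add_eq_zero_right h1
    rw [h2, neg2]
  have mem1 : ∀ x ∈ M, ρ (gi w hw hF * gi w hw hF) x = x → x ∈ M1 := by
    intro x hx h1
    refine ⟨hx, ?_⟩
    show x + ρ (gi w hw hF * gi w hw hF) x = 0
    rw [h1]
    exact add2 x
  have i1 : ∀ x ∈ M1, ρ (gi w hw hF) x ∈ M1 := by
    intro x hx
    apply mem1 _ (mi x hx.1)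
    rw [rmul, mul_assoc, ← rmul, k1 x hx]
  have j1 : ∀ x ∈ M1, ρ (gj w hw hF) x ∈ M1 := by
    intro x hx
    apply mem1 _ (mj x hx.1)
    rw [rmul, hq.comm, ← rmul, k1 x hx]
  set M2 := M1 ⊓ LinearMap.ker (LinearMap.id + ρ (gi w hw hF)) with hM2
  have n2 : M2 ≠ ⊥ := exists_fix_two n1 _ (fun x hx => by rw [rmul, k1 x hx]) i1
  have k2 : ∀ x ∈ M2, ρ (gi w hw hF) x = x := by
    rintro x ⟨-, hx⟩
    have h1 : x + ρ (gi w hw hF) x = 0 := hx
    have h2 := eq_neg_of_add_eq_zero_right h1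
    rw [h2, neg2]
  have j2 : ∀ x ∈ M2, ρ (gj w hw hF) x ∈ M2 := by
    intro x hx
    refine ⟨j1 x hx.1, ?_⟩
    show ρ (gj w hw hF) x + ρ (gi w hw hF) (ρ (gj w hw hF) x) = 0
    have h1 : ρ (gi w hw hF) (ρ (gj w hw hF) x) = ρ (gj w hw hF) x := by
      have h2 : ρ (gj w hw hF) (ρ (gi w hw hF) x) = ρ (gi w hw hF * gi w hw hF) (ρ (gi w hw hF) (ρ (gj w hw hF) x)) := by
        rw [rmul, rmul, rmul, hq.ji, mul_assoc (gi w hw hF * gi w hw hF)]
      rw [k2 x hx] at h2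
      rw [k1 _ (i1 _ (j1 x hx.1))] at h2
      exact h2.symm
    rw [h1]
    exact add2 _
  set M3 := M2 ⊓ LinearMap.ker (LinearMap.id + ρ (gj w hw hF)) with hM3
  have n3 : M3 ≠ ⊥ := exists_fix_two n2 _ (fun x hx => by rw [rmul, hq.jj, k1 x hx.1]) j2
  have k3 : ∀ x ∈ M3, ρ (gj w hw hF) x = x := by
    rintro x ⟨-, hx⟩
    have h1 : x + ρ (gj w hw hF) x = 0 := hx
    have h2 := eq_neg_of_add_eq_zero_right h1
    rw [h2, neg2]
  obtain ⟨x, hx, hx0⟩ := (Submodule.ne_bot_iff M3).1 n3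
  have xi : ρ (gi w hw hF) x = x := k2 x hx.1
  have xj : ρ (gj w hw hF) x = x := k3 x hx
  have xM : x ∈ M := hx.1.1.1
  letI := Fintype.ofFinite (qg hq)
  have xq : ∀ q ∈ qg hq, ρ q x = x := by
    have xpow : ∀ k : ℕ, ρ (gi w hw hF ^ k) x = x := by
      intro k
      induction k with
      | zero => rw [pow_zero, e1]
      | succ k ih => rw [pow_succ, ← rmul, xi, ih]
    rintro q ⟨k, rfl | rfl⟩
    · exact xpow k
    · rw [← rmul, xpow, xj]
  obtain ⟨y, hy, e⟩ := free_64_sub hF hW h (qg hq) (pgroup_qg hq) xM.2 xq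
  rw [sum_T8 ρ hq] at e
  have e2 : x = T8 ρ (gi w hw hF) (gj w hw hF) (av ρ (EE w hw) y) := by
    rw [av_T8, ← e, av_eq_self ρ (EE_odd hw) xM.1]
  have h3 : x ∈ M.map (T8 ρ (gi w hw hF) (gj w hw hF)) :=
    ⟨av ρ (EE w hw) y, ⟨av_mem ρ _ y, av_mem_of_inv ρ W hW hy⟩, e2.symm⟩
  rw [Nat.one_le_iff_ne_zero]
  intro h0
  have h4 := Submodule.finrank_eq_zero.1 h0
  rw [h4] at h3
  exact hx0 ((Submodule.mem_bot _).1 h3)

end st

section main

variable {F : Type} [Field F] [Fintype F]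

/-- **The dimensions of every module, with the ranks of `1 + z` and of the trace.** -/
theorem main3 {w : F} (hw : w ^ 2 + w + 1 = 0) (hF : Fintype.card F = 4) : ∀ (n : ℕ) (V : Type) [AddCommGroup V]
    [Module (ZMod 2) V] [Module.Finite (ZMod 2) V] (ρ : Representation (ZMod 2) (G3 F) V), finrank (ZMod 2) V ≤ n →
    CT ρ → ∃ a b c d : ℕ, Dims ρ ⊤ (a + 16 * b + 9 * c + 64 * d) (a + 4 * b + 3 * c + 22 * d) (a + 4 * b + c + 12 * d)
      (a + 4 * b + 10 * d) ∧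
      4 * d ≤ finrank (ZMod 2) ((VE ρ (EE w hw)).map (ρ (gi w hw hF * gi w hw hF) - LinearMap.id)) ∧
      d ≤ finrank (ZMod 2) ((VE ρ (EE w hw)).map (T8 ρ (gi w hw hF) (gj w hw hF))) := by
  intro n
  induction n with
  | zero =>
    intro V _ _ _ ρ hn _
    have h0 : ∀ X : Submodule (ZMod 2) V, finrank (ZMod 2) X = 0 := fun X =>
      Nat.le_zero.1 ((Submodule.finrank_le X).trans hn)
    exact ⟨0, 0, 0, 0, ⟨h0 _, fun g _ _ => h0 _, fun g _ => h0 _, fun g _ => h0 _⟩, Nat.zero_le _, Nat.zero_le _⟩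
  | succ n ih =>
    intro V _ _ _ ρ hn hc
    rcases Nat.eq_zero_or_pos (finrank (ZMod 2) V) with hzero | hpos
    · have h0 : ∀ X : Submodule (ZMod 2) V, finrank (ZMod 2) X = 0 := fun X =>
        Nat.le_zero.1 ((Submodule.finrank_le X).trans hzero.le)
      exact ⟨0, 0, 0, 0, ⟨h0 _, fun g _ _ => h0 _, fun g _ => h0 _, fun g _ => h0 _⟩, Nat.zero_le _, Nat.zero_le _⟩
    · have : Nontrivial V := Module.finrank_pos_iff.1 hpos
      obtain ⟨W, hs⟩ := exists_simp (ρ := ρ)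
      have hW : ∀ g, ∀ w ∈ W, ρ g w ∈ W := hs.1
      have hW' : ∀ g, W ≤ W.comap (ρ g) := fun g w hw => hW g w hw
      have hWpos : 0 < finrank (ZMod 2) W := by
        rw [Nat.pos_iff_ne_zero]
        intro h
        exact hs.2.1 (Submodule.finrank_eq_zero.1 h)
      have hq := Submodule.finrank_quotient_add_finrank W
      obtain ⟨a, b, c, d, hd, hr, hr2⟩ := ih (V ⧸ W) (ρ.quotient W hW') (by omega) (CT_quotient hc W hW')
      have hsup := rank_super ρ (EE_odd hw) W hW' (gi w hw hF * gi w hw hF)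
      have hsup2 := rank_super_gen ρ (EE_odd hw) W hW' (T8 ρ (gi w hw hF) (gj w hw hF))
        (T8 (ρ.quotient W hW') (gi w hw hF) (gj w hw hF)) (T8_mkQ ρ _ _ W hW')
      rcases H482.LF.simp_cases hF hc hs with h | h | h | h | h
      · have hdW := dims_trivial h (finrank_of_simp_trivial hs h)
        refine ⟨a + 1, b, c, d, ?_, by omega, by omega⟩
        have h3 := dims_add W hW' hdW hd
        convert h3 using 1 <;> ring
      · refine ⟨a, b, c + 1, d, ?_, by omega, by omega⟩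
        have h3 := dims_add W hW' (H360.L34.nine_dims hF h) hd
        convert h3 using 1 <;> ring
      · refine ⟨a, b, c + 1, d, ?_, by omega, by omega⟩
        have h3 := dims_add W hW' (H360.L34.nine_dims hF h) hd
        convert h3 using 1 <;> ring
      · refine ⟨a, b + 1, c, d, ?_, by omega, by omega⟩
        have h3 := dims_add W hW' h hd
        convert h3 using 1 <;> ring
      · have h3 := dims_add W hW' h.1 hd
        have h4 := dims_EE hw hF hc hW h.1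
        have h5 := rank_free ρ (EE_odd hw) W hW (EE_conj hw hF)
          (fun x hx hzx => free_64 hF hW h (zz_mul hw hF) (zz_ne hw hF) hx hzx)
        have h6 := T8_64 hw hF hc hW h
        refine ⟨a, b, c, d + 1, ?_, by omega, by omega⟩
        convert h3 using 1 <;> ring

end main

section facts

variable {F : Type} [Field F] [Fintype F] {V : Type} [AddCommGroup V] [Module (ZMod 2) V] [Module.Finite (ZMod 2) V]
  {ρ : Representation (ZMod 2) (G3 F) V}

theorem VE_eq {w : F} (hw : w ^ 2 + w + 1 = 0) (hc : CT ρ) : VE ρ (EE w hw) =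
    LinearMap.ker (ρ (g1 w hw) - LinearMap.id) ⊓ LinearMap.ker (ρ g2 - LinearMap.id) := by
  ext x
  rw [mem_VE_iff hw hc, Submodule.mem_inf, LinearMap.mem_ker, LinearMap.mem_ker, LinearMap.sub_apply,
    LinearMap.sub_apply, LinearMap.id_apply, sub_eq_zero, sub_eq_zero]

/-- the numbers of an invariant subspace of dimension less than 64 and of the quotient -/
theorem quot_three {w : F} (hw : w ^ 2 + w + 1 = 0) (hF : Fintype.card F = 4) (hc : CT ρ) {n5 n7 : ℕ}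
    (hn5 : n5 = 68 ∨ n5 = 48) (hn7 : n7 = 80 ∨ n7 = 38)
    (hd : Dims ρ (⊤ : Submodule (ZMod 2) V) 248 86 n5 n7) {X : Submodule (ZMod 2) V} (hX : Inv ρ X)
    (h64 : finrank (ZMod 2) X < 64) (hX' : ∀ g, X ≤ X.comap (ρ g)) :
    3 ≤ finrank (ZMod 2) ((VE (ρ.quotient X hX') (EE w hw)).map
      (T8 (ρ.quotient X hX') (gi w hw hF) (gj w hw hF))) := by
  haveI : Fact (Nat.Prime 3) := ⟨Nat.prime_three⟩
  haveI : Fact (Nat.Prime 5) := ⟨Nat.prime_five⟩
  haveI : Fact (Nat.Prime 7) := ⟨by norm_num⟩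
  have e1 : orderOf (g1 w hw) = 3 := by
    apply orderOf_eq_prime (g1_cube hw)
    intro h1
    have h2 := g12_ne hw hF
    rw [h1, one_mul, mul_one] at h2
    exact h2 rfl
  have c1 : g1 w hw ∉ Subgroup.center (G3 F) := fun h => g12_ne hw hF (Subgroup.mem_center_iff.1 h g2).symm
  obtain ⟨x5, hx5⟩ := exists_prime_orderOf_dvd_card' (G := G3 F) 5 (by rw [card_G3 hF]; norm_num)
  obtain ⟨x7, hx7⟩ := exists_prime_orderOf_dvd_card' (G := G3 F) 7 (by rw [card_G3 hF]; norm_num)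
  obtain ⟨a, b, c, d, hq, -, hr⟩ := main3 hw hF _ (V ⧸ X) (ρ.quotient X hX') le_rfl (CT_quotient hc X hX')
  obtain ⟨a', b', c', d', p0, p3, p5, p7⟩ := H482.LF.PL hF hc (A := (⊥ : Submodule (ZMod 2) V)) (B := X)
    (fun g x hx => by rw [(Submodule.mem_bot _).1 hx, map_zero]; exact Submodule.zero_mem _) hX bot_le
  have hbot : ∀ g, fx ρ g (⊥ : Submodule (ZMod 2) V) = ⊥ := fun g => bot_inf_eq _
  have z3 := p3 _ e1 c1
  have z5 := p5 _ hx5
  have z7 := p7 _ hx7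
  rw [hbot, finrank_bot] at z3 z5 z7
  rw [finrank_bot] at p0
  have q0 := Submodule.finrank_quotient_add_finrank X
  have q3 := fx_add (ρ := ρ) X hX' (g := g1 w hw) (by rw [e1]; decide)
  have q5 := fx_add (ρ := ρ) X hX' (g := x5) (by rw [hx5]; decide)
  have q7 := fx_add (ρ := ρ) X hX' (g := x7) (by rw [hx7]; decide)
  rw [hd.2.1 _ e1 c1, z3, hq.2.1 _ e1 c1] at q3
  rw [hd.2.2.1 _ hx5, z5, hq.2.2.1 _ hx5] at q5
  rw [hd.2.2.2 _ hx7, z7, hq.2.2.2 _ hx7] at q7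
  have t0 : finrank (ZMod 2) (⊤ : Submodule (ZMod 2) V) = 248 := hd.1
  have t1 : finrank (ZMod 2) (⊤ : Submodule (ZMod 2) (V ⧸ X)) = _ := hq.1
  rw [finrank_top] at t0 t1
  rw [t0, t1] at q0
  omega

/-- **(S5)** the facts on the trace -/
theorem tr_facts {w : F} (hw : w ^ 2 + w + 1 = 0) (hF : Fintype.card F = 4) (hc : CT ρ) {n5 n7 : ℕ}
    (hn5 : n5 = 68 ∨ n5 = 48) (hn7 : n7 = 80 ∨ n7 = 38)
    (hd : Dims ρ (⊤ : Submodule (ZMod 2) V) 248 86 n5 n7)
    (h20 : Module.finrank (ZMod 2) (LinearMap.ker (ρ (g1 w hw) - LinearMap.id) ⊓ LinearMap.ker (ρ g2 - LinearMap.id) ⊓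
      LinearMap.ker (ρ (gi w hw hF * gi w hw hF) - LinearMap.id) : Submodule (ZMod 2) V) = 20) :
    finrank (ZMod 2) (VE ρ (EE w hw)) = 32 ∧
    finrank (ZMod 2) ((VE ρ (EE w hw)).map (ρ (gi w hw hF * gi w hw hF) - LinearMap.id)) = 12 ∧
    finrank (ZMod 2) ((VE ρ (EE w hw)).map (T8 ρ (gi w hw hF) (gj w hw hF))) = 3 ∧
    ∀ X : Submodule (ZMod 2) V, Inv ρ X → finrank (ZMod 2) X < 64 →
      (VE ρ (EE w hw)).map (T8 ρ (gi w hw hF) (gj w hw hF)) ⊓ X = ⊥ := by
  have hVE := VE_eq (ρ := ρ) hw hc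
  rw [← hVE] at h20
  have h32 := dims_EE hw hF hc (W := ⊤) (fun _ _ _ => Submodule.mem_top) hd
  rw [inf_top_eq] at h32
  have hrk := finrank_map_add (ρ (gi w hw hF * gi w hw hF) - LinearMap.id) (VE ρ (EE w hw))
  obtain ⟨vi, vj⟩ := VE_inv (ρ := ρ) hw hF hc
  have hle := rank_T8_le ρ (qrel hw hF) (VE ρ (EE w hw)) vi vj
  have hup : finrank (ZMod 2) ((VE ρ (EE w hw)).map (T8 ρ (gi w hw hF) (gj w hw hF))) ≤ 3 := by omega
  have key : ∀ X : Submodule (ZMod 2) V, Inv ρ X → finrank (ZMod 2) X < 64 →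
      3 ≤ finrank (ZMod 2) ((VE ρ (EE w hw)).map (T8 ρ (gi w hw hF) (gj w hw hF))) ∧
      (VE ρ (EE w hw)).map (T8 ρ (gi w hw hF) (gj w hw hF)) ⊓ X = ⊥ := by
    intro X hX h64
    have hX' : ∀ g, X ≤ X.comap (ρ g) := fun g w hw => hX g w hw
    have h3 := quot_three hw hF hc hn5 hn7 hd hX h64 hX'
    have hsup2 := rank_super_gen ρ (EE_odd hw) X hX' (T8 ρ (gi w hw hF) (gj w hw hF))
      (T8 (ρ.quotient X hX') (gi w hw hF) (gj w hw hF)) (T8_mkQ ρ _ _ X hX')
    refine ⟨by omega, ?_⟩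
    exact inf_eq_bot_gen ρ (EE_odd hw) X hX' _ _ (T8_mkQ ρ _ _ X hX') (by omega)
  have h0 := (key ⊥ (fun g x hx => by rw [(Submodule.mem_bot _).1 hx, map_zero]; exact Submodule.zero_mem _)
    (by rw [finrank_bot]; norm_num)).1
  exact ⟨by omega, by omega, by omega, fun X hX h64 => (key X hX h64).2⟩

/-- traces are fixed by the quaternion group -/
theorem T8_fix (ρ : Representation (ZMod 2) (G3 F) V) {i j : G3 F} (h : QRel i j) (y : V) :
    ρ i (T8 ρ i j y) = T8 ρ i j y ∧ ρ j (T8 ρ i j y) = T8 ρ i j y := by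
  classical
  letI := Fintype.ofFinite (qg h)
  have key : ∀ g ∈ qg h, ρ g (T8 ρ i j y) = T8 ρ i j y := by
    intro g hg
    rw [← sum_T8 ρ h, map_sum]
    apply Fintype.sum_equiv (Equiv.mulLeft (⟨g, hg⟩ : qg h))
    intro q
    rw [Equiv.coe_mulLeft, rmul]
    rfl
  refine ⟨key _ ⟨1, Or.inl (pow_one i).symm⟩, key _ ⟨0, Or.inr ?_⟩⟩
  rw [pow_zero, mul_one]

theorem T8_mem {w : F} (hw : w ^ 2 + w + 1 = 0) (hF : Fintype.card F = 4) (hc : CT ρ) {y : V}
    (hy : y ∈ VE ρ (EE w hw)) : T8 ρ (gi w hw hF) (gj w hw hF) y ∈ VE ρ (EE w hw) ∧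
    ρ (gi w hw hF) (T8 ρ (gi w hw hF) (gj w hw hF) y) = T8 ρ (gi w hw hF) (gj w hw hF) y ∧
    ρ (gj w hw hF) (T8 ρ (gi w hw hF) (gj w hw hF) y) = T8 ρ (gi w hw hF) (gj w hw hF) y := by
  refine ⟨?_, T8_fix ρ (qrel hw hF) y⟩
  obtain ⟨vi, vj⟩ := VE_inv (ρ := ρ) hw hF hc
  rw [T8_apply]
  have h1 := vi y hy
  have h2 : ρ (gi w hw hF * gi w hw hF) y ∈ VE ρ (EE w hw) := by rw [← rmul]; exact vi _ h1
  have h3 : ρ (gi w hw hF * gi w hw hF * gi w hw hF) y ∈ VE ρ (EE w hw) := by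
    rw [mul_assoc, ← rmul, ← rmul]; exact vi _ (vi _ h1)
  have h4 := Submodule.add_mem _ (Submodule.add_mem _ (Submodule.add_mem _ hy h1) h2) h3
  exact Submodule.add_mem _ h4 (vj _ h4)

end facts

end Cfsg.Agent.H904.L34.Unit
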