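import Cfsg.Agent.H904.L34.Last
import Cfsg.Agent.H482.LF.SimpB

/-!
# S5917, part I (helper904): row (U), explicit elements of the unitary group
-/

set_option autoImplicit false
set_option linter.unusedSectionVars false
set_option linter.unusedVariables false

namespace Cfsg.Agent.H904.L34.Unit

open Matrix Cfsg.Agent.H691.L34 Cfsg.Agent.H904.L34 Module

section mats

variable {F : Type} [Field F] [Fintype F]

theorem mulM (a b c d e f g h i a' b' c' d' e' f' g' h' i' : F) :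
    (!![a, b, c; d, e, f; g, h, i] : M3 F) * !![a', b', c'; d', e', f'; g', h', i'] =
    !![a * a' + b * d' + c * g', a * b' + b * e' + c * h', a * c' + b * f' + c * i';
       d * a' + e * d' + f * g', d * b' + e * e' + f * h', d * c' + e * f' + f * i';
       g * a' + h * d' + i * g', g * b' + h * e' + i * h', g * c' + h * f' + i * i'] := by
  ext i j
  rw [Matrix.mul_apply, Fin.sum_univ_three]
  fin_cases i <;> fin_cases j <;> rfl

theorem eqM {a b c d e f g h i a' b' c' d' e' f' g' h' i' : F} (h1 : a = a') (h2 : b = b') (h3 : c = c')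
    (h4 : d = d') (h5 : e = e') (h6 : f = f') (h7 : g = g') (h8 : h = h') (h9 : i = i') :
    (!![a, b, c; d, e, f; g, h, i] : M3 F) = !![a', b', c'; d', e', f'; g', h', i'] := by
  subst h1 h2 h3 h4 h5 h6 h7 h8 h9
  rfl

theorem one_eq : (1 : M3 F) = !![1, 0, 0; 0, 1, 0; 0, 0, 1] := by
  ext i j
  fin_cases i <;> fin_cases j <;> rfl

/-- `i` -/
def gi (w : F) (hw : w ^ 2 + w + 1 = 0) (hF : Fintype.card F = 4) : G3 F := ⟨!![1, 1, 1; 1, w ^ 2, w; 1, w, w ^ 2], by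
  rw [Matrix.det_fin_three]
  show (1) * (w ^ 2) * (w ^ 2) - (1) * (w) * (w) - (1) * (1) * (w ^ 2) + (1) * (w) * (1) + (1) * (1) * (w) - (1) * (w ^ 2) * (1) = 1
  linear_combination ((-3) + (-1)*w + (1)*w^2) * hw + ((1) + (3)*w) * two_zero hF⟩

/-- `j` -/
def gj (w : F) (hw : w ^ 2 + w + 1 = 0) (hF : Fintype.card F = 4) : G3 F := ⟨!![1, w, w; w ^ 2, w ^ 2, w; w ^ 2, w, w ^ 2], by
  rw [Matrix.det_fin_three]
  show (1) * (w ^ 2) * (w ^ 2) - (1) * (w) * (w) - (w) * (w ^ 2) * (w ^ 2) + (w) * (w) * (w ^ 2) + (w) * (w ^ 2) * (w) - (w) * (w ^ 2) * (w ^ 2) = 1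
  linear_combination ((-3) + (-3)*w + (5)*w^2 + (-2)*w^3) * hw + ((1) + (3)*w) * two_zero hF⟩

variable {w : F} (hw : w ^ 2 + w + 1 = 0) (hF : Fintype.card F = 4)

theorem mem_gi : hact (gi w hw hF) (1 : M3 F) = 1 := by
  rw [hact_def, Matrix.mul_one]
  have e : ct (!![1, 1, 1; 1, w ^ 2, w; 1, w, w ^ 2] : M3 F) = !![(1) ^ 2, (1) ^ 2, (1) ^ 2; (1) ^ 2, (w ^ 2) ^ 2, (w) ^ 2; (1) ^ 2, (w) ^ 2, (w ^ 2) ^ 2] := by
    ext i j
    fin_cases i <;> fin_cases j <;> rfl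
  show (!![1, 1, 1; 1, w ^ 2, w; 1, w, w ^ 2] : M3 F) * ct !![1, 1, 1; 1, w ^ 2, w; 1, w, w ^ 2] = 1
  rw [e, mulM, one_eq]
  refine eqM ?_ ?_ ?_ ?_ ?_ ?_ ?_ ?_ ?_
  · linear_combination (0) * hw + ((1)) * two_zero hF
  · linear_combination ((1) + (-1)*w + (1)*w^2) * hw + (0) * two_zero hF
  · linear_combination ((1) + (-1)*w + (1)*w^2) * hw + (0) * two_zero hF
  · linear_combination ((1)) * hw + (0) * two_zero hF
  · linear_combination ((-2) + (2)*w + (-1)*w^3 + (1)*w^4) * hw + ((1)) * two_zero hF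
  · linear_combination ((1) + (-1)*w + (1)*w^3) * hw + (0) * two_zero hF
  · linear_combination ((1)) * hw + (0) * two_zero hF
  · linear_combination ((1) + (-1)*w + (1)*w^3) * hw + (0) * two_zero hF
  · linear_combination ((-2) + (2)*w + (-1)*w^3 + (1)*w^4) * hw + ((1)) * two_zero hF

theorem mem_gj : hact (gj w hw hF) (1 : M3 F) = 1 := by
  rw [hact_def, Matrix.mul_one]
  have e : ct (!![1, w, w; w ^ 2, w ^ 2, w; w ^ 2, w, w ^ 2] : M3 F) = !![(1) ^ 2, (w ^ 2) ^ 2, (w ^ 2) ^ 2; (w) ^ 2, (w ^ 2) ^ 2, (w) ^ 2; (w) ^ 2, (w) ^ 2, (w ^ 2) ^ 2] := by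
    ext i j
    fin_cases i <;> fin_cases j <;> rfl
  show (!![1, w, w; w ^ 2, w ^ 2, w; w ^ 2, w, w ^ 2] : M3 F) * ct !![1, w, w; w ^ 2, w ^ 2, w; w ^ 2, w, w ^ 2] = 1
  rw [e, mulM, one_eq]
  refine eqM ?_ ?_ ?_ ?_ ?_ ?_ ?_ ?_ ?_
  · linear_combination ((-2) + (2)*w) * hw + ((1)) * two_zero hF
  · linear_combination ((1)*w^3) * hw + (0) * two_zero hF
  · linear_combination ((1)*w^3) * hw + (0) * two_zero hF
  · linear_combination ((1)*w^2) * hw + (0) * two_zero hF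
  · linear_combination ((-3) + (3)*w + (-2)*w^3 + (2)*w^4) * hw + ((1)) * two_zero hF
  · linear_combination ((1)*w^4) * hw + (0) * two_zero hF
  · linear_combination ((1)*w^2) * hw + (0) * two_zero hF
  · linear_combination ((1)*w^4) * hw + (0) * two_zero hF
  · linear_combination ((-3) + (3)*w + (-2)*w^3 + (2)*w^4) * hw + ((1)) * two_zero hF

theorem r1 : (gi w hw hF * g1 w hw) = (g2 * gi w hw hF) := by
  apply Subtype.ext
  rw [co_mul, co_mul]
  show ((!![1, 1, 1; 1, w ^ 2, w; 1, w, w ^ 2] * !![1, 0, 0; 0, w, 0; 0, 0, w ^ 2]) : M3 F) = (!![0, 0, 1; 1, 0, 0; 0, 1, 0] * !![1, 1, 1; 1, w ^ 2, w; 1, w, w ^ 2])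
  rw [mulM, mulM]
  refine eqM ?_ ?_ ?_ ?_ ?_ ?_ ?_ ?_ ?_
  · linear_combination (0) * hw + (0) * two_zero hF
  · linear_combination (0) * hw + (0) * two_zero hF
  · linear_combination (0) * hw + (0) * two_zero hF
  · linear_combination (0) * hw + (0) * two_zero hF
  · linear_combination ((-1) + (1)*w) * hw + (0) * two_zero hF
  · linear_combination ((-1) + (1)*w) * hw + (0) * two_zero hF
  · linear_combination (0) * hw + (0) * two_zero hF
  · linear_combination (0) * hw + (0) * two_zero hF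
  · linear_combination ((-1)*w + (1)*w^2) * hw + (0) * two_zero hF

theorem r2 : (g1 w hw * (gi w hw hF * g2)) = gi w hw hF := by
  apply Subtype.ext
  rw [co_mul, co_mul]
  show ((!![1, 0, 0; 0, w, 0; 0, 0, w ^ 2] * (!![1, 1, 1; 1, w ^ 2, w; 1, w, w ^ 2] * !![0, 0, 1; 1, 0, 0; 0, 1, 0])) : M3 F) = !![1, 1, 1; 1, w ^ 2, w; 1, w, w ^ 2]
  rw [mulM, mulM]
  refine eqM ?_ ?_ ?_ ?_ ?_ ?_ ?_ ?_ ?_
  · linear_combination (0) * hw + (0) * two_zero hF
  · linear_combination (0) * hw + (0) * two_zero hF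
  · linear_combination (0) * hw + (0) * two_zero hF
  · linear_combination ((-1) + (1)*w) * hw + (0) * two_zero hF
  · linear_combination (0) * hw + (0) * two_zero hF
  · linear_combination (0) * hw + (0) * two_zero hF
  · linear_combination ((-1) + (1)*w) * hw + (0) * two_zero hF
  · linear_combination ((-1)*w + (1)*w^2) * hw + (0) * two_zero hF
  · linear_combination (0) * hw + (0) * two_zero hF

theorem r3 : (gj w hw hF * g1 w hw) = (s0 w hw * (g1 w hw * (g2 * gj w hw hF))) := by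
  apply Subtype.ext
  rw [co_mul, co_mul, co_mul, co_mul]
  show ((!![1, w, w; w ^ 2, w ^ 2, w; w ^ 2, w, w ^ 2] * !![1, 0, 0; 0, w, 0; 0, 0, w ^ 2]) : M3 F) = (!![w, 0, 0; 0, w, 0; 0, 0, w] * (!![1, 0, 0; 0, w, 0; 0, 0, w ^ 2] * (!![0, 0, 1; 1, 0, 0; 0, 1, 0] * !![1, w, w; w ^ 2, w ^ 2, w; w ^ 2, w, w ^ 2])))
  rw [mulM, mulM, mulM, mulM]
  refine eqM ?_ ?_ ?_ ?_ ?_ ?_ ?_ ?_ ?_
  · linear_combination ((1) + (-1)*w) * hw + (0) * two_zero hF
  · linear_combination (0) * hw + (0) * two_zero hF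
  · linear_combination (0) * hw + (0) * two_zero hF
  · linear_combination (0) * hw + (0) * two_zero hF
  · linear_combination (0) * hw + (0) * two_zero hF
  · linear_combination (0) * hw + (0) * two_zero hF
  · linear_combination ((1)*w^2 + (-1)*w^3) * hw + (0) * two_zero hF
  · linear_combination ((1)*w^2 + (-1)*w^3) * hw + (0) * two_zero hF
  · linear_combination (0) * hw + (0) * two_zero hF

theorem r4 : (gj w hw hF * g2) = (s0 w hw * (s0 w hw * (g1 w hw * (g2 * (g2 * gj w hw hF))))) := by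
  apply Subtype.ext
  rw [co_mul, co_mul, co_mul, co_mul, co_mul, co_mul]
  show ((!![1, w, w; w ^ 2, w ^ 2, w; w ^ 2, w, w ^ 2] * !![0, 0, 1; 1, 0, 0; 0, 1, 0]) : M3 F) = (!![w, 0, 0; 0, w, 0; 0, 0, w] * (!![w, 0, 0; 0, w, 0; 0, 0, w] * (!![1, 0, 0; 0, w, 0; 0, 0, w ^ 2] * (!![0, 0, 1; 1, 0, 0; 0, 1, 0] * (!![0, 0, 1; 1, 0, 0; 0, 1, 0] * !![1, w, w; w ^ 2, w ^ 2, w; w ^ 2, w, w ^ 2])))))
  rw [mulM, mulM, mulM, mulM, mulM, mulM]
  refine eqM ?_ ?_ ?_ ?_ ?_ ?_ ?_ ?_ ?_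
  · linear_combination ((1)*w + (-1)*w^2) * hw + (0) * two_zero hF
  · linear_combination ((1)*w + (-1)*w^2) * hw + (0) * two_zero hF
  · linear_combination ((1) + (-1)*w) * hw + (0) * two_zero hF
  · linear_combination ((1)*w^2 + (-1)*w^3) * hw + (0) * two_zero hF
  · linear_combination ((1)*w + (-1)*w^2) * hw + (0) * two_zero hF
  · linear_combination ((1)*w^2 + (-1)*w^3) * hw + (0) * two_zero hF
  · linear_combination ((1)*w + (-1)*w^2) * hw + (0) * two_zero hF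
  · linear_combination ((1)*w^2 + (-1)*w^3) * hw + (0) * two_zero hF
  · linear_combination ((1)*w^2 + (-1)*w^3) * hw + (0) * two_zero hF

theorem i4 : (gi w hw hF * (gi w hw hF * (gi w hw hF * gi w hw hF))) = 1 := by
  apply Subtype.ext
  rw [co_mul, co_mul, co_mul, co_one, one_eq]
  show ((!![1, 1, 1; 1, w ^ 2, w; 1, w, w ^ 2] * (!![1, 1, 1; 1, w ^ 2, w; 1, w, w ^ 2] * (!![1, 1, 1; 1, w ^ 2, w; 1, w, w ^ 2] * !![1, 1, 1; 1, w ^ 2, w; 1, w, w ^ 2]))) : M3 F) = !![1, 0, 0; 0, 1, 0; 0, 0, 1]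
  rw [mulM, mulM, mulM]
  refine eqM ?_ ?_ ?_ ?_ ?_ ?_ ?_ ?_ ?_
  · linear_combination ((2) + (2)*w + (2)*w^2) * hw + ((4)) * two_zero hF
  · linear_combination ((5) + (1)*w^2 + (2)*w^3 + (1)*w^4) * hw + (0) * two_zero hF
  · linear_combination ((5) + (1)*w^2 + (2)*w^3 + (1)*w^4) * hw + (0) * two_zero hF
  · linear_combination ((5) + (1)*w^2 + (2)*w^3 + (1)*w^4) * hw + (0) * two_zero hF
  · linear_combination ((-6) + (8)*w + (3)*w^2 + (-5)*w^3 + (6)*w^4 + (-1)*w^5 + (1)*w^6) * hw + ((4)) * two_zero hF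
  · linear_combination ((3) + (-1)*w + (3)*w^2 + (4)*w^3 + (-4)*w^4 + (4)*w^5) * hw + (0) * two_zero hF
  · linear_combination ((5) + (1)*w^2 + (2)*w^3 + (1)*w^4) * hw + (0) * two_zero hF
  · linear_combination ((3) + (-1)*w + (3)*w^2 + (4)*w^3 + (-4)*w^4 + (4)*w^5) * hw + (0) * two_zero hF
  · linear_combination ((-6) + (8)*w + (3)*w^2 + (-5)*w^3 + (6)*w^4 + (-1)*w^5 + (1)*w^6) * hw + ((4)) * two_zero hF

theorem jj : (gj w hw hF * gj w hw hF) = (gi w hw hF * gi w hw hF) := by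
  apply Subtype.ext
  rw [co_mul, co_mul]
  show ((!![1, w, w; w ^ 2, w ^ 2, w; w ^ 2, w, w ^ 2] * !![1, w, w; w ^ 2, w ^ 2, w; w ^ 2, w, w ^ 2]) : M3 F) = (!![1, 1, 1; 1, w ^ 2, w; 1, w, w ^ 2] * !![1, 1, 1; 1, w ^ 2, w; 1, w, w ^ 2])
  rw [mulM, mulM]
  refine eqM ?_ ?_ ?_ ?_ ?_ ?_ ?_ ?_ ?_
  · linear_combination ((-2) + (2)*w) * hw + (0) * two_zero hF
  · linear_combination ((-1) + (1)*w) * hw + (0) * two_zero hF
  · linear_combination ((-1) + (1)*w) * hw + (0) * two_zero hF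
  · linear_combination ((-1) + (1)*w^2) * hw + (0) * two_zero hF
  · linear_combination ((-1) + (1)*w) * hw + (0) * two_zero hF
  · linear_combination ((-1) + (1)*w) * hw + (0) * two_zero hF
  · linear_combination ((-1) + (1)*w^2) * hw + (0) * two_zero hF
  · linear_combination ((-1) + (1)*w) * hw + (0) * two_zero hF
  · linear_combination ((-1) + (1)*w) * hw + (0) * two_zero hF

theorem ji : (gj w hw hF * (gi w hw hF * gj w hw hF)) = gi w hw hF := by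
  apply Subtype.ext
  rw [co_mul, co_mul]
  show ((!![1, w, w; w ^ 2, w ^ 2, w; w ^ 2, w, w ^ 2] * (!![1, 1, 1; 1, w ^ 2, w; 1, w, w ^ 2] * !![1, w, w; w ^ 2, w ^ 2, w; w ^ 2, w, w ^ 2])) : M3 F) = !![1, 1, 1; 1, w ^ 2, w; 1, w, w ^ 2]
  rw [mulM, mulM]
  refine eqM ?_ ?_ ?_ ?_ ?_ ?_ ?_ ?_ ?_
  · linear_combination ((4) + (-2)*w + (2)*w^3) * hw + ((-2)) * two_zero hF
  · linear_combination ((3) + (-1)*w + (1)*w^2 + (1)*w^3) * hw + ((-2)) * two_zero hF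
  · linear_combination ((3) + (-1)*w + (1)*w^2 + (1)*w^3) * hw + ((-2)) * two_zero hF
  · linear_combination ((3) + (-2)*w + (1)*w^2 + (1)*w^3 + (1)*w^4) * hw + ((-2)) * two_zero hF
  · linear_combination ((-4) + (4)*w^2 + (-1)*w^3 + (1)*w^4) * hw + ((2) + (2)*w) * two_zero hF
  · linear_combination ((3)*w + (-2)*w^2 + (3)*w^3) * hw + ((-2)*w) * two_zero hF
  · linear_combination ((3) + (-2)*w + (1)*w^2 + (1)*w^3 + (1)*w^4) * hw + ((-2)) * two_zero hF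
  · linear_combination ((3)*w + (-2)*w^2 + (3)*w^3) * hw + ((-2)*w) * two_zero hF
  · linear_combination ((-4) + (4)*w^2 + (-1)*w^3 + (1)*w^4) * hw + ((2) + (2)*w) * two_zero hF

theorem a2 : (g2 * (gi w hw hF * (g1 w hw * g1 w hw))) = gi w hw hF := by
  apply Subtype.ext
  rw [co_mul, co_mul, co_mul]
  show ((!![0, 0, 1; 1, 0, 0; 0, 1, 0] * (!![1, 1, 1; 1, w ^ 2, w; 1, w, w ^ 2] * (!![1, 0, 0; 0, w, 0; 0, 0, w ^ 2] * !![1, 0, 0; 0, w, 0; 0, 0, w ^ 2]))) : M3 F) = !![1, 1, 1; 1, w ^ 2, w; 1, w, w ^ 2]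
  rw [mulM, mulM, mulM]
  refine eqM ?_ ?_ ?_ ?_ ?_ ?_ ?_ ?_ ?_
  · linear_combination (0) * hw + (0) * two_zero hF
  · linear_combination ((-1) + (1)*w) * hw + (0) * two_zero hF
  · linear_combination ((-1) + (1)*w + (-1)*w^3 + (1)*w^4) * hw + (0) * two_zero hF
  · linear_combination (0) * hw + (0) * two_zero hF
  · linear_combination (0) * hw + (0) * two_zero hF
  · linear_combination ((-1)*w + (1)*w^2) * hw + (0) * two_zero hF
  · linear_combination (0) * hw + (0) * two_zero hF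
  · linear_combination ((-1)*w + (1)*w^2) * hw + (0) * two_zero hF
  · linear_combination ((-1)*w^2 + (1)*w^3) * hw + (0) * two_zero hF

theorem a3 : (g1 w hw * (gj w hw hF * (g1 w hw * g2))) = (s0 w hw * (s0 w hw * gj w hw hF)) := by
  apply Subtype.ext
  rw [co_mul, co_mul, co_mul, co_mul, co_mul]
  show ((!![1, 0, 0; 0, w, 0; 0, 0, w ^ 2] * (!![1, w, w; w ^ 2, w ^ 2, w; w ^ 2, w, w ^ 2] * (!![1, 0, 0; 0, w, 0; 0, 0, w ^ 2] * !![0, 0, 1; 1, 0, 0; 0, 1, 0]))) : M3 F) = (!![w, 0, 0; 0, w, 0; 0, 0, w] * (!![w, 0, 0; 0, w, 0; 0, 0, w] * !![1, w, w; w ^ 2, w ^ 2, w; w ^ 2, w, w ^ 2]))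
  rw [mulM, mulM, mulM, mulM, mulM]
  refine eqM ?_ ?_ ?_ ?_ ?_ ?_ ?_ ?_ ?_
  · linear_combination (0) * hw + (0) * two_zero hF
  · linear_combination (0) * hw + (0) * two_zero hF
  · linear_combination ((1) + (-1)*w) * hw + (0) * two_zero hF
  · linear_combination (0) * hw + (0) * two_zero hF
  · linear_combination (0) * hw + (0) * two_zero hF
  · linear_combination (0) * hw + (0) * two_zero hF
  · linear_combination (0) * hw + (0) * two_zero hF
  · linear_combination ((-1)*w^3 + (1)*w^4) * hw + (0) * two_zero hF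
  · linear_combination (0) * hw + (0) * two_zero hF

theorem a4 : (g2 * (gj w hw hF * (g1 w hw * (g2 * g2)))) = (s0 w hw * gj w hw hF) := by
  apply Subtype.ext
  rw [co_mul, co_mul, co_mul, co_mul, co_mul]
  show ((!![0, 0, 1; 1, 0, 0; 0, 1, 0] * (!![1, w, w; w ^ 2, w ^ 2, w; w ^ 2, w, w ^ 2] * (!![1, 0, 0; 0, w, 0; 0, 0, w ^ 2] * (!![0, 0, 1; 1, 0, 0; 0, 1, 0] * !![0, 0, 1; 1, 0, 0; 0, 1, 0])))) : M3 F) = (!![w, 0, 0; 0, w, 0; 0, 0, w] * !![1, w, w; w ^ 2, w ^ 2, w; w ^ 2, w, w ^ 2])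
  rw [mulM, mulM, mulM, mulM, mulM]
  refine eqM ?_ ?_ ?_ ?_ ?_ ?_ ?_ ?_ ?_
  · linear_combination ((-1)*w + (1)*w^2) * hw + (0) * two_zero hF
  · linear_combination (0) * hw + (0) * two_zero hF
  · linear_combination (0) * hw + (0) * two_zero hF
  · linear_combination (0) * hw + (0) * two_zero hF
  · linear_combination ((1) + (-1)*w) * hw + (0) * two_zero hF
  · linear_combination (0) * hw + (0) * two_zero hF
  · linear_combination (0) * hw + (0) * two_zero hF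
  · linear_combination (0) * hw + (0) * two_zero hF
  · linear_combination (0) * hw + (0) * two_zero hF

include hF
theorem c12 : (g1 w hw * g2) ^ 3 = 1 := by
  have e : (g1 w hw * g2 : G3 F).1 = !![0, 0, 1; w, 0, 0; 0, w ^ 2, 0] := by
    rw [co_mul]
    show (!![1, 0, 0; 0, w, 0; 0, 0, w ^ 2] : M3 F) * !![0, 0, 1; 1, 0, 0; 0, 1, 0] = _
    rw [mulM]
    refine eqM ?_ ?_ ?_ ?_ ?_ ?_ ?_ ?_ ?_ <;> ring
  have h3 := w3 hw
  apply Subtype.ext
  rw [co_pow, e, pow_three', co_one, mulM, mulM, one_eq]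
  refine eqM ?_ ?_ ?_ ?_ ?_ ?_ ?_ ?_ ?_ <;> first | ring1 | linear_combination h3

theorem c122 : (g1 w hw * g2 ^ 2) ^ 3 = 1 := by
  have e : (g1 w hw * g2 ^ 2 : G3 F).1 = !![0, 1, 0; 0, 0, w; w ^ 2, 0, 0] := by
    rw [co_mul, co_pow, pow_two]
    show (!![1, 0, 0; 0, w, 0; 0, 0, w ^ 2] : M3 F) * (!![0, 0, 1; 1, 0, 0; 0, 1, 0] * !![0, 0, 1; 1, 0, 0; 0, 1, 0]) = _
    rw [mulM, mulM]
    refine eqM ?_ ?_ ?_ ?_ ?_ ?_ ?_ ?_ ?_ <;> ring
  have h3 := w3 hw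
  apply Subtype.ext
  rw [co_pow, e, pow_three', co_one, mulM, mulM, one_eq]
  refine eqM ?_ ?_ ?_ ?_ ?_ ?_ ?_ ?_ ?_ <;> first | ring1 | linear_combination h3


theorem z1 : (gi w hw hF * (gi w hw hF * g1 w hw)) = (g1 w hw * (g1 w hw * (gi w hw hF * gi w hw hF))) := by
  apply Subtype.ext
  rw [co_mul, co_mul, co_mul, co_mul, co_mul]
  show ((!![1, 1, 1; 1, w ^ 2, w; 1, w, w ^ 2] * (!![1, 1, 1; 1, w ^ 2, w; 1, w, w ^ 2] * !![1, 0, 0; 0, w, 0; 0, 0, w ^ 2])) : M3 F) = (!![1, 0, 0; 0, w, 0; 0, 0, w ^ 2] * (!![1, 0, 0; 0, w, 0; 0, 0, w ^ 2] * (!![1, 1, 1; 1, w ^ 2, w; 1, w, w ^ 2] * !![1, 1, 1; 1, w ^ 2, w; 1, w, w ^ 2])))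
  rw [mulM, mulM, mulM, mulM, mulM]
  refine eqM ?_ ?_ ?_ ?_ ?_ ?_ ?_ ?_ ?_
  · linear_combination (0) * hw + (0) * two_zero hF
  · linear_combination ((-1) + (1)*w) * hw + (0) * two_zero hF
  · linear_combination ((-1) + (1)*w^2) * hw + (0) * two_zero hF
  · linear_combination ((1) + (-1)*w^2) * hw + (0) * two_zero hF
  · linear_combination ((1)*w + (-2)*w^2 + (2)*w^3 + (-1)*w^4) * hw + (0) * two_zero hF
  · linear_combination (0) * hw + (0) * two_zero hF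
  · linear_combination ((1) + (-1)*w^4) * hw + (0) * two_zero hF
  · linear_combination ((1)*w + (-1)*w^2 + (2)*w^4 + (-2)*w^5) * hw + (0) * two_zero hF
  · linear_combination ((1)*w^2 + (-1)*w^3 + (1)*w^5 + (-1)*w^6) * hw + (0) * two_zero hF

theorem z2 : (gi w hw hF * (gi w hw hF * g2)) = (g2 * (g2 * (gi w hw hF * gi w hw hF))) := by
  apply Subtype.ext
  rw [co_mul, co_mul, co_mul, co_mul, co_mul]
  show ((!![1, 1, 1; 1, w ^ 2, w; 1, w, w ^ 2] * (!![1, 1, 1; 1, w ^ 2, w; 1, w, w ^ 2] * !![0, 0, 1; 1, 0, 0; 0, 1, 0])) : M3 F) = (!![0, 0, 1; 1, 0, 0; 0, 1, 0] * (!![0, 0, 1; 1, 0, 0; 0, 1, 0] * (!![1, 1, 1; 1, w ^ 2, w; 1, w, w ^ 2] * !![1, 1, 1; 1, w ^ 2, w; 1, w, w ^ 2])))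
  rw [mulM, mulM, mulM, mulM, mulM]
  refine eqM ?_ ?_ ?_ ?_ ?_ ?_ ?_ ?_ ?_
  · linear_combination (0) * hw + (0) * two_zero hF
  · linear_combination ((1)*w + (-1)*w^2) * hw + (0) * two_zero hF
  · linear_combination ((2) + (-2)*w) * hw + (0) * two_zero hF
  · linear_combination ((-1)*w + (1)*w^2) * hw + (0) * two_zero hF
  · linear_combination (0) * hw + (0) * two_zero hF
  · linear_combination ((1)*w + (-1)*w^2) * hw + (0) * two_zero hF
  · linear_combination ((-2) + (2)*w) * hw + (0) * two_zero hF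
  · linear_combination ((-1)*w + (1)*w^2) * hw + (0) * two_zero hF
  · linear_combination (0) * hw + (0) * two_zero hF

theorem ii : (gi w hw hF * gi w hw hF : G3 F).1 = !![1, 0, 0; 0, 0, 1; 0, 1, 0] := by
  rw [co_mul]
  show ((!![1, 1, 1; 1, w ^ 2, w; 1, w, w ^ 2] * !![1, 1, 1; 1, w ^ 2, w; 1, w, w ^ 2]) : M3 F) = _
  rw [mulM]
  refine eqM ?_ ?_ ?_ ?_ ?_ ?_ ?_ ?_ ?_
  · linear_combination (0) * hw + ((1)) * two_zero hF
  · linear_combination ((1)) * hw + (0) * two_zero hF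
  · linear_combination ((1)) * hw + (0) * two_zero hF
  · linear_combination ((1)) * hw + (0) * two_zero hF
  · linear_combination ((1) + (-1)*w + (1)*w^2) * hw + (0) * two_zero hF
  · linear_combination ((-2) + (2)*w) * hw + ((1)) * two_zero hF
  · linear_combination ((1)) * hw + (0) * two_zero hF
  · linear_combination ((-2) + (2)*w) * hw + ((1)) * two_zero hF
  · linear_combination ((1) + (-1)*w + (1)*w^2) * hw + (0) * two_zero hF

end mats

end Cfsg.Agent.H904.L34.Unit
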