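import Cfsg.Agent.H904.L34.UMat

/-!
# S5917, part I (helper904): row (U), structure-free form of the Hessian group
-/

set_option autoImplicit false
set_option linter.unusedSectionVars false
set_option linter.unusedVariables false

namespace Cfsg.Agent.H904.L34.Unit

open Matrix Cfsg.Agent.H691.L34 Cfsg.Agent.H904.L34 Module

section rel

variable {F : Type} [Field F] [Fintype F] {w : F} (hw : w ^ 2 + w + 1 = 0) (hF : Fintype.card F = 4)

/-- the quotient modulo the center -/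
abbrev pr (F : Type) [Field F] : G3 F →* G3 F ⧸ Subgroup.center (G3 F) := QuotientGroup.mk' (Subgroup.center (G3 F))

theorem pr_s0 : pr F (s0 w hw) = 1 := (QuotientGroup.eq_one_iff _).2 (s0_center hw)

theorem pr_g1_cube : pr F (g1 w hw) ^ 3 = 1 := by rw [← map_pow, g1_cube, map_one]

theorem pr_g2_cube : pr F g2 ^ 3 = 1 := by rw [← map_pow, g2_cube, map_one]

include hF in
theorem pr_g1_ne : pr F (g1 w hw) ≠ 1 := by
  intro h
  have h1 : g1 w hw ∈ Subgroup.center (G3 F) := (QuotientGroup.eq_one_iff _).1 h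
  exact g12_ne hw hF (Subgroup.mem_center_iff.1 h1 g2).symm

include hF in
theorem pr_g2_not_mem : pr F g2 ∉ Subgroup.zpowers (pr F (g1 w hw)) := by
  intro h
  obtain ⟨k, hk⟩ := Subgroup.mem_zpowers_iff.1 h
  rw [← map_zpow] at hk
  have h1 : (g1 w hw ^ k)⁻¹ * g2 ∈ Subgroup.center (G3 F) := QuotientGroup.eq.1 hk
  have h2 := Subgroup.mem_center_iff.1 h1 (g1 w hw)
  have h3 : Commute (g1 w hw) ((g1 w hw ^ k)⁻¹) := ((Commute.refl (g1 w hw)).zpow_right k).inv_right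
  have h4 : Commute (g1 w hw) ((g1 w hw ^ k)⁻¹ * g2) := h2
  have h5 : Commute (g1 w hw) (g1 w hw ^ k * ((g1 w hw ^ k)⁻¹ * g2)) :=
    ((Commute.refl (g1 w hw)).zpow_right k).mul_right h4
  rw [mul_inv_cancel_left] at h5
  exact g12_ne hw hF h5

theorem pr_comm : pr F (g1 w hw) * pr F g2 = pr F g2 * pr F (g1 w hw) := by
  rw [← map_mul, g12, map_mul, pr_s0, one_mul, map_mul]

theorem pr1 : pr F (gi w hw hF) * pr F (g1 w hw) * (pr F (gi w hw hF))⁻¹ = pr F g2 := by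
  rw [mul_inv_eq_iff_eq_mul, ← map_mul, ← map_mul, r1]

theorem pr2 : pr F (gi w hw hF) * pr F g2 * (pr F (gi w hw hF))⁻¹ = (pr F (g1 w hw))⁻¹ := by
  rw [mul_inv_eq_iff_eq_mul, eq_inv_mul_iff_mul_eq, ← map_mul, ← map_mul, r2]

theorem pr3 : pr F (gj w hw hF) * pr F (g1 w hw) * (pr F (gj w hw hF))⁻¹ = pr F (g1 w hw) * pr F g2 := by
  rw [mul_inv_eq_iff_eq_mul, ← map_mul, r3, map_mul, pr_s0, one_mul, map_mul, map_mul, mul_assoc]

theorem pr4 : pr F (gj w hw hF) * pr F g2 * (pr F (gj w hw hF))⁻¹ = pr F (g1 w hw) * (pr F g2)⁻¹ := by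
  have h : (pr F g2)⁻¹ = pr F g2 * pr F g2 := by
    rw [inv_eq_iff_mul_eq_one, ← mul_assoc, ← pow_three', pr_g2_cube]
  rw [h, mul_inv_eq_iff_eq_mul, ← map_mul, r4]
  simp only [map_mul, pr_s0, one_mul, mul_assoc]

theorem pr5 : pr F (gi w hw hF) ^ 4 = 1 := by
  have h : gi w hw hF ^ 4 = 1 := by
    rw [← i4 hw hF]
    simp only [pow_succ, pow_zero, one_mul, mul_assoc]
  rw [← map_pow, h, map_one]

theorem pr6 : pr F (gj w hw hF) ^ 2 = pr F (gi w hw hF) ^ 2 := by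
  rw [← map_pow, ← map_pow, pow_two, pow_two, jj]

theorem pr7 : pr F (gi w hw hF) * pr F (gj w hw hF) * (pr F (gi w hw hF))⁻¹ = (pr F (gj w hw hF))⁻¹ := by
  rw [mul_inv_eq_iff_eq_mul, eq_inv_mul_iff_mul_eq, ← map_mul, ← map_mul, ji]

theorem zz_mul : gi w hw hF * gi w hw hF * (gi w hw hF * gi w hw hF) = 1 := by
  have h := i4 hw hF
  rwa [← mul_assoc] at h

theorem zz_ne : gi w hw hF * gi w hw hF ≠ 1 := by
  intro h
  have h1 := congrArg (fun x : G3 F => x.1 1 1) h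
  have h2 : (gi w hw hF * gi w hw hF).1 1 1 = (1 : G3 F).1 1 1 := h1
  rw [ii, co_one, one_eq] at h2
  exact zero_ne_one h2

theorem orderOf_zz : orderOf (gi w hw hF * gi w hw hF) = 2 := by
  haveI : Fact (Nat.Prime 2) := ⟨Nat.prime_two⟩
  exact orderOf_eq_prime (by rw [pow_two]; exact zz_mul hw hF) (zz_ne hw hF)

end rel

/-- **(U)** -/
theorem rowU {F : Type} [Field F] [Fintype F] (hF : Fintype.card F = 4) : ∃ g1 g2 gi gj : G3 F,
    hact g1 (1 : M3 F) = 1 ∧ hact g2 (1 : M3 F) = 1 ∧ hact gi (1 : M3 F) = 1 ∧ hact gj (1 : M3 F) = 1 ∧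
    orderOf (gi * gi) = 2 ∧
    pr F g1 ^ 3 = 1 ∧ pr F g2 ^ 3 = 1 ∧ pr F g1 ≠ 1 ∧ pr F g2 ∉ Subgroup.zpowers (pr F g1) ∧
    pr F g1 * pr F g2 = pr F g2 * pr F g1 ∧
    pr F gi * pr F g1 * (pr F gi)⁻¹ = pr F g2 ∧
    pr F gi * pr F g2 * (pr F gi)⁻¹ = (pr F g1)⁻¹ ∧
    pr F gj * pr F g1 * (pr F gj)⁻¹ = pr F g1 * pr F g2 ∧
    pr F gj * pr F g2 * (pr F gj)⁻¹ = pr F g1 * (pr F g2)⁻¹ ∧
    pr F gi ^ 4 = 1 ∧ pr F gj ^ 2 = pr F gi ^ 2 ∧
    pr F gi * pr F gj * (pr F gi)⁻¹ = (pr F gj)⁻¹ := by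
  obtain ⟨w, hw⟩ := exists_omega hF
  exact ⟨g1 w hw, g2, gi w hw hF, gj w hw hF, mem_R_g1 hw hF, mem_R_g2 hF, mem_gi hw hF, mem_gj hw hF,
    orderOf_zz hw hF, pr_g1_cube hw, pr_g2_cube, pr_g1_ne hw hF, pr_g2_not_mem hw hF, pr_comm hw, pr1 hw hF,
    pr2 hw hF, pr3 hw hF, pr4 hw hF, pr5 hw hF, pr6 hw hF, pr7 hw hF⟩

/-! ### the subgroup `E` -/

section E

variable {F : Type} [Field F] [Fintype F] {w : F} (hw : w ^ 2 + w + 1 = 0) (hF : Fintype.card F = 4)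

/-- `E = 3¹⁺²` -/
def EE (w : F) (hw : w ^ 2 + w + 1 = 0) : Subgroup (G3 F) := Subgroup.closure {s0 w hw, g1 w hw, g2}

theorem s0_mem : s0 w hw ∈ EE w hw := Subgroup.subset_closure (by simp)

theorem g1_mem : g1 w hw ∈ EE w hw := Subgroup.subset_closure (by simp)

theorem g2_mem : g2 ∈ EE w hw := Subgroup.subset_closure (by simp)

theorem EE_le {T : Subgroup (G3 F)} (h0 : s0 w hw ∈ T) (h1 : g1 w hw ∈ T) (h2 : g2 ∈ T) : EE w hw ≤ T := by
  rw [EE, Subgroup.closure_le]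
  rintro x (rfl | rfl | rfl)
  · exact h0
  · exact h1
  · exact h2

theorem EE_odd : Odd (Nat.card (EE w hw)) := by
  haveI : Fact (Nat.Prime 3) := ⟨Nat.prime_three⟩
  have hz : ∀ g : G3 F, g ^ 3 = 1 → IsPGroup 3 (Subgroup.zpowers g) := by
    intro g hg
    rintro ⟨x, hx⟩
    obtain ⟨k, rfl⟩ := Subgroup.mem_zpowers_iff.1 hx
    refine ⟨1, ?_⟩
    apply Subtype.ext
    show (g ^ k) ^ (3 ^ 1) = 1
    rw [pow_one, ← zpow_natCast, ← _root_.zpow_mul, mul_comm, _root_.zpow_mul, zpow_natCast, hg, _root_.one_zpow]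
  haveI : (Subgroup.zpowers (s0 w hw)).Normal := by
    constructor
    intro x hx g
    obtain ⟨k, rfl⟩ := Subgroup.mem_zpowers_iff.1 hx
    have hc : s0 w hw ^ k ∈ Subgroup.center (G3 F) := Subgroup.zpow_mem _ (s0_center hw) k
    have h1 : g * s0 w hw ^ k * g⁻¹ = s0 w hw ^ k := by
      rw [Subgroup.mem_center_iff.1 hc g, mul_inv_cancel_right]
    rw [h1]
    exact hx
  set C2 := Subgroup.zpowers (s0 w hw) ⊔ Subgroup.zpowers (g1 w hw) with hC2
  have h2 : IsPGroup 3 C2 := (hz _ (s0_cube hw)).to_sup_of_normal_left (hz _ (g1_cube hw))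
  have e0 : s0 w hw ∈ C2 := (le_sup_left : _ ≤ C2) (Subgroup.mem_zpowers _)
  have e1 : g1 w hw ∈ C2 := (le_sup_right : _ ≤ C2) (Subgroup.mem_zpowers _)
  have key : ∀ x : G3 F, x * g1 w hw * x⁻¹ ∈ C2 → ∀ h ∈ C2, x * h * x⁻¹ ∈ C2 := by
    intro x hx h hh
    have h3 : C2 ≤ C2.comap (MulAut.conj x).toMonoidHom := by
      rw [hC2]
      refine sup_le ?_ ?_
      · rw [Subgroup.zpowers_le, ← hC2]
        show x * s0 w hw * x⁻¹ ∈ C2
        rw [← s0_comm, mul_inv_cancel_right]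
        exact e0
      · rw [Subgroup.zpowers_le, ← hC2]
        exact hx
    exact h3 hh
  have k1 : ∀ h ∈ C2, (g2 : G3 F) * h * g2⁻¹ ∈ C2 := by
    apply key
    have h4 : (g2 : G3 F) * g1 w hw * g2⁻¹ = (s0 w hw)⁻¹ * g1 w hw := by
      rw [eq_inv_mul_iff_mul_eq, ← mul_assoc, ← g12, mul_inv_cancel_right]
    rw [h4]
    exact C2.mul_mem (C2.inv_mem e0) e1
  have k2 : ∀ h ∈ C2, (g2 : G3 F)⁻¹ * h * g2⁻¹⁻¹ ∈ C2 := by
    apply key
    have h4 : (g2 : G3 F)⁻¹ * g1 w hw * g2⁻¹⁻¹ = s0 w hw * g1 w hw := by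
      rw [inv_inv, mul_assoc, g12, ← mul_assoc, ← s0_comm, mul_assoc, inv_mul_cancel_left]
    rw [h4]
    exact C2.mul_mem e0 e1
  have h3 : Subgroup.zpowers (g2 : G3 F) ≤ Subgroup.normalizer C2 := by
    rw [Subgroup.zpowers_le, Subgroup.mem_normalizer_iff]
    intro h
    refine ⟨fun hh => k1 h hh, fun hh => ?_⟩
    have h5 := k2 _ hh
    have h6 : (g2 : G3 F)⁻¹ * (g2 * h * g2⁻¹) * g2⁻¹⁻¹ = h := by group
    rwa [h6] at h5
  have h4 : IsPGroup 3 (C2 ⊔ Subgroup.zpowers g2 : Subgroup (G3 F)) := h2.to_sup_of_normal_left' (hz _ g2_cube) h3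
  have h5 : EE w hw ≤ C2 ⊔ Subgroup.zpowers g2 := by
    apply EE_le
    · exact (le_sup_left : C2 ≤ _) e0
    · exact (le_sup_left : C2 ≤ _) e1
    · exact (le_sup_right : Subgroup.zpowers g2 ≤ C2 ⊔ Subgroup.zpowers g2) (Subgroup.mem_zpowers _)
  obtain ⟨n, hn⟩ := IsPGroup.iff_card.1 (h4.to_le h5)
  rw [hn]
  exact Odd.pow (by decide)

/-- `E` is normalised by `z = i²` -/
theorem EE_conj : ∀ g ∈ EE w hw, (gi w hw hF * gi w hw hF) * g * (gi w hw hF * gi w hw hF)⁻¹ ∈ EE w hw := by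
  intro g hg
  have h3 : EE w hw ≤ (EE w hw).comap (MulAut.conj (gi w hw hF * gi w hw hF)).toMonoidHom := by
    apply EE_le
    · show gi w hw hF * gi w hw hF * s0 w hw * (gi w hw hF * gi w hw hF)⁻¹ ∈ EE w hw
      rw [← s0_comm, mul_inv_cancel_right]
      exact s0_mem hw
    · show gi w hw hF * gi w hw hF * g1 w hw * (gi w hw hF * gi w hw hF)⁻¹ ∈ EE w hw
      have h4 : gi w hw hF * gi w hw hF * g1 w hw * (gi w hw hF * gi w hw hF)⁻¹ = g1 w hw * g1 w hw := by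
        rw [mul_inv_eq_iff_eq_mul, mul_assoc (gi w hw hF), z1, mul_assoc]
      rw [h4]
      exact (EE w hw).mul_mem (g1_mem hw) (g1_mem hw)
    · show gi w hw hF * gi w hw hF * g2 * (gi w hw hF * gi w hw hF)⁻¹ ∈ EE w hw
      have h4 : gi w hw hF * gi w hw hF * g2 * (gi w hw hF * gi w hw hF)⁻¹ = g2 * g2 := by
        rw [mul_inv_eq_iff_eq_mul, mul_assoc (gi w hw hF), z2, mul_assoc]
      rw [h4]
      exact (EE w hw).mul_mem (g2_mem hw) (g2_mem hw)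
  exact h3 hg

variable {V : Type} [AddCommGroup V] [Module (ZMod 2) V] {ρ : Representation (ZMod 2) (G3 F) V}

theorem rm (g h : G3 F) (x : V) : ρ g (ρ h x) = ρ (g * h) x := by
  rw [map_mul]
  rfl

/-- fixed vectors of `E` -/
theorem mem_VE_iff (hc : CT ρ) {x : V} : x ∈ VE ρ (EE w hw) ↔ ρ (g1 w hw) x = x ∧ ρ g2 x = x := by
  rw [mem_VE]
  constructor
  · intro h
    exact ⟨h _ (g1_mem hw), h _ (g2_mem hw)⟩
  · rintro ⟨t1, t2⟩
    let T : Subgroup (G3 F) :=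
      { carrier := {g | ρ g x = x}
        one_mem' := by
          show ρ 1 x = x
          rw [map_one]
          rfl
        mul_mem' := by
          intro g h hg hh
          show ρ (g * h) x = x
          have hg' : ρ g x = x := hg
          have hh' : ρ h x = x := hh
          rw [map_mul, Module.End.mul_apply, hh', hg']
        inv_mem' := by
          intro g hg
          have hg' : ρ g x = x := hg
          show ρ g⁻¹ x = x
          have h5 : ρ g⁻¹ (ρ g x) = x := by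
            rw [← Module.End.mul_apply, ← map_mul, inv_mul_cancel, map_one]
            rfl
          rwa [hg'] at h5 }
    have hT : EE w hw ≤ T := EE_le hw (hc _ (s0_center hw) _) t1 t2
    exact fun g hg => hT hg

theorem gi_VE (hc : CT ρ) {x : V} (h1 : ρ (g1 w hw) x = x) (h2 : ρ g2 x = x) :
    ρ (g1 w hw) (ρ (gi w hw hF) x) = ρ (gi w hw hF) x ∧ ρ g2 (ρ (gi w hw hF) x) = ρ (gi w hw hF) x := by
  constructor
  · conv_lhs => rw [← h2]
    rw [rm, rm, mul_assoc, r2]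
  · conv_lhs => rw [← h1, ← h1]
    rw [rm, rm, rm, mul_assoc, mul_assoc, a2]

theorem gj_VE (hc : CT ρ) {x : V} (h1 : ρ (g1 w hw) x = x) (h2 : ρ g2 x = x) :
    ρ (g1 w hw) (ρ (gj w hw hF) x) = ρ (gj w hw hF) x ∧ ρ g2 (ρ (gj w hw hF) x) = ρ (gj w hw hF) x := by
  have hs : ∀ y : V, ρ (s0 w hw) y = y := fun y => hc _ (s0_center hw) y
  constructor
  · have h3 : ρ (g1 w hw) (ρ g2 x) = x := by rw [h2, h1]
    conv_lhs => rw [← h3]
    rw [rm, rm, rm, mul_assoc, mul_assoc, a3, ← rm, ← rm, hs, hs]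
  · have h3 : ρ (g1 w hw) (ρ g2 (ρ g2 x)) = x := by rw [h2, h2, h1]
    conv_lhs => rw [← h3]
    rw [rm, rm, rm, rm, mul_assoc, mul_assoc, mul_assoc, a4, ← rm, hs]

end E

end Cfsg.Agent.H904.L34.Unit
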