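import Cfsg.Agent.H904.L34.Unit

/-!
# S5917, part I (helper904): row (U2), `trace_zero` without hypotheses
-/

set_option autoImplicit false
set_option linter.unusedSectionVars false
set_option linter.unusedVariables false

namespace Cfsg.Agent.H904.L34.Unit

open Matrix Cfsg.Agent.H691.L34 Cfsg.Agent.H904.L34 Module

section

variable {F : Type} [Field F] [Fintype F] {V : Type} [AddCommGroup V] [Module (ZMod 2) V] [Module.Finite (ZMod 2) V]
  {ρ : Representation (ZMod 2) (G3 F) V}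

/-- **The fixed space of `E` on an invariant subspace.** -/
theorem dims_EE {w : F} (hw : w ^ 2 + w + 1 = 0) (hF : Fintype.card F = 4) (hc : CT ρ) {W : Submodule (ZMod 2) V}
    (hW : ∀ g, ∀ w ∈ W, ρ g w ∈ W) {n n3 n5 n7 : ℕ} (hd : Dims ρ W n n3 n5 n7) :
    n + 3 * finrank (ZMod 2) (VE ρ (EE w hw) ⊓ W : Submodule (ZMod 2) V) = 4 * n3 := by
  have hne := g12_ne hw hF
  -- non-central elements of order 3
  have hdim : ∀ g : G3 F, g ^ 3 = 1 → g ∉ Subgroup.center (G3 F) →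
      finrank (ZMod 2) (W ⊓ LinearMap.ker (ρ g - LinearMap.id) : Submodule (ZMod 2) V) = n3 := by
    intro g hg hgc
    haveI : Fact (Nat.Prime 3) := ⟨Nat.prime_three⟩
    refine hd.2.1 g (orderOf_eq_prime hg ?_) hgc
    rintro rfl
    exact hgc (Subgroup.one_mem _)
  have c1 : g1 w hw ∉ Subgroup.center (G3 F) := fun h => hne (Subgroup.mem_center_iff.1 h g2).symm
  have c2 : (g2 : G3 F) ∉ Subgroup.center (G3 F) := fun h => hne (Subgroup.mem_center_iff.1 h (g1 w hw))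
  have c3 : g1 w hw * g2 ∉ Subgroup.center (G3 F) := by
    intro h
    have h1 := Subgroup.mem_center_iff.1 h (g1 w hw)
    rw [mul_assoc] at h1
    exact hne (mul_left_cancel h1)
  have c4 : g1 w hw * g2 ^ 2 ∉ Subgroup.center (G3 F) := by
    intro h
    have h1 := Subgroup.mem_center_iff.1 h (g1 w hw)
    rw [mul_assoc] at h1
    have h2 : Commute (g1 w hw) (g2 ^ 2) := mul_left_cancel h1
    have h3 : Commute (g1 w hw) ((g2 ^ 2) ^ 2) := h2.pow_right 2
    have h4 : ((g2 : G3 F) ^ 2) ^ 2 = g2 := by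
      rw [← pow_mul]
      have : (g2 : G3 F) ^ (2 * 2) = g2 ^ 3 * g2 := by rw [← pow_succ]
      rw [this, g2_cube, one_mul]
    rw [h4] at h3
    exact hne h3
  let a : Module.End (ZMod 2) W := (ρ (g1 w hw)).restrict (hW _)
  let b : Module.End (ZMod 2) W := (ρ g2).restrict (hW _)
  have hmulr : ∀ g h : G3 F, ((ρ g).restrict (hW g) : Module.End (ZMod 2) W) * (ρ h).restrict (hW h) =
      (ρ (g * h)).restrict (hW (g * h)) := by
    intro g h
    apply LinearMap.ext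
    intro x
    apply Subtype.ext
    show ρ g (ρ h x.1) = ρ (g * h) x.1
    rw [map_mul]
    rfl
  have honer : ((ρ (1 : G3 F)).restrict (hW 1) : Module.End (ZMod 2) W) = 1 := by
    apply LinearMap.ext
    intro x
    apply Subtype.ext
    show ρ 1 x.1 = x.1
    rw [map_one]
    rfl
  have hpowr : ∀ (g : G3 F) (k : ℕ), ((ρ g).restrict (hW g) : Module.End (ZMod 2) W) ^ k =
      (ρ (g ^ k)).restrict (hW (g ^ k)) := by
    intro g k
    induction k with
    | zero =>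
      rw [pow_zero, ← honer]
      congr 2
    | succ k ih => rw [pow_succ, ih, hmulr, ← pow_succ]
  have hreq : ∀ {g h : G3 F}, g = h → ((ρ g).restrict (hW g) : Module.End (ZMod 2) W) = (ρ h).restrict (hW h) := by
    rintro g _ rfl; rfl
  have hcube : ∀ g : G3 F, g ^ 3 = 1 → ((ρ g).restrict (hW g) : Module.End (ZMod 2) W) ^ 3 = 1 := by
    intro g hg
    rw [hpowr, hreq hg, honer]
  have hab : a * b = b * a := by
    show ((ρ (g1 w hw)).restrict (hW _) : Module.End (ZMod 2) W) * (ρ g2).restrict (hW _) =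
      (ρ g2).restrict (hW _) * (ρ (g1 w hw)).restrict (hW _)
    rw [hmulr, hmulr, hreq (g12 hw)]
    apply LinearMap.ext
    intro x
    apply Subtype.ext
    show ρ (s0 w hw * (g2 * g1 w hw)) x.1 = ρ (g2 * g1 w hw) x.1
    rw [map_mul]
    exact hc _ (s0_center hw) _
  have h3 := finrank_three (K := ZMod 2) (V := W) rfl hab (hcube _ (g1_cube hw)) (hcube _ g2_cube)
  have k1 : finrank (ZMod 2) (LinearMap.ker (a - 1)) = n3 := (finrank_restrict _ _).trans (hdim _ (g1_cube hw) c1)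
  have k2 : finrank (ZMod 2) (LinearMap.ker (b - 1)) = n3 := (finrank_restrict _ _).trans (hdim _ g2_cube c2)
  have k3 : finrank (ZMod 2) (LinearMap.ker (a * b - 1)) = n3 := by
    have h4 : a * b = (ρ (g1 w hw * g2)).restrict (hW _) := hmulr _ _
    rw [h4]
    exact (finrank_restrict _ _).trans (hdim _ (c12 hw hF) c3)
  have k4 : finrank (ZMod 2) (LinearMap.ker (a * b ^ 2 - 1)) = n3 := by
    have h4 : a * b ^ 2 = (ρ (g1 w hw * g2 ^ 2)).restrict (hW _) := by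
      show ((ρ (g1 w hw)).restrict (hW _) : Module.End (ZMod 2) W) * ((ρ g2).restrict (hW _)) ^ 2 = _
      rw [hpowr, hmulr]
    rw [h4]
    exact (finrank_restrict _ _).trans (hdim _ (c122 hw hF) c4)
  have k5 : (LinearMap.ker (a - 1) ⊓ LinearMap.ker (b - 1)).map W.subtype = VE ρ (EE w hw) ⊓ W := by
    ext v
    constructor
    · rintro ⟨x, ⟨hx1, hx2⟩, rfl⟩
      refine ⟨?_, x.2⟩
      have t1 : ρ (g1 w hw) x.1 = x.1 := by
        have : a x - x = 0 := hx1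
        exact congrArg Subtype.val (sub_eq_zero.1 this)
      have t2 : ρ g2 x.1 = x.1 := by
        have : b x - x = 0 := hx2
        exact congrArg Subtype.val (sub_eq_zero.1 this)
      exact (mem_VE_iff hw hc).2 ⟨t1, t2⟩
    · rintro ⟨hv1, hv2⟩
      have hv1' : v ∈ VE ρ (EE w hw) := hv1
      rw [mem_VE_iff hw hc] at hv1'
      refine ⟨⟨v, hv2⟩, ⟨?_, ?_⟩, rfl⟩
      · show a ⟨v, hv2⟩ - ⟨v, hv2⟩ = 0
        rw [sub_eq_zero]
        exact Subtype.ext hv1'.1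
      · show b ⟨v, hv2⟩ - ⟨v, hv2⟩ = 0
        rw [sub_eq_zero]
        exact Subtype.ext hv1'.2
  rw [← k5, Submodule.finrank_map_subtype_eq]
  rw [k1, k2, k3, k4] at h3
  have hn : finrank (ZMod 2) W = n := hd.1
  omega

end

section main

variable {F : Type} [Field F] [Fintype F]

/-- **The dimensions of every module, with the rank of an involution on the fixed space of `E`.** -/
theorem main' {w : F} (hw : w ^ 2 + w + 1 = 0) (hF : Fintype.card F = 4) {z : G3 F} (hz : z * z = 1) (hz1 : z ≠ 1)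
    (hzE : ∀ g ∈ EE w hw, z * g * z⁻¹ ∈ EE w hw) : ∀ (n : ℕ) (V : Type) [AddCommGroup V] [Module (ZMod 2) V]
    [Module.Finite (ZMod 2) V] (ρ : Representation (ZMod 2) (G3 F) V), finrank (ZMod 2) V ≤ n → CT ρ →
    ∃ a b c d : ℕ, Dims ρ ⊤ (a + 16 * b + 9 * c + 64 * d) (a + 4 * b + 3 * c + 22 * d) (a + 4 * b + c + 12 * d)
      (a + 4 * b + 10 * d) ∧ 4 * d ≤ finrank (ZMod 2) ((VE ρ (EE w hw)).map (ρ z - LinearMap.id)) := by
  intro n
  induction n with
  | zero =>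
    intro V _ _ _ ρ hn _
    have h0 : ∀ X : Submodule (ZMod 2) V, finrank (ZMod 2) X = 0 := fun X =>
      Nat.le_zero.1 ((Submodule.finrank_le X).trans hn)
    exact ⟨0, 0, 0, 0, ⟨h0 _, fun g _ _ => h0 _, fun g _ => h0 _, fun g _ => h0 _⟩, Nat.zero_le _⟩
  | succ n ih =>
    intro V _ _ _ ρ hn hc
    rcases Nat.eq_zero_or_pos (finrank (ZMod 2) V) with hzero | hpos
    · have h0 : ∀ X : Submodule (ZMod 2) V, finrank (ZMod 2) X = 0 := fun X =>
        Nat.le_zero.1 ((Submodule.finrank_le X).trans hzero.le)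
      exact ⟨0, 0, 0, 0, ⟨h0 _, fun g _ _ => h0 _, fun g _ => h0 _, fun g _ => h0 _⟩, Nat.zero_le _⟩
    · haveI : Nontrivial V := Module.finrank_pos_iff.1 hpos
      obtain ⟨W, hs⟩ := exists_simp (ρ := ρ)
      have hW : ∀ g, ∀ w ∈ W, ρ g w ∈ W := hs.1
      have hW' : ∀ g, W ≤ W.comap (ρ g) := fun g w hw => hW g w hw
      have hWpos : 0 < finrank (ZMod 2) W := by
        rw [Nat.pos_iff_ne_zero]
        intro h
        exact hs.2.1 (Submodule.finrank_eq_zero.1 h)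
      have hq := Submodule.finrank_quotient_add_finrank W
      obtain ⟨a, b, c, d, hd, hr⟩ := ih (V ⧸ W) (ρ.quotient W hW') (by omega) (CT_quotient hc W hW')
      have hsup := rank_super ρ (EE_odd hw) W hW' z
      rcases H482.LF.simp_cases hF hc hs with h | h | h | h | h
      · have hdW := dims_trivial h (finrank_of_simp_trivial hs h)
        refine ⟨a + 1, b, c, d, ?_, by omega⟩
        have h3 := dims_add W hW' hdW hd
        convert h3 using 1 <;> ring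
      · refine ⟨a, b, c + 1, d, ?_, by omega⟩
        have h3 := dims_add W hW' (H360.L34.nine_dims hF h) hd
        convert h3 using 1 <;> ring
      · refine ⟨a, b, c + 1, d, ?_, by omega⟩
        have h3 := dims_add W hW' (H360.L34.nine_dims hF h) hd
        convert h3 using 1 <;> ring
      · refine ⟨a, b + 1, c, d, ?_, by omega⟩
        have h3 := dims_add W hW' h hd
        convert h3 using 1 <;> ring
      · have h3 := dims_add W hW' h.1 hd
        have h4 := dims_EE hw hF hc hW h.1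
        have h5 := rank_free ρ (EE_odd hw) W hW hzE (fun x hx hzx => free_64 hF hW h hz hz1 hx hzx)
        refine ⟨a, b, c, d + 1, ?_, by omega⟩
        convert h3 using 1 <;> ring

end main

section trace

variable {F : Type} [Field F] [Fintype F] {V : Type} [AddCommGroup V] [Module (ZMod 2) V] [Module.Finite (ZMod 2) V]
  {ρ : Representation (ZMod 2) (G3 F) V}

/-- the zero lemma -/
theorem zero_of_mem {w : F} (hw : w ^ 2 + w + 1 = 0) (hF : Fintype.card F = 4) (hc : CT ρ) {n5 n7 : ℕ}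
    (hn5 : n5 = 68 ∨ n5 = 48) (hn7 : n7 = 80 ∨ n7 = 38)
    (hd : Dims ρ (⊤ : Submodule (ZMod 2) V) 248 86 n5 n7)
    (h20 : Module.finrank (ZMod 2) (LinearMap.ker (ρ (g1 w hw) - LinearMap.id) ⊓ LinearMap.ker (ρ g2 - LinearMap.id) ⊓
      LinearMap.ker (ρ (gi w hw hF * gi w hw hF) - LinearMap.id) : Submodule (ZMod 2) V) = 20)
    {v : V} (hv : (∃ b W, IsNine ρ b W ∧ v ∈ W) ∨ v ∈ fixAll ρ)
    (him : v ∈ (VE ρ (EE w hw)).map (ρ (gi w hw hF * gi w hw hF) - LinearMap.id)) : v = 0 := by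
  classical
  have hVE : VE ρ (EE w hw) = LinearMap.ker (ρ (g1 w hw) - LinearMap.id) ⊓ LinearMap.ker (ρ g2 - LinearMap.id) := by
    ext x
    rw [mem_VE_iff hw hc, Submodule.mem_inf, LinearMap.mem_ker, LinearMap.mem_ker, LinearMap.sub_apply,
      LinearMap.sub_apply, LinearMap.id_apply, sub_eq_zero, sub_eq_zero]
  rw [← hVE] at h20
  set z : G3 F := gi w hw hF * gi w hw hF with hzdef
  have hzz : z * z = 1 := zz_mul hw hF
  have hz1 : z ≠ 1 := zz_ne hw hF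
  have hzE : ∀ g ∈ EE w hw, z * g * z⁻¹ ∈ EE w hw := EE_conj hw hF
  -- the rank is 12
  have h32 := dims_EE hw hF hc (W := ⊤) (fun _ _ _ => Submodule.mem_top) hd
  rw [inf_top_eq] at h32
  have hrk := finrank_map_add (ρ z - LinearMap.id) (VE ρ (EE w hw))
  have h20' : finrank (ZMod 2) (VE ρ (EE w hw) ⊓ LinearMap.ker (ρ z - LinearMap.id) : Submodule (ZMod 2) V) = 20 := h20
  by_contra hv0
  -- an invariant subspace `A` containing `v` without Steinberg factors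
  obtain ⟨A, m, m3, m5, m7, hA, hvA, hdA, hm⟩ : ∃ (A : Submodule (ZMod 2) V) (m m3 m5 m7 : ℕ),
      (∀ g, ∀ w ∈ A, ρ g w ∈ A) ∧ v ∈ A ∧ Dims ρ A m m3 m5 m7 ∧
      ((m = 9 ∧ m3 = 3 ∧ m5 = 1 ∧ m7 = 0) ∨ (m = 1 ∧ m3 = 1 ∧ m5 = 1 ∧ m7 = 1)) := by
    rcases hv with ⟨b, W, hW, hvW⟩ | hv
    · refine ⟨W, 9, 3, 1, 0, ?_, hvW, H360.L34.nine_dims hF hW, Or.inl ⟨rfl, rfl, rfl, rfl⟩⟩
      obtain ⟨φ, -, -, h3, h4⟩ := hW
      intro g w hw
      obtain ⟨X, hX, rfl⟩ := (h3 w).1 hw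
      rw [h4 g X hX]
      refine (h3 _).2 ⟨_, ?_, rfl⟩
      -- the action preserves hermitian matrices
      have h5 : ∀ Y : M3 F, ct (ct Y) = Y := by
        intro Y
        ext i j
        show ((Y i j) ^ 2) ^ 2 = Y i j
        rw [← pow_mul]
        exact pow_four hF _
      show ct (hact (tw b g) X) = hact (tw b g) X
      have hX' : ct X = X := hX
      rw [hact_def, ct_mul hF, ct_mul hF, h5, hX', Matrix.mul_assoc]
    · have hv' : ∀ g, ρ g v = v := hv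
      have htr : ∀ x ∈ Submodule.span (ZMod 2) {v}, ∀ g, ρ g x = x := by
        intro x hx g
        obtain ⟨c, rfl⟩ := Submodule.mem_span_singleton.1 hx
        rw [map_smul, hv' g]
      refine ⟨Submodule.span (ZMod 2) {v}, 1, 1, 1, 1, ?_, Submodule.mem_span_singleton_self v,
        dims_trivial htr (finrank_span_singleton hv0), Or.inr ⟨rfl, rfl, rfl, rfl⟩⟩
      intro g w hw
      rw [htr w hw g]
      exact hw
  have hA' : ∀ g, A ≤ A.comap (ρ g) := fun g w hw => hA g w hw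
  obtain ⟨a, b, c, d, hdq, hr⟩ := main' hw hF hzz hz1 hzE _ (V ⧸ A) (ρ.quotient A hA') le_rfl (CT_quotient hc A hA')
  have hall := dims_add A hA' hdA hdq
  -- elements of orders 3, 5, 7
  haveI : Fact (Nat.Prime 3) := ⟨Nat.prime_three⟩
  haveI : Fact (Nat.Prime 5) := ⟨Nat.prime_five⟩
  haveI : Fact (Nat.Prime 7) := ⟨by norm_num⟩
  have e1 : orderOf (g1 w hw) = 3 := by
    apply orderOf_eq_prime (g1_cube hw)
    intro h1
    have h2 := g12_ne hw hF
    rw [h1, one_mul, mul_one] at h2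
    exact h2 rfl
  have c1 : g1 w hw ∉ Subgroup.center (G3 F) := fun h => g12_ne hw hF (Subgroup.mem_center_iff.1 h g2).symm
  obtain ⟨x5, hx5⟩ := exists_prime_orderOf_dvd_card' (G := G3 F) 5 (by rw [card_G3 hF]; norm_num)
  obtain ⟨x7, hx7⟩ := exists_prime_orderOf_dvd_card' (G := G3 F) 7 (by rw [card_G3 hF]; norm_num)
  have q0 := hd.1.symm.trans hall.1
  have q3 := (hd.2.1 _ e1 c1).symm.trans (hall.2.1 _ e1 c1)
  have q5 := (hd.2.2.1 _ hx5).symm.trans (hall.2.2.1 _ hx5)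
  have q7 := (hd.2.2.2 _ hx7).symm.trans (hall.2.2.2 _ hx7)
  have hd3 : d = 3 := by
    rcases hm with ⟨rfl, rfl, rfl, rfl⟩ | ⟨rfl, rfl, rfl, rfl⟩ <;> omega
  have hbot := inf_eq_bot_of_rank ρ (EE_odd hw) A hA' z (by omega)
  apply hv0
  have : v ∈ (VE ρ (EE w hw)).map (ρ z - LinearMap.id) ⊓ A := ⟨him, hvA⟩
  rwa [hbot, Submodule.mem_bot] at this


/-- **(U2)** `trace_zero` for the sum over `Q₈` -/
theorem trace_zero_unit {w : F} (hw : w ^ 2 + w + 1 = 0) (hF : Fintype.card F = 4) (hc : CT ρ) {n5 n7 : ℕ}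
    (hn5 : n5 = 68 ∨ n5 = 48) (hn7 : n7 = 80 ∨ n7 = 38)
    (hd : Dims ρ (⊤ : Submodule (ZMod 2) V) 248 86 n5 n7)
    (h20 : Module.finrank (ZMod 2) (LinearMap.ker (ρ (g1 w hw) - LinearMap.id) ⊓ LinearMap.ker (ρ g2 - LinearMap.id) ⊓
      LinearMap.ker (ρ (gi w hw hF * gi w hw hF) - LinearMap.id) : Submodule (ZMod 2) V) = 20)
    {v : V} (hv : (∃ b W, IsNine ρ b W ∧ v ∈ W) ∨ v ∈ fixAll ρ) {u s : V} (h1 : ρ (g1 w hw) u = u) (h2 : ρ g2 u = u)
    (hs : s = u + ρ (gi w hw hF) u + ρ (gi w hw hF * gi w hw hF) u + ρ (gi w hw hF * gi w hw hF * gi w hw hF) u)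
    (h : v = s + ρ (gj w hw hF) s) : v = 0 := by
  apply zero_of_mem hw hF hc hn5 hn7 hd h20 hv
  have hneg : ∀ x : V, -x = x := by
    intro x
    have h4 := odd_smul (n := 3) (by decide) x
    have h5 : (3 : ℕ) • x = x + x + x := by rw [succ_nsmul, two_nsmul]
    rw [h5] at h4
    exact neg_eq_of_add_eq_zero_left (add_eq_right.1 h4)
  have hi := gi_VE hw hF hc h1 h2
  have hj := gj_VE hw hF hc h1 h2
  have hji := gj_VE hw hF hc hi.1 hi.2
  have m0 := (mem_VE_iff hw hc).2 ⟨h1, h2⟩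
  have m1 := (mem_VE_iff hw hc).2 hi
  have m2 := (mem_VE_iff hw hc).2 hj
  have m3 := (mem_VE_iff hw hc).2 hji
  refine ⟨u + ρ (gi w hw hF) u + ρ (gj w hw hF) u + ρ (gj w hw hF) (ρ (gi w hw hF) u),
    Submodule.add_mem _ (Submodule.add_mem _ (Submodule.add_mem _ m0 m1) m2) m3, ?_⟩
  have hz : ∀ x : V, ρ (gj w hw hF) (ρ (gi w hw hF * gi w hw hF) x) =
      ρ (gi w hw hF * gi w hw hF) (ρ (gj w hw hF) x) := by
    intro x
    rw [rm, rm, ← jj, mul_assoc]
  have e3 : ρ (gi w hw hF * gi w hw hF * gi w hw hF) u = ρ (gi w hw hF * gi w hw hF) (ρ (gi w hw hF) u) := (rm _ _ _).symm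
  rw [LinearMap.sub_apply, LinearMap.id_apply, sub_eq_add_neg, hneg, h, hs, e3]
  simp only [map_add, hz]
  abel

/-- unitary elements: the inverse transpose is unitary -/
theorem hact_it (hF : Fintype.card F = 4) {g : G3 F} (hg : hact g (1 : M3 F) = 1) : hact (it g) (1 : M3 F) = 1 := by
  have h1 : hact g⁻¹ (1 : M3 F) = 1 := (RR hF).inv_mem hg
  rw [hact_def, Matrix.mul_one] at h1
  have h2 : ct (g⁻¹ : G3 F).1 * (g⁻¹ : G3 F).1 = 1 := mul_eq_one_comm.1 h1
  rw [hact_def, Matrix.mul_one]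
  show (g⁻¹ : G3 F).1.transpose * ct ((g⁻¹ : G3 F).1.transpose) = 1
  have h3 : ct ((g⁻¹ : G3 F).1.transpose) = (ct (g⁻¹ : G3 F).1).transpose := rfl
  rw [h3, ← Matrix.transpose_mul, h2, Matrix.transpose_one]

theorem hact_tw (hF : Fintype.card F = 4) (b : Bool) {g : G3 F} (hg : hact g (1 : M3 F) = 1) :
    hact (tw b g) (1 : M3 F) = 1 := by
  cases b
  · exact hg
  · exact hact_it hF hg

/-- **(U3)** the unitary group fixes `φ 1` -/
theorem fix_one (hF : Fintype.card F = 4) {b : Bool} {φ : M3 F → V}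
    (hφ : ∀ (g : G3 F) X, HF X → ρ g (φ X) = φ (hact (tw b g) X)) {g : G3 F} (hg : hact g (1 : M3 F) = 1) :
    ρ g (φ 1) = φ 1 := by
  rw [hφ g 1 ct_one, hact_tw hF b hg]

/-- the unitary group fixes a non-zero vector of a nine -/
theorem exists_fixed (hF : Fintype.card F = 4) {b : Bool} {W : Submodule (ZMod 2) V} (hW : IsNine ρ b W) :
    ∃ v ∈ W, v ≠ 0 ∧ ∀ g : G3 F, hact g (1 : M3 F) = 1 → ρ g v = v := by
  obtain ⟨φ, -, h2, h3, h4⟩ := hW
  refine ⟨φ 1, (h3 _).2 ⟨1, ct_one, rfl⟩, ?_, fun g hg => fix_one hF h4 hg⟩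
  intro h
  exact one_ne_zero (h2 1 ct_one h)

end trace

/-- **(U) + (U2)**, bundled -/
theorem rowU2 {F : Type} [Field F] [Fintype F] (hF : Fintype.card F = 4) : ∃ g1 g2 gi gj : G3 F,
    (hact g1 (1 : M3 F) = 1 ∧ hact g2 (1 : M3 F) = 1 ∧ hact gi (1 : M3 F) = 1 ∧ hact gj (1 : M3 F) = 1 ∧
    orderOf (gi * gi) = 2 ∧
    pr F g1 ^ 3 = 1 ∧ pr F g2 ^ 3 = 1 ∧ pr F g1 ≠ 1 ∧ pr F g2 ∉ Subgroup.zpowers (pr F g1) ∧
    pr F g1 * pr F g2 = pr F g2 * pr F g1 ∧
    pr F gi * pr F g1 * (pr F gi)⁻¹ = pr F g2 ∧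
    pr F gi * pr F g2 * (pr F gi)⁻¹ = (pr F g1)⁻¹ ∧
    pr F gj * pr F g1 * (pr F gj)⁻¹ = pr F g1 * pr F g2 ∧
    pr F gj * pr F g2 * (pr F gj)⁻¹ = pr F g1 * (pr F g2)⁻¹ ∧
    pr F gi ^ 4 = 1 ∧ pr F gj ^ 2 = pr F gi ^ 2 ∧
    pr F gi * pr F gj * (pr F gi)⁻¹ = (pr F gj)⁻¹) ∧
    ∀ (V : Type) [AddCommGroup V] [Module (ZMod 2) V] [Module.Finite (ZMod 2) V]
      (ρ : Representation (ZMod 2) (G3 F) V) (_ : CT ρ) (n5 n7 : ℕ) (_ : n5 = 68 ∨ n5 = 48) (_ : n7 = 80 ∨ n7 = 38)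
      (_ : Dims ρ (⊤ : Submodule (ZMod 2) V) 248 86 n5 n7)
      (_ : Module.finrank (ZMod 2) (LinearMap.ker (ρ g1 - LinearMap.id) ⊓ LinearMap.ker (ρ g2 - LinearMap.id) ⊓
        LinearMap.ker (ρ (gi * gi) - LinearMap.id) : Submodule (ZMod 2) V) = 20)
      (v : V) (_ : (∃ b W, IsNine ρ b W ∧ v ∈ W) ∨ v ∈ fixAll ρ) (u s : V) (_ : ρ g1 u = u) (_ : ρ g2 u = u)
      (_ : s = u + ρ gi u + ρ (gi * gi) u + ρ (gi * gi * gi) u) (_ : v = s + ρ gj s), v = 0 := by
  obtain ⟨w, hw⟩ := exists_omega hF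
  exact ⟨g1 w hw, g2, gi w hw hF, gj w hw hF, ⟨mem_R_g1 hw hF, mem_R_g2 hF, mem_gi hw hF, mem_gj hw hF,
    orderOf_zz hw hF, pr_g1_cube hw, pr_g2_cube, pr_g1_ne hw hF, pr_g2_not_mem hw hF, pr_comm hw, pr1 hw hF,
    pr2 hw hF, pr3 hw hF, pr4 hw hF, pr5 hw hF, pr6 hw hF, pr7 hw hF⟩,
    fun V _ _ _ ρ hc n5 n7 hn5 hn7 hd h20 v hv u s h1 h2 hs h =>
      trace_zero_unit hw hF hc hn5 hn7 hd h20 hv h1 h2 hs h⟩

end Cfsg.Agent.H904.L34.Unit
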