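import Cfsg.Agent.H904.L34.Tr8
import Cfsg.Agent.H955.L34.Gen550

/-!
# S5917, part I (helper904): (U2) and (S5) for helper550's matrices `gD`, `gP`, `gW`, `gJ`
-/

set_option autoImplicit false
set_option linter.unusedSectionVars false
set_option linter.unusedVariables false

namespace Cfsg.Agent.H904.L34.Uq

open Matrix Cfsg.Agent.H691.L34 Cfsg.Agent.H904.L34 Cfsg.Agent.H904.L34.Unit Module Cfsg.Agent.H550.L34
open Cfsg.Agent.H955.L34.Gen (om_w)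

variable {F : Type} [Field F] [Fintype F] {ω : F}

theorem eq_D (h : Om ω) : g1 (ω + 1) (om_w h) = gD h * gD h := by
  apply Subtype.ext
  rw [co_mul]
  show (!![1, 0, 0; 0, ω + 1, 0; 0, 0, (ω + 1) ^ 2] : M3 F) =
    !![1, 0, 0; 0, ω, 0; 0, 0, ω + 1] * !![1, 0, 0; 0, ω, 0; 0, 0, ω + 1]
  rw [mulM]
  refine eqM ?_ ?_ ?_ ?_ ?_ ?_ ?_ ?_ ?_ <;> first | ring1 | linear_combination -h.eq | linear_combination h.eq

theorem eq_P (h : Om ω) : (g2 : G3 F) = gP h * gP h := by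
  apply Subtype.ext
  rw [co_mul]
  show (!![0, 0, 1; 1, 0, 0; 0, 1, 0] : M3 F) =
    !![0, 1, 0; 0, 0, 1; 1, 0, 0] * !![0, 1, 0; 0, 0, 1; 1, 0, 0]
  rw [mulM]
  refine eqM ?_ ?_ ?_ ?_ ?_ ?_ ?_ ?_ ?_ <;> ring

theorem eq_W (h : Om ω) (hF : Fintype.card F = 4) : gi (ω + 1) (om_w h) hF = gW h := by
  apply Subtype.ext
  show (!![1, 1, 1; 1, (ω + 1) ^ 2, (ω + 1); 1, (ω + 1), (ω + 1) ^ 2] : M3 F) = !![1, 1, 1; 1, ω, ω + 1; 1, ω + 1, ω]
  rw [Cfsg.Agent.H955.L34.Gen.om_sq h]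

theorem eq_J (h : Om ω) (hF : Fintype.card F = 4) : gj (ω + 1) (om_w h) hF = gJ h := by
  apply Subtype.ext
  show (!![1, (ω + 1), (ω + 1); (ω + 1) ^ 2, (ω + 1) ^ 2, (ω + 1); (ω + 1) ^ 2, (ω + 1), (ω + 1) ^ 2] : M3 F) =
    !![1, ω + 1, ω + 1; ω, ω, ω + 1; ω, ω + 1, ω]
  rw [Cfsg.Agent.H955.L34.Gen.om_sq h]

/-- the quaternion relations -/
theorem qrelWJ (h : Om ω) (hF : Fintype.card F = 4) : QRel (gW h) (gJ h) := by
  rw [← eq_W h hF, ← eq_J h hF]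
  exact qrel (om_w h) hF

variable {V : Type} [AddCommGroup V] [Module (ZMod 2) V] {ρ : Representation (ZMod 2) (G3 F) V}

theorem fixD (h : Om ω) (v : V) : ρ (g1 (ω + 1) (om_w h)) v = v ↔ ρ (gD h) v = v := by
  rw [eq_D h]
  constructor
  · intro e
    have h1 : gD h = gD h * gD h * (gD h * gD h) := by
      have h3 := D_3 h
      calc gD h = gD h ^ 3 * gD h := by rw [h3, one_mul]
        _ = gD h * gD h * (gD h * gD h) := by simp only [pow_succ, pow_zero, one_mul, mul_assoc]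
    conv_lhs => rw [h1, ← rmul, e, e]
  · intro e
    rw [← rmul, e, e]

theorem fixP (h : Om ω) (v : V) : ρ (g2 : G3 F) v = v ↔ ρ (gP h) v = v := by
  rw [eq_P h]
  constructor
  · intro e
    have h1 : gP h = gP h * gP h * (gP h * gP h) := by
      have h3 := P_3 h
      calc gP h = gP h ^ 3 * gP h := by rw [h3, one_mul]
        _ = gP h * gP h * (gP h * gP h) := by simp only [pow_succ, pow_zero, one_mul, mul_assoc]
    conv_lhs => rw [h1, ← rmul, e, e]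
  · intro e
    rw [← rmul, e, e]

/-- the fixed space of `gD`, `gP` -/
def MDP (ρ : Representation (ZMod 2) (G3 F) V) (h : Om ω) : Submodule (ZMod 2) V :=
  LinearMap.ker (ρ (gD h) - LinearMap.id) ⊓ LinearMap.ker (ρ (gP h) - LinearMap.id)

theorem mem_MDP {h : Om ω} {v : V} : v ∈ MDP ρ h ↔ ρ (gD h) v = v ∧ ρ (gP h) v = v := by
  rw [MDP, Submodule.mem_inf, LinearMap.mem_ker, LinearMap.mem_ker, LinearMap.sub_apply, LinearMap.sub_apply,
    LinearMap.id_apply, sub_eq_zero, sub_eq_zero]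

theorem VE_MDP (h : Om ω) (hc : CT ρ) : VE ρ (EE (ω + 1) (om_w h)) = MDP ρ h := by
  ext v
  rw [mem_VE_iff (om_w h) hc, mem_MDP, fixD h, fixP h]

theorem h20_of (h : Om ω) (hF : Fintype.card F = 4)
    (h20 : Module.finrank (ZMod 2) (LinearMap.ker (ρ (gD h) - LinearMap.id) ⊓ LinearMap.ker (ρ (gP h) - LinearMap.id) ⊓
      LinearMap.ker (ρ (gZ h) - LinearMap.id) : Submodule (ZMod 2) V) = 20) :
    Module.finrank (ZMod 2) (LinearMap.ker (ρ (g1 (ω + 1) (om_w h)) - LinearMap.id) ⊓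
      LinearMap.ker (ρ g2 - LinearMap.id) ⊓ LinearMap.ker
        (ρ (gi (ω + 1) (om_w h) hF * gi (ω + 1) (om_w h) hF) - LinearMap.id) : Submodule (ZMod 2) V) = 20 := by
  suffices e : (LinearMap.ker (ρ (g1 (ω + 1) (om_w h)) - LinearMap.id) ⊓
      LinearMap.ker (ρ g2 - LinearMap.id) ⊓ LinearMap.ker
        (ρ (gi (ω + 1) (om_w h) hF * gi (ω + 1) (om_w h) hF) - LinearMap.id) : Submodule (ZMod 2) V) =
      LinearMap.ker (ρ (gD h) - LinearMap.id) ⊓ LinearMap.ker (ρ (gP h) - LinearMap.id) ⊓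
      LinearMap.ker (ρ (gZ h) - LinearMap.id) by
    rw [e]
    exact h20
  ext v
  simp only [Submodule.mem_inf, LinearMap.mem_ker, LinearMap.sub_apply, LinearMap.id_apply, sub_eq_zero]
  rw [fixD h, fixP h, eq_W h hF, W_W]

/-- the trace as a sum over the list -/
theorem list_T8 {G : Type*} [Group G] {V : Type*} [AddCommGroup V] [Module (ZMod 2) V]
    (ρ : Representation (ZMod 2) G V) (i j : G) (u : V) :
    (([1, i, i * i, i * i * i, j, j * i, j * (i * i), j * (i * i * i)] : List G).map fun q => ρ q u).sum =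
      T8 ρ i j u := by
  have h1 : ρ (1 : G) u = u := by rw [map_one]; rfl
  simp only [List.map_cons, List.map_nil, List.sum_cons, List.sum_nil, T8_apply, map_add, rmul, h1, add_zero]
  abel

variable [Module.Finite (ZMod 2) V]

/-- **(U2)** `trace_zero` for `gD gP gW gJ` -/
theorem trace_zero (h : Om ω) (hF : Fintype.card F = 4) (hc : CT ρ) {n5 n7 : ℕ}
    (hn5 : n5 = 68 ∨ n5 = 48) (hn7 : n7 = 80 ∨ n7 = 38) (hd : Dims ρ (⊤ : Submodule (ZMod 2) V) 248 86 n5 n7)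
    (h20 : Module.finrank (ZMod 2) (LinearMap.ker (ρ (gD h) - LinearMap.id) ⊓ LinearMap.ker (ρ (gP h) - LinearMap.id) ⊓
      LinearMap.ker (ρ (gZ h) - LinearMap.id) : Submodule (ZMod 2) V) = 20)
    {v : V} (hv : (∃ b W, IsNine ρ b W ∧ v ∈ W) ∨ v ∈ fixAll ρ) {u : V} (h1 : ρ (gD h) u = u) (h2 : ρ (gP h) u = u)
    (e : v = (([1, gW h, gW h * gW h, gW h * gW h * gW h, gJ h, gJ h * gW h, gJ h * (gW h * gW h),
      gJ h * (gW h * gW h * gW h)] : List (G3 F)).map fun q => ρ q u).sum) : v = 0 := by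
  rw [list_T8, T8_apply] at e
  refine trace_zero_unit (om_w h) hF hc hn5 hn7 hd (h20_of h hF h20) hv ((fixD h u).2 h1) ((fixP h u).2 h2) rfl ?_
  rw [eq_W h hF, eq_J h hF]
  exact e

/-- **(S5)** for `gD gP gW gJ` -/
theorem facts (h : Om ω) (hF : Fintype.card F = 4) (hc : CT ρ) {n5 n7 : ℕ}
    (hn5 : n5 = 68 ∨ n5 = 48) (hn7 : n7 = 80 ∨ n7 = 38) (hd : Dims ρ (⊤ : Submodule (ZMod 2) V) 248 86 n5 n7)
    (h20 : Module.finrank (ZMod 2) (LinearMap.ker (ρ (gD h) - LinearMap.id) ⊓ LinearMap.ker (ρ (gP h) - LinearMap.id) ⊓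
      LinearMap.ker (ρ (gZ h) - LinearMap.id) : Submodule (ZMod 2) V) = 20) :
    finrank (ZMod 2) (MDP ρ h) = 32 ∧
    finrank (ZMod 2) ((MDP ρ h).map (ρ (gZ h) - LinearMap.id)) = 12 ∧
    finrank (ZMod 2) ((MDP ρ h).map (T8 ρ (gW h) (gJ h))) = 3 ∧
    ∀ X : Submodule (ZMod 2) V, Inv ρ X → finrank (ZMod 2) X < 64 → (MDP ρ h).map (T8 ρ (gW h) (gJ h)) ⊓ X = ⊥ := by
  have h1 := tr_facts (om_w h) hF hc hn5 hn7 hd (h20_of h hF h20)
  rw [VE_MDP h hc, eq_W h hF, eq_J h hF, W_W] at h1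
  exact h1

/-- traces of `Q₈` on fixed vectors of `E` are fixed by the unitary group -/
theorem T8_VR (h : Om ω) (hF : Fintype.card F = 4) (hc : CT ρ) : (MDP ρ h).map (T8 ρ (gW h) (gJ h)) ≤ VE ρ (RR hF) := by
  rintro _ ⟨y, hy, rfl⟩
  rw [mem_VE]
  intro g hg
  have hy' : y ∈ VE ρ (EE (ω + 1) (om_w h)) := by rw [VE_MDP h hc]; exact hy
  obtain ⟨m1, m2, m3⟩ := T8_mem (om_w h) hF hc hy'
  rw [eq_W h hF, eq_J h hF] at m1 m2 m3
  rw [VE_MDP h hc, mem_MDP] at m1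
  exact Cfsg.Agent.H955.L34.Gen.fix_of550 hF h m1.1 m1.2 m2 m3 hg

end Cfsg.Agent.H904.L34.Uq
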